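import Mathlib
import Cfsg.Agent.Lib.Classical.Witt.TS
import Cfsg.Agent.Lib.Classical.Orth.Siegel

/-!
# Eichler maps and singular lines of a quadratic space over a field

Generic geometry used for the balance theorem: Eichler maps over an arbitrary field `K`, transitivity properties on singular lines,
the parity of the number of singular lines and semilinear maps fixing all singular lines.
-/

set_option autoImplicit false
set_option linter.unusedSectionVars false
set_option linter.unusedVariables false
set_option linter.unusedSimpArgs false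

namespace Cfsg.Agent.Lib.Classical.OrthAut.BalB

open QuadraticMap Module
open Cfsg.Agent.Lib.Classical.Witt.Hyp
open Cfsg.Agent.Lib.Classical.Witt.TS

variable {K V : Type*} [Field K] [AddCommGroup V] [Module K V]
variable (Q : QuadraticForm K V)

theorem pself (x : V) : polar Q x x = 2 * Q x := Cfsg.Agent.Lib.Classical.Witt.Hyp.polar_self Q x

section Sieg

/-- The Eichler map. -/
def siegFun (a c v : V) : V := v + polar Q v a • c - polar Q v c • a - (Q c * polar Q v a) • a

variable {Q} {a c c' : V}

theorem polar_sieg_right (ha : Q a = 0) (hc : polar Q a c = 0) (v : V) :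
    polar Q (siegFun Q a c v) a = polar Q v a := by
  have h1 : polar Q c a = 0 := by rw [polar_comm]; exact hc
  have h2 : polar Q a a = 0 := by rw [pself, ha, mul_zero]
  simp only [siegFun, polar_sub_left, polar_add_left, polar_smul_left, h1, h2, smul_eq_mul]
  ring

theorem polar_sieg_other (ha : Q a = 0) (hc : polar Q a c = 0) (v w : V) :
    polar Q (siegFun Q a c v) w = polar Q v w + polar Q v a * polar Q c w - polar Q v c * polar Q a w -
      Q c * polar Q v a * polar Q a w := by
  simp only [siegFun, polar_sub_left, polar_add_left, polar_smul_left, smul_eq_mul]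

theorem Q_sieg (ha : Q a = 0) (hc : polar Q a c = 0) (v : V) : Q (siegFun Q a c v) = Q v := by
  have h1 : polar Q c a = 0 := by rw [polar_comm]; exact hc
  have e : siegFun Q a c v = (v + polar Q v a • c) + (-(polar Q v c + Q c * polar Q v a)) • a := by
    simp only [siegFun]
    module
  rw [e, QuadraticMap.map_add Q, QuadraticMap.map_add Q, Q.map_smul, Q.map_smul, ha]
  simp only [polar_add_left, polar_smul_left, polar_smul_right, h1, smul_eq_mul]
  ring

theorem sieg_comp (ha : Q a = 0) (hc : polar Q a c = 0) (hc' : polar Q a c' = 0) (v : V) :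
    siegFun Q a c (siegFun Q a c' v) = siegFun Q a (c + c') v := by
  have h1 := polar_sieg_right ha hc' v
  have h2 : polar Q (siegFun Q a c' v) c = polar Q v c + polar Q v a * polar Q c' c := by
    rw [polar_sieg_other ha hc', hc]
    ring
  have h3 : siegFun Q a c (siegFun Q a c' v) = siegFun Q a c' v + polar Q (siegFun Q a c' v) a • c -
      polar Q (siegFun Q a c' v) c • a - (Q c * polar Q (siegFun Q a c' v) a) • a := rfl
  rw [h3, h1, h2]
  simp only [siegFun, polar_add_right, QuadraticMap.map_add Q]
  rw [polar_comm Q c c']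
  module

theorem sieg_zero (v : V) : siegFun Q a 0 v = v := by
  simp [siegFun]

theorem sieg_self (ha : Q a = 0) (hc : polar Q a c = 0) : siegFun Q a c a = a := by
  have h2 : polar Q a a = 0 := by rw [pself, ha, mul_zero]
  simp [siegFun, h2, hc]

variable (Q a c) in
/-- The Eichler map as a linear map. -/
def siegL : V →ₗ[K] V where
  toFun := siegFun Q a c
  map_add' x y := by
    simp only [siegFun, polar_add_left]
    module
  map_smul' t x := by
    simp only [siegFun, polar_smul_left, RingHom.id_apply, smul_eq_mul]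
    module

@[simp] theorem siegL_apply (v : V) : siegL Q a c v = siegFun Q a c v := rfl

/-- The Eichler map as an equivalence. -/
def siegE (ha : Q a = 0) (hc : polar Q a c = 0) : V ≃ₗ[K] V :=
  LinearEquiv.ofLinearMap (siegL Q a c) (siegL Q a (-c))
    (by
      ext v
      have h : polar Q a (-c) = 0 := by rw [polar_neg_right, hc, neg_zero]
      simp only [LinearMap.comp_apply, siegL_apply, LinearMap.id_apply]
      rw [sieg_comp ha hc h, add_neg_cancel, sieg_zero])
    (by
      ext v
      have h : polar Q a (-c) = 0 := by rw [polar_neg_right, hc, neg_zero]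
      simp only [LinearMap.comp_apply, siegL_apply, LinearMap.id_apply]
      rw [sieg_comp ha h hc, neg_add_cancel, sieg_zero])

/-- Moving one singular partner to another. -/
theorem sieg_move {b b' : V} (ha : Q a = 0) (hb : Q b = 0) (hb' : Q b' = 0) (hab : polar Q a b = 1) (hab' : polar Q a b' = 1) :
    siegFun Q a (b' - b) b = b' := by
  have h1 : polar Q b a = 1 := by rw [polar_comm]; exact hab
  have h2 : polar Q b b = 0 := by rw [pself, hb, mul_zero]
  have h3 : Q (b' - b) = -polar Q b' b := by
    rw [sub_eq_add_neg, QuadraticMap.map_add Q, QuadraticMap.map_neg, hb, hb', polar_neg_right]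
    ring
  simp only [siegFun, h1, polar_sub_right, h2, h3, sub_zero, one_smul, mul_one]
  rw [polar_comm Q b b']
  have : (-(polar Q b' b)) • a = -(polar Q b' b • a) := neg_smul _ _
  rw [this]
  abel

/-- The effect on a totally singular partner. -/
theorem polar_sieg_self {b : V} (ha : Q a = 0) (hc : polar Q a c = 0) (hb : Q b = 0) (hba : polar Q b a = 1) :
    polar Q b (siegFun Q a c b) = - Q c := by
  have h2 : polar Q b b = 0 := by rw [pself, hb, mul_zero]
  rw [polar_comm, polar_sieg_other ha hc, h2, hba, polar_comm Q c b, polar_comm Q a b, hba]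
  ring

end Sieg

section Exists

variable {Q}

theorem exists_polar_ne (hQ : PolarNondeg Q) {a : V} (ha : a ≠ 0) : ∃ w, polar Q a w = 1 := by
  obtain ⟨y, hy⟩ : ∃ y, polar Q a y ≠ 0 := by
    by_contra hcon
    push Not at hcon
    exact ha (hQ a hcon)
  refine ⟨(polar Q a y)⁻¹ • y, ?_⟩
  rw [polar_smul_right, smul_eq_mul, inv_mul_cancel₀ hy]

/-- Separating two independent functionals. -/
theorem exists_sep (hQ : PolarNondeg Q) {a b : V} (ha : a ≠ 0) (hb : b ∉ Submodule.span K {a}) :
    ∃ w, polar Q a w = 0 ∧ polar Q b w = 1 := by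
  obtain ⟨w₀, hw₀⟩ := exists_polar_ne hQ ha
  by_contra hcon
  push Not at hcon
  have h1 : ∀ w, polar Q a w = 0 → polar Q b w = 0 := by
    intro w hw
    by_contra hne
    apply hcon ((polar Q b w)⁻¹ • w)
    · rw [polar_smul_right, hw, smul_zero]
    · rw [polar_smul_right, smul_eq_mul, inv_mul_cancel₀ hne]
  apply hb
  rw [Submodule.mem_span_singleton]
  refine ⟨polar Q b w₀, ?_⟩
  symm
  rw [← sub_eq_zero]
  apply hQ
  intro y
  have h2 := h1 (y - polar Q a y • w₀) (by
    rw [polar_sub_right, polar_smul_right, hw₀, smul_eq_mul, mul_one, sub_self])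
  rw [polar_sub_right, polar_smul_right, smul_eq_mul] at h2
  rw [polar_sub_left, polar_smul_left, smul_eq_mul]
  linear_combination h2

/-- A singular vector perpendicular to `a` with prescribed value on `b`. -/
theorem exists_perp_singular_partner (hQ : PolarNondeg Q) {a b : V} (ha0 : a ≠ 0) (hb : Q b = 0) (hab : polar Q a b = 0)
    (hind : b ∉ Submodule.span K {a}) : ∃ a', Q a' = 0 ∧ polar Q a a' = 0 ∧ polar Q b a' = 1 := by
  obtain ⟨w, hw1, hw2⟩ := exists_sep hQ ha0 hind
  refine ⟨w - Q w • b, ?_, ?_, ?_⟩
  · rw [sub_eq_add_neg, QuadraticMap.map_add Q, QuadraticMap.map_neg, Q.map_smul, hb, polar_neg_right, polar_smul_right,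
      polar_comm Q w b, hw2]
    simp
  · rw [polar_sub_right, polar_smul_right, hw1, hab]
    simp
  · have h2 : polar Q b b = 0 := by rw [pself, hb, mul_zero]
    rw [polar_sub_right, polar_smul_right, hw2, h2]
    simp

/-- A singular vector not perpendicular to two given nonzero vectors, which are perpendicular to each other. -/
theorem exists_common_partner (hQ : PolarNondeg Q) {a r : V} (ha0 : a ≠ 0) (hr0 : r ≠ 0) (ha : Q a = 0) (har : polar Q a r = 0) :
    ∃ z, Q z = 0 ∧ z ≠ 0 ∧ polar Q a z ≠ 0 ∧ polar Q r z ≠ 0 := by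
  obtain ⟨w₁, hw₁⟩ := exists_polar_ne hQ ha0
  obtain ⟨w₂, hw₂⟩ := exists_polar_ne hQ hr0
  obtain ⟨w, hw1, hw2⟩ : ∃ w, polar Q a w ≠ 0 ∧ polar Q r w ≠ 0 := by
    by_cases h1 : polar Q r w₁ = 0
    · by_cases h3 : polar Q a w₂ = 0
      · refine ⟨w₁ + w₂, ?_, ?_⟩
        · rw [polar_add_right, hw₁, h3, add_zero]
          exact one_ne_zero
        · rw [polar_add_right, h1, hw₂, zero_add]
          exact one_ne_zero
      · exact ⟨w₂, h3, by rw [hw₂]; exact one_ne_zero⟩
    · exact ⟨w₁, by rw [hw₁]; exact one_ne_zero, h1⟩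
  set t := Q w / polar Q a w with ht
  have h2 : polar Q r a = 0 := by rw [polar_comm]; exact har
  have h3 : polar Q a a = 0 := by rw [pself, ha, mul_zero]
  have hz1 : polar Q a (w - t • a) = polar Q a w := by
    rw [polar_sub_right, polar_smul_right, h3]
    simp
  have hz2 : polar Q r (w - t • a) = polar Q r w := by
    rw [polar_sub_right, polar_smul_right, h2]
    simp
  refine ⟨w - t • a, ?_, ?_, by rw [hz1]; exact hw1, by rw [hz2]; exact hw2⟩
  · rw [sub_eq_add_neg, QuadraticMap.map_add Q, QuadraticMap.map_neg, Q.map_smul, ha, polar_neg_right, polar_smul_right,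
      polar_comm Q w a]
    simp only [smul_eq_mul, mul_zero, add_zero, ht]
    field_simp
    ring
  · intro h
    rw [h, polar_zero_right] at hz1
    exact hw1 hz1.symm

variable [FiniteDimensional K V]

/-- The common perpendicular of two vectors is large. -/
theorem finrank_perp_two (a b : V) :
    finrank K V ≤ finrank K ↥(LinearMap.ker (polarBilin Q a) ⊓ LinearMap.ker (polarBilin Q b)) + 2 := by
  have h0 := LinearMap.finrank_range_add_finrank_ker ((polarBilin Q a).prod (polarBilin Q b))
  have h1 : finrank K ↥(LinearMap.range ((polarBilin Q a).prod (polarBilin Q b))) ≤ 2 := by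
    refine (Submodule.finrank_le _).trans ?_
    simp
  have h2 : LinearMap.ker ((polarBilin Q a).prod (polarBilin Q b)) = LinearMap.ker (polarBilin Q a) ⊓ LinearMap.ker (polarBilin Q b) := by
    rw [LinearMap.ker_prod]
  rw [h2] at h0
  omega

/-- A nonsingular vector perpendicular to two given vectors. -/
theorem exists_nonsingular_perp (hQ : PolarNondeg Q) (h5 : 5 ≤ finrank K V) (a b : V) :
    ∃ c, polar Q a c = 0 ∧ polar Q b c = 0 ∧ Q c ≠ 0 := by
  by_contra hcon
  push Not at hcon
  have hTS : IsTS Q (LinearMap.ker (polarBilin Q a) ⊓ LinearMap.ker (polarBilin Q b)) := by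
    intro w hw
    obtain ⟨h1, h3⟩ := Submodule.mem_inf.1 hw
    exact hcon w h1 h3
  have h1 := IsTS.two_mul_finrank_le hQ hTS
  have h2 := finrank_perp_two (Q := Q) a b
  omega

/-- Two independent perpendicular singular vectors force the dimension to be at least four. -/
theorem four_le_of_ts (hQ : PolarNondeg Q) {a b : V} (ha0 : a ≠ 0) (ha : Q a = 0) (hb : Q b = 0) (hab : polar Q a b = 0)
    (hind : b ∉ Submodule.span K {a}) : 4 ≤ finrank K V := by
  have hTS : IsTS Q (Submodule.span K {a, b}) := by
    intro w hw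
    obtain ⟨s, t, rfl⟩ := Submodule.mem_span_pair.1 hw
    rw [QuadraticMap.map_add Q, Q.map_smul, Q.map_smul, polar_smul_left, polar_smul_right, ha, hb, hab]
    simp
  have h1 := IsTS.two_mul_finrank_le hQ hTS
  have h2 : finrank K ↥(Submodule.span K {a, b}) = 2 := by
    have hli : LinearIndependent K ![a, b] := by
      rw [LinearIndependent.pair_iff]
      intro s t hst
      by_cases ht : t = 0
      · subst ht
        rw [zero_smul, add_zero] at hst
        exact ⟨(smul_eq_zero.1 hst).resolve_right ha0, rfl⟩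
      · exfalso
        apply hind
        rw [Submodule.mem_span_singleton]
        refine ⟨-(t⁻¹ * s), ?_⟩
        have : b = t⁻¹ • (t • b) := by rw [smul_smul, inv_mul_cancel₀ ht, one_smul]
        rw [this, eq_neg_of_add_eq_zero_right hst, smul_neg, neg_smul, smul_smul]
    have := finrank_span_eq_card hli
    have hr : Set.range ![a, b] = {a, b} := by
      ext x
      simp [Matrix.range_cons, Matrix.range_empty, eq_comm]
      exact or_comm
    rw [hr] at this
    simpa using this
  omega

end Exists

section Lines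

variable (K) in
/-- The line spanned by a vector, as a set. -/
def line (a : V) : Set V := Set.range (fun k : K => k • a)

theorem mem_line {a v : V} : v ∈ line K a ↔ ∃ k : K, k • a = v := Iff.rfl

theorem self_mem_line (a : V) : a ∈ line K a := ⟨1, one_smul _ _⟩

theorem line_smul {a : V} {t : K} (ht : t ≠ 0) : line K (t • a) = line K a := by
  ext v
  constructor
  · rintro ⟨k, rfl⟩
    exact ⟨k * t, by change (k * t) • a = k • t • a; rw [smul_smul]⟩
  · rintro ⟨k, rfl⟩
    refine ⟨k * t⁻¹, ?_⟩
    change (k * t⁻¹) • t • a = k • a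
    simp only [smul_smul, mul_assoc, inv_mul_cancel₀ ht, mul_one]

theorem line_eq_of_mem {a b : V} (hb : b ≠ 0) (h : b ∈ line K a) : line K b = line K a := by
  obtain ⟨k, rfl⟩ := h
  apply line_smul
  rintro rfl
  exact hb (zero_smul _ _)

theorem image_line {V' : Type*} [AddCommGroup V'] [Module K V'] (f : V →ₗ[K] V') (a : V) : f '' line K a = line K (f a) := by
  ext v
  constructor
  · rintro ⟨_, ⟨k, rfl⟩, rfl⟩
    exact ⟨k, by simp⟩
  · rintro ⟨k, rfl⟩
    exact ⟨k • a, ⟨k, rfl⟩, by simp⟩

theorem mem_span_of_mem_line {a b : V} (h : b ∈ line K a) : b ∈ Submodule.span K {a} := by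
  obtain ⟨k, rfl⟩ := h
  exact Submodule.smul_mem _ _ (Submodule.mem_span_singleton_self _)

theorem mem_line_of_mem_span {a b : V} (h : b ∈ Submodule.span K {a}) : b ∈ line K a := by
  obtain ⟨k, rfl⟩ := Submodule.mem_span_singleton.1 h
  exact ⟨k, rfl⟩

end Lines

section Parity

open scoped Pointwise

variable [Finite K]

/-- The set of singular lines. -/
def SingLines (Q : QuadraticForm K V) : Set (Set V) := {S | ∃ a : V, a ≠ 0 ∧ Q a = 0 ∧ S = line K a}

/-- The parity of the number of singular lines for a diagonal form. -/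
theorem even_lines_diag (h2 : (2 : K) ≠ 0) {d : ℕ} (w : Fin d → Kˣ) :
    Even (Nat.card (SingLines (QuadraticMap.weightedSumSquares K w))) := by
  classical
  set Qw := QuadraticMap.weightedSumSquares K w with hQw
  have hQw' : ∀ x : Fin d → K, Qw x = ∑ i, (w i : K) * (x i * x i) := by
    intro x
    rw [hQw, QuadraticMap.weightedSumSquares_apply]
    simp [Units.smul_def]
  have hsm : ∀ (ε : Fin d → ℤˣ) (x : Fin d → K), Qw (ε • x) = Qw x := by
    intro ε x
    rw [hQw', hQw']
    refine Finset.sum_congr rfl (fun i _ => ?_)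
    have h1 : (ε • x) i = ε i • x i := rfl
    rw [h1]
    rcases Int.units_eq_one_or (ε i) with h | h <;> rw [h] <;> simp
  have hline : ∀ (ε : Fin d → ℤˣ) (x : Fin d → K), ε • line K x = line K (ε • x) := by
    intro ε x
    ext v
    constructor
    · rintro ⟨_, ⟨k, rfl⟩, rfl⟩
      refine ⟨k, ?_⟩
      funext i
      change k * (ε i • x i) = ε i • (k * x i)
      rcases Int.units_eq_one_or (ε i) with h | h <;> rw [h] <;> simp
    · rintro ⟨k, rfl⟩
      refine ⟨k • x, ⟨k, rfl⟩, ?_⟩
      funext i
      change ε i • (k * x i) = k * (ε i • x i)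
      rcases Int.units_eq_one_or (ε i) with h | h <;> rw [h] <;> simp
  let A : SubMulAction (Fin d → ℤˣ) (Set (Fin d → K)) :=
    { carrier := SingLines Qw
      smul_mem' := by
        rintro ε _ ⟨x, hx0, hx, rfl⟩
        refine ⟨ε • x, ?_, by rw [hsm, hx], hline ε x⟩
        intro h
        apply hx0
        have h1 : ε⁻¹ • (ε • x) = x := inv_smul_smul ε x
        rw [← h1, h, smul_zero] }
  have hp : IsPGroup 2 (Fin d → ℤˣ) := by
    intro g
    refine ⟨1, ?_⟩
    funext i
    simp [Int.units_pow_two]
  have : Finite A := by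
    have : Finite (Set (Fin d → K)) := inferInstance
    exact Subtype.finite
  have h0 := hp.card_modEq_card_fixedPoints A
  have hfix : IsEmpty (MulAction.fixedPoints (Fin d → ℤˣ) A) := by
    constructor
    rintro ⟨⟨_, x, hx0, hx, rfl⟩, hfx⟩
    obtain ⟨i, hi⟩ : ∃ i, x i ≠ 0 := by
      by_contra hcon
      push Not at hcon
      exact hx0 (funext hcon)
    obtain ⟨j, hji, hj⟩ : ∃ j, j ≠ i ∧ x j ≠ 0 := by
      by_contra hcon
      push Not at hcon
      have h1 := hx
      rw [hQw', Finset.sum_eq_single i (fun b _ hb => by rw [hcon b hb]; simp) (by simp)] at h1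
      exact (mul_ne_zero (w i).ne_zero (mul_ne_zero hi hi)) h1
    set ε : Fin d → ℤˣ := Function.update 1 i (-1) with hε
    have h1 := hfx ε
    have h3 : ε • line K x = line K x := congrArg Subtype.val h1
    rw [hline] at h3
    have h4 : ε • x ∈ line K x := by
      rw [← h3]
      exact self_mem_line _
    obtain ⟨k, hk⟩ := h4
    have h5 := congrFun hk j
    have h6 := congrFun hk i
    have h7 : (ε • x) j = x j := by
      change ε j • x j = x j
      rw [hε, Function.update_of_ne hji]
      simp
    have h8 : (ε • x) i = - x i := by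
      change ε i • x i = - x i
      rw [hε, Function.update_self]
      simp
    simp only [Pi.smul_apply, smul_eq_mul] at h5 h6
    rw [h7] at h5
    rw [h8] at h6
    have h9 : k = 1 := by
      apply mul_right_cancel₀ hj
      rw [h5, one_mul]
    rw [h9, one_mul] at h6
    apply hi
    have h10 : (2 : K) * x i = 0 := by linear_combination h6
    exact (mul_eq_zero.1 h10).resolve_left h2
  have h3 : Nat.card (MulAction.fixedPoints (Fin d → ℤˣ) A) = 0 := Nat.card_of_isEmpty
  rw [h3] at h0
  have h4 : 2 ∣ Nat.card A := (Nat.modEq_zero_iff_dvd).1 h0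
  exact even_iff_two_dvd.2 h4

variable [FiniteDimensional K V]

/-- The parity of the number of singular lines. -/
theorem even_lines (h2 : (2 : K) ≠ 0) (hQ : PolarNondeg Q) : Even (Nat.card (SingLines Q)) := by
  classical
  letI : Invertible (2 : K) := invertibleOfNonzero h2
  have hsep : (associated (R := K) Q).SeparatingLeft := by
    intro x hx
    apply hQ
    intro y
    have h1 := hx y
    have h4 : ((2 : ℕ) • associated (R := K) Q) x y = polarBilin Q x y := by
      rw [QuadraticMap.two_nsmul_associated K Q]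
    have h5 : polar Q x y = (2 : ℕ) • associated (R := K) Q x y := h4.symm
    rw [h5, h1, smul_zero]
  obtain ⟨w, ⟨φ⟩⟩ := QuadraticForm.equivalent_weightedSumSquares_units_of_nondegenerate' Q hsep
  have h1 := even_lines_diag h2 w
  convert h1 using 1
  apply Nat.card_congr
  refine
    { toFun := fun S => ⟨φ '' S.1, ?_⟩
      invFun := fun S => ⟨φ.symm '' S.1, ?_⟩
      left_inv := ?_
      right_inv := ?_ }
  · obtain ⟨S, a, ha0, ha, rfl⟩ := S
    refine ⟨φ a, ?_, ?_, ?_⟩
    · intro h
      apply ha0
      have := φ.toLinearEquiv.map_eq_zero_iff.1 h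
      exact this
    · rw [φ.map_app, ha]
    · exact image_line φ.toLinearEquiv.toLinearMap a
  · obtain ⟨S, a, ha0, ha, rfl⟩ := S
    refine ⟨φ.symm a, ?_, ?_, ?_⟩
    · intro h
      apply ha0
      have := φ.symm.toLinearEquiv.map_eq_zero_iff.1 h
      exact this
    · rw [φ.symm.map_app, ha]
    · exact image_line φ.symm.toLinearEquiv.toLinearMap a
  · rintro ⟨S, hS⟩
    apply Subtype.ext
    show φ.symm '' (φ '' S) = S
    rw [Set.image_image]
    simp
  · rintro ⟨S, hS⟩
    apply Subtype.ext
    show φ '' (φ.symm '' S) = S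
    rw [Set.image_image]
    simp

end Parity

section Scalar

variable {Q}

/-- The vector identity behind rigidity: a semilinear map fixing the singular lines acts on the perpendicular of a hyperbolic pair
by the eigenvalue of either member of the pair. -/
theorem eig_triple (h2 : (2 : K) ≠ 0) (s : V →+ V) (τ : K → K) (hτ : ∀ k v, s (k • v) = τ k • s v)
    (heig : ∀ v, Q v = 0 → ∃ α : K, s v = α • v) {a b c : V} (ha : Q a = 0) (hb : Q b = 0) (hab : polar Q a b = 1)
    (hca : polar Q a c = 0) (hcb : polar Q b c = 0) (hc : Q c ≠ 0) {αa αb : K} (h1 : s a = αa • a) (h3 : s b = αb • b) :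
    s c = αa • c := by
  set κ := Q c with hκ
  have hba : polar Q b a = 1 := by rw [polar_comm]; exact hab
  have hac' : polar Q c a = 0 := by rw [polar_comm]; exact hca
  have hbc' : polar Q c b = 0 := by rw [polar_comm]; exact hcb
  have haa : polar Q a a = 0 := by rw [pself, ha, mul_zero]
  have hbb : polar Q b b = 0 := by rw [pself, hb, mul_zero]
  have hcc : polar Q c c = 2 * κ := by rw [pself]
  have hz : Q (a + c - κ • b) = 0 := by
    have e : a + c - κ • b = (a + c) + (-κ) • b := by module
    rw [e, QuadraticMap.map_add Q, QuadraticMap.map_add Q, Q.map_smul, ha, hb, polar_add_left, polar_smul_right, polar_smul_right, hca, hab, hbc', ← hκ]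
    simp
  have hz' : Q (a - c - κ • b) = 0 := by
    have e : a - c - κ • b = (a + (-c)) + (-κ) • b := by module
    rw [e, QuadraticMap.map_add Q, QuadraticMap.map_add Q, Q.map_smul, ha, hb, polar_add_left, polar_smul_right, polar_smul_right, polar_neg_right,
      polar_neg_left, hca, hab, hbc', QuadraticMap.map_neg, ← hκ]
    simp
  obtain ⟨αz, hαz⟩ := heig _ hz
  obtain ⟨αz', hαz'⟩ := heig _ hz'
  rw [map_sub, map_add, hτ, h1, h3] at hαz
  rw [map_sub, map_sub, hτ, h1, h3] at hαz'
  have e3 : (2 * αa) • a - (2 * (τ κ * αb)) • b = (αz + αz') • a + (αz - αz') • c - ((αz + αz') * κ) • b := by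
    linear_combination (norm := module) hαz + hαz'
  have e4 := congrArg (fun v => polar Q v b) e3
  have e5 := congrArg (fun v => polar Q v a) e3
  have e6 := congrArg (fun v => polar Q v c) e3
  simp only [polar_sub_left, polar_add_left, polar_smul_left, hab, hbb, hbc', hba, haa, hac', hca, hcb, hcc, smul_eq_mul] at e4 e5 e6
  have e7 : αz = αz' := by
    have h4 : (αz - αz') * (2 * κ) = 0 := by linear_combination -e6
    have h5 := (mul_eq_zero.1 h4).resolve_right (mul_ne_zero h2 hc)
    exact sub_eq_zero.1 h5
  have e8 : αz = αa := by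
    have h4 : 2 * (αz - αa) = 0 := by
      rw [← e7] at e4
      linear_combination -e4
    exact sub_eq_zero.1 ((mul_eq_zero.1 h4).resolve_left h2)
  have e9 : τ κ * αb = αa * κ := by
    have h4 : 2 * (τ κ * αb - αa * κ) = 0 := by
      rw [← e7, e8] at e5
      linear_combination -e5
    exact sub_eq_zero.1 ((mul_eq_zero.1 h4).resolve_left h2)
  rw [smul_smul, e9, e8] at hαz
  have e10 : s c = αa • a + s c - αa • a := by abel
  rw [e10]
  linear_combination (norm := module) hαz

variable [Finite K] [FiniteDimensional K V]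

/-- A nonsingular vector in the perpendicular of a hyperbolic pair. -/
theorem exists_perp_nonsingular (hQ : PolarNondeg Q) (h3 : 3 ≤ finrank K V) {a b : V} (ha : Q a = 0) (hb : Q b = 0) (hab : polar Q a b = 1) :
    ∃ c, polar Q a c = 0 ∧ polar Q b c = 0 ∧ Q c ≠ 0 := by
  by_contra hcon
  push Not at hcon
  have h1 : ∀ x ∈ perpPair Q a b, x = 0 := by
    intro x hx
    have hx' := mem_perpPair.1 hx
    have hnd := polarNondeg_perpPair hQ ha hb hab
    have h5 : (⟨x, hx⟩ : ↥(perpPair Q a b)) = 0 := by
      apply hnd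
      intro y
      have hy' := mem_perpPair.1 y.2
      have h6 := hcon x hx'.1 hx'.2
      have h7 := hcon y.1 hy'.1 hy'.2
      have h8 := hcon (x + y.1) (by rw [polar_add_right, hx'.1, hy'.1, add_zero]) (by rw [polar_add_right, hx'.2, hy'.2, add_zero])
      have h9 : polar Q x y.1 = 0 := by
        rw [polar, h6, h7, h8]
        ring
      change polar (Q.comp (perpPair Q a b).subtype) _ _ = 0
      exact h9
    exact congrArg Subtype.val h5
  have h4 : perpPair Q a b = ⊥ := (Submodule.eq_bot_iff _).2 h1
  have h5 := finrank_perpPair ha hb hab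
  rw [h4, finrank_bot] at h5
  omega

/-- **A semilinear map fixing all singular lines is a scalar and is linear.** -/
theorem scalar_of_lines (h2 : (2 : K) ≠ 0) (hQ : PolarNondeg Q) (h3 : 3 ≤ finrank K V) (s : V →+ V) (τ : K → K)
    (hτ : ∀ k v, s (k • v) = τ k • s v) (hinj : Function.Injective s) (heig : ∀ v, Q v = 0 → ∃ α : K, s v = α • v) :
    (∀ k, τ k = k) ∧ ∃ α : K, α ≠ 0 ∧ ∀ v, s v = α • v := by
  obtain ⟨a₀, ha₀0, ha₀⟩ := exists_singular_of_three_le Q h3
  have hne : ∀ {v : V} {α : K}, v ≠ 0 → s v = α • v → α ≠ 0 := by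
    rintro v α hv hα rfl
    rw [zero_smul] at hα
    exact hv (hinj (hα.trans (map_zero s).symm))
  -- eigenvalues of a hyperbolic pair agree
  have hpair : ∀ {a b : V} {αa αb : K}, Q a = 0 → Q b = 0 → polar Q a b = 1 → s a = αa • a → s b = αb • b → αa = αb := by
    intro a b αa αb ha hb hab h1 h4
    have hba : polar Q b a = 1 := by rw [polar_comm]; exact hab
    obtain ⟨c, hc1, hc2, hc3⟩ := exists_perp_nonsingular hQ h3 ha hb hab
    have h5 := eig_triple h2 s τ hτ heig ha hb hab hc1 hc2 hc3 h1 h4
    have h6 := eig_triple h2 s τ hτ heig hb ha hba hc2 hc1 hc3 h4 h1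
    have hc0 : c ≠ 0 := by
      rintro rfl
      exact hc3 (by simp)
    have h7 : (αa - αb) • c = 0 := by
      rw [sub_smul, ← h5, ← h6, sub_self]
    exact sub_eq_zero.1 ((smul_eq_zero.1 h7).resolve_right hc0)
  -- `τ` is the identity
  have hτid : ∀ k, τ k = k := by
    intro k
    by_cases hk : k = 0
    · subst hk
      obtain ⟨α, hα⟩ := heig a₀ ha₀
      have h1 := hτ 0 a₀
      rw [zero_smul, map_zero] at h1
      have h4 := (smul_eq_zero.1 h1.symm).resolve_right (by
        intro h
        exact ha₀0 (hinj (h.trans (map_zero s).symm)))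
      exact h4
    obtain ⟨b, hb, hab⟩ := exists_partner hQ ha₀0 ha₀
    obtain ⟨c, hc1, hc2, hc3⟩ := exists_perp_nonsingular hQ h3 ha₀ hb hab
    obtain ⟨αa, h1⟩ := heig a₀ ha₀
    obtain ⟨αb, h4⟩ := heig b hb
    have h5 := eig_triple h2 s τ hτ heig ha₀ hb hab hc1 hc2 hc3 h1 h4
    have h6 := eig_triple h2 s τ hτ heig ha₀ hb hab (c := k • c) (by rw [polar_smul_right, hc1, smul_zero])
      (by rw [polar_smul_right, hc2, smul_zero]) (by
        rw [Q.map_smul]
        exact smul_ne_zero (mul_ne_zero hk hk) hc3) h1 h4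
    rw [hτ, h5, smul_smul, smul_smul] at h6
    have hc0 : c ≠ 0 := by
      rintro rfl
      exact hc3 (by simp)
    have hαa : αa ≠ 0 := hne ha₀0 h1
    have h7 : (τ k * αa - αa * k) • c = 0 := by
      rw [sub_smul, h6, sub_self]
    have h8 := sub_eq_zero.1 ((smul_eq_zero.1 h7).resolve_right hc0)
    apply mul_right_cancel₀ hαa
    rw [h8, mul_comm]
  refine ⟨hτid, ?_⟩
  -- eigenvalues of non-perpendicular vectors agree
  have hnp : ∀ {a b : V} {αa αb : K}, Q a = 0 → Q b = 0 → polar Q a b ≠ 0 → s a = αa • a → s b = αb • b → αa = αb := by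
    intro a b αa αb ha hb hab h1 h4
    set t := polar Q a b with ht
    refine hpair ha (b := t⁻¹ • b) (by rw [Q.map_smul, hb, smul_zero]) (by
      rw [polar_smul_right, smul_eq_mul, ← ht, inv_mul_cancel₀ hab]) h1 ?_
    rw [hτ, hτid, h4, smul_comm]
  obtain ⟨α, hα⟩ := heig a₀ ha₀
  have hall : ∀ v, Q v = 0 → s v = α • v := by
    intro v hv
    by_cases hv0 : v = 0
    · subst hv0
      simp
    obtain ⟨β, hβ⟩ := heig v hv
    by_cases hp : polar Q a₀ v = 0
    · obtain ⟨z, hz, hz0, hz1, hz2⟩ := exists_common_partner hQ ha₀0 hv0 ha₀ hp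
      obtain ⟨γ, hγ⟩ := heig z hz
      rw [hβ, ← hnp hz hv (by rw [polar_comm]; exact hz2) hγ hβ, ← hnp ha₀ hz hz1 hα hγ]
    · rw [hβ, ← hnp ha₀ hv hp hα hβ]
  refine ⟨α, hne ha₀0 hα, ?_⟩
  intro v
  by_cases hv : v = 0
  · subst hv
    simp
  obtain ⟨y, hy, hvy⟩ := Cfsg.Agent.Lib.Classical.Orth.Siegel.exists_singular_not_orth hQ h3 hv
  set c := Q v / polar Q v y with hc
  set w := v - c • y with hw
  have hvw : v = w + c • y := by
    rw [hw]
    abel
  have hQw : Q w = 0 := by
    rw [hw, sub_eq_add_neg, QuadraticMap.map_add Q, QuadraticMap.map_neg, Q.map_smul, hy, polar_neg_right, polar_smul_right, hc]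
    simp only [smul_eq_mul, mul_zero, add_zero]
    field_simp
    ring
  rw [hvw, map_add, hall w hQw, hτ, hτid, hall y hy, smul_add, smul_comm]

end Scalar

end Cfsg.Agent.Lib.Classical.OrthAut.BalB
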