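import Mathlib

/-!
# A block lemma for groups of odd order acting on a polar geometry
-/

set_option autoImplicit false
set_option linter.unusedSectionVars false
set_option linter.unusedVariables false

namespace Cfsg.Agent.Lib.Classical.OrthAut.BalA

open MulAction

section Block

variable {S G : Type*} [Group G] [MulAction G S]

/-- **Block lemma.**  A subgroup of odd order normalised by sufficiently many transitive elements acts trivially. -/
theorem block_trivial (X : Set S) [Finite X] (L : Subgroup G) (hLX : ∀ l ∈ L, ∀ P ∈ X, l • P ∈ X)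
    (perp : S → S → Prop) (hsymm : ∀ P R, perp P R → perp R P) (U : Set G)
    (hUX : ∀ u ∈ U, ∀ P ∈ X, u • P ∈ X) (hUn : ∀ u ∈ U, ∀ l ∈ L, u * l * u⁻¹ ∈ L)
    (hodd : ∀ P ∈ X, Odd (Nat.card (orbit L P)))
    (H1 : ∀ P ∈ X, ∀ R ∈ X, ∀ R' ∈ X, ¬ perp P R → ¬ perp P R' → ∃ u ∈ U, u • P = P ∧ u • R = R')
    (H2 : ∀ P ∈ X, ∀ R ∈ X, R ≠ P → perp P R → ∃ u ∈ U, u • P = P ∧ ¬ perp R (u • R))
    (H3 : ∀ P ∈ X, ∀ R ∈ X, perp P R → ∃ Z ∈ X, ¬ perp P Z ∧ ¬ perp R Z)
    (H4 : Even (Nat.card X)) : ∀ l ∈ L, ∀ P ∈ X, l • P = P := by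
  -- orbits are invariant under elements of `U` fixing the base point
  have hinv : ∀ P : S, ∀ u ∈ U, u • P = P → ∀ R ∈ orbit L P, u • R ∈ orbit L P := by
    rintro P u hu hP _ ⟨l, rfl⟩
    refine ⟨⟨u * l.1 * u⁻¹, hUn u hu l.1 l.2⟩, ?_⟩
    change (u * l.1 * u⁻¹) • P = u • (l.1 • P)
    rw [mul_smul, mul_smul]
    congr 2
    rw [inv_smul_eq_iff, hP]
  have hX : ∀ P ∈ X, ∀ R ∈ orbit L P, R ∈ X := by
    rintro P hP _ ⟨l, rfl⟩
    exact hLX l.1 l.2 P hP
  -- step 1
  have step1 : ∀ P ∈ X, ∀ R ∈ orbit L P, ¬ perp P R → ∀ R' ∈ X, ¬ perp P R' → R' ∈ orbit L P := by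
    intro P hP R hR hPR R' hR' hPR'
    obtain ⟨u, hu, hu1, hu2⟩ := H1 P hP R (hX P hP R hR) R' hR' hPR hPR'
    rw [← hu2]
    exact hinv P u hu hu1 R hR
  -- step 2
  have step2 : ∀ P ∈ X, ∀ R ∈ orbit L P, ¬ perp P R → ∀ R' ∈ X, R' ∈ orbit L P := by
    intro P hP R hR hPR R' hR'
    by_cases hp : perp P R'
    swap
    · exact step1 P hP R hR hPR R' hR' hp
    obtain ⟨Z, hZ, hPZ, hR'Z⟩ := H3 P hP R' hR' hp
    have hZP : Z ∈ orbit L P := step1 P hP R hR hPR Z hZ hPZ
    have he : orbit L Z = orbit L P := orbit_eq_iff.2 hZP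
    rw [← he]
    refine step1 Z hZ P ?_ (fun h => hPZ (hsymm _ _ h)) R' hR' (fun h => hR'Z (hsymm _ _ h))
    rw [he]
    exact mem_orbit_self P
  -- step 3
  have step3 : ∀ P ∈ X, ¬ (∀ R' ∈ X, R' ∈ orbit L P) := by
    intro P hP hall
    have he : orbit L P = X := Set.Subset.antisymm (hX P hP) hall
    have h1 := hodd P hP
    rw [he] at h1
    exact (Nat.not_even_iff_odd.2 h1) H4
  intro l hl P hP
  by_contra hne
  set R := l • P with hR
  have hRo : R ∈ orbit L P := ⟨⟨l, hl⟩, rfl⟩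
  have hRX : R ∈ X := hLX l hl P hP
  by_cases hperp : perp P R
  · obtain ⟨u, hu, hu1, hu2⟩ := H2 P hP R hRX hne hperp
    have hR2 : u • R ∈ orbit L P := hinv P u hu hu1 R hRo
    have he : orbit L R = orbit L P := orbit_eq_iff.2 hRo
    apply step3 R hRX
    refine step2 R hRX (u • R) ?_ hu2
    rw [he]
    exact hR2
  · exact step3 P hP (step2 P hP R hRo hperp)

/-- Orbits of a group whose action factors through a group of odd order have odd length. -/
theorem odd_orbit (L : Subgroup G) (P : S) {H : Type*} [Group H] (f : L →* H)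
    (hf : ∀ z : L, f z = 1 → (z : G) • P = P) (hH : Odd (Nat.card f.range)) :
    Odd (Nat.card (orbit L P)) := by
  have h1 : f.ker ≤ stabilizer L P := by
    intro z hz
    exact hf z hz
  have h2 : (stabilizer L P).index ∣ f.ker.index := Subgroup.index_dvd_of_le h1
  rw [Subgroup.index_ker] at h2
  have h3 : (stabilizer L P).index = Nat.card (orbit L P) := by
    exact index_stabilizer L P
  rw [← h3]
  exact Odd.of_dvd_nat hH h2

end Block

end Cfsg.Agent.Lib.Classical.OrthAut.BalA
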