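import Mathlib
import Cfsg.Agent.Lib.Classical.OrthAut.FldJO
import Cfsg.Agent.Lib.Classical.Orth.Semi8

/-!
# Minus-type forms over a finite field: all of them are isometric
-/

set_option autoImplicit false
set_option linter.unusedSectionVars false
set_option linter.unusedSimpArgs false
set_option linter.unusedVariables false
set_option linter.style.haveILetI false

namespace Cfsg.Agent.Lib.Classical.OrthAut.MinusA

open Matrix QuadraticMap Module
open Cfsg.Agent.Lib.Classical.Orth.Models
open Cfsg.Agent.Lib.Linalg.BinaryAniso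

section Root

open Polynomial in
/-- A quadratic polynomial over a finite field has a root in any quadratic extension. -/
theorem exists_root_quad {K L : Type*} [Field K] [Fintype K] [Field L] [Fintype L] (j : K →+* L)
    (hc : Fintype.card L = Fintype.card K ^ 2) (a b : K) : ∃ z : L, z ^ 2 + j a * z + j b = 0 := by
  classical
  set f : K[X] := X ^ 2 + C a * X + C b with hf
  have hdeg : f.natDegree = 2 := by
    rw [hf]
    compute_degree!
  have hm : f.Monic := by
    rw [hf]
    monicity!
  have hval : ∀ z : L, (f.map j).eval z = z ^ 2 + j a * z + j b := by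
    intro z
    simp [hf]
  by_cases hirr : Irreducible f
  · have hd : f ∣ X ^ (Nat.card K) ^ 2 - X :=
      (hirr.natDegree_dvd_iff_dvd_X_pow_card_pow_sub_X).1 (by rw [hdeg])
    have hd' : f.map j ∣ (X ^ Fintype.card L - X : L[X]) := by
      have h1 := Polynomial.map_dvd j hd
      rw [Nat.card_eq_fintype_card, ← hc] at h1
      simpa using h1
    have hne : (X ^ Fintype.card L - X : L[X]) ≠ 0 := FiniteField.X_pow_card_sub_X_ne_zero L Fintype.one_lt_card
    have hs : (X ^ Fintype.card L - X : L[X]).Splits := by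
      rw [Polynomial.splits_iff_card_roots, FiniteField.roots_X_pow_card_sub_X L,
        FiniteField.X_pow_card_sub_X_natDegree_eq L Fintype.one_lt_card]
      rfl
    have hs' := hs.of_dvd hne hd'
    have hdeg' : (f.map j).degree ≠ 0 := by
      rw [Polynomial.degree_map, Polynomial.degree_eq_natDegree hm.ne_zero, hdeg]
      norm_num
    obtain ⟨z, hz⟩ := hs'.exists_eval_eq_zero hdeg'
    exact ⟨z, by rw [← hval, hz]⟩
  · have h1 := (hm.irreducible_iff_roots_eq_zero_of_degree_le_three (by omega) (by omega)).not.1 hirr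
    obtain ⟨y, hy⟩ := Multiset.exists_mem_of_ne_zero h1
    have hy1 := (Polynomial.mem_roots hm.ne_zero).1 hy
    refine ⟨j y, ?_⟩
    rw [← hval, Polynomial.eval_map_apply, hy1.eq_zero, map_zero]

end Root

section Binary

variable {F : Type*} [Field F] [Fintype F]

/-- Two anisotropic binary forms are isometric: explicit form. -/
theorem exists_binary {a b a' b' : F}
    (hab : ∀ z₁ z₂ : F, z₁ ^ 2 + a * z₁ * z₂ + b * z₂ ^ 2 = 0 → z₁ = 0 ∧ z₂ = 0)
    (hab' : ∀ z₁ z₂ : F, z₁ ^ 2 + a' * z₁ * z₂ + b' * z₂ ^ 2 = 0 → z₁ = 0 ∧ z₂ = 0) :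
    ∃ r s : F, s ≠ 0 ∧ 2 * r + a * s = a' ∧ r ^ 2 + a * r * s + b * s ^ 2 = b' := by
  haveI := fact_of_aniso hab
  have hcard : Fintype.card (KK a b) = Fintype.card F ^ 2 := card_KK rfl
  obtain ⟨z, hz⟩ := exists_root_quad (algebraMap F (KK a b)) hcard (-a') b'
  have hre := congrArg QuadraticAlgebra.re hz
  have him := congrArg QuadraticAlgebra.im hz
  simp only [pow_two, QuadraticAlgebra.re_add, QuadraticAlgebra.re_mul, QuadraticAlgebra.im_add, QuadraticAlgebra.im_mul,
    QuadraticAlgebra.re_zero, QuadraticAlgebra.im_zero, QuadraticAlgebra.algebraMap_re, QuadraticAlgebra.algebraMap_im,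
    zero_mul, mul_zero, add_zero, zero_add] at hre him
  set r := z.re with hr
  set s := z.im with hs
  have hs0 : s ≠ 0 := by
    intro h0
    rw [h0] at hre
    have := (hab' r (-1) (by linear_combination hre)).2
    exact one_ne_zero (neg_eq_zero.mp this)
  have h1 : 2 * r + a * s = a' := by
    apply mul_right_cancel₀ hs0
    linear_combination him
  refine ⟨r, s, hs0, h1, ?_⟩
  linear_combination -hre + r * h1

end Binary

section Iso

variable {F : Type*} [Field F] [Fintype F]

/-- The isometry between two minus forms, on vectors. -/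
def binFun (m : ℕ) (r s : F) (v : (Fin m ⊕ Fin m) ⊕ Fin 2 → F) : (Fin m ⊕ Fin m) ⊕ Fin 2 → F :=
  Sum.elim (fun x => v (Sum.inl x)) ![v (Sum.inr 0) + r * v (Sum.inr 1), s * v (Sum.inr 1)]

/-- The inverse of `binFun`. -/
def binInv (m : ℕ) (r s : F) (v : (Fin m ⊕ Fin m) ⊕ Fin 2 → F) : (Fin m ⊕ Fin m) ⊕ Fin 2 → F :=
  Sum.elim (fun x => v (Sum.inl x)) ![v (Sum.inr 0) - r * s⁻¹ * v (Sum.inr 1), s⁻¹ * v (Sum.inr 1)]

/-- The isometry between two minus forms. -/
def binEquiv (m : ℕ) (r s : F) (hs : s ≠ 0) : ((Fin m ⊕ Fin m) ⊕ Fin 2 → F) ≃ₗ[F] ((Fin m ⊕ Fin m) ⊕ Fin 2 → F) where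
  toFun := binFun m r s
  invFun := binInv m r s
  map_add' v w := by
    funext k
    rcases k with x | i
    · rfl
    · fin_cases i
      · simp [binFun]
        ring
      · simp [binFun]
        ring
  map_smul' t v := by
    funext k
    rcases k with x | i
    · rfl
    · fin_cases i
      · simp [binFun]
        ring
      · simp [binFun]
        ring
  left_inv v := by
    funext k
    rcases k with x | i
    · rfl
    · fin_cases i
      · simp [binFun, binInv]
        field_simp
        ring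
      · simp [binFun, binInv]
        field_simp
  right_inv v := by
    funext k
    rcases k with x | i
    · rfl
    · fin_cases i
      · simp [binFun, binInv]
        field_simp
        ring
      · simp [binFun, binInv]
        field_simp

/-- **All minus forms of the same dimension are isometric.** -/
theorem exists_isometry_minus (m : ℕ) {a b a' b' : F}
    (hab : ∀ z₁ z₂ : F, z₁ ^ 2 + a * z₁ * z₂ + b * z₂ ^ 2 = 0 → z₁ = 0 ∧ z₂ = 0)
    (hab' : ∀ z₁ z₂ : F, z₁ ^ 2 + a' * z₁ * z₂ + b' * z₂ ^ 2 = 0 → z₁ = 0 ∧ z₂ = 0) :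
    ∃ g : ((Fin m ⊕ Fin m) ⊕ Fin 2 → F) ≃ₗ[F] ((Fin m ⊕ Fin m) ⊕ Fin 2 → F),
      ∀ v, Cfsg.quadFormMinus m F a b (g v) = Cfsg.quadFormMinus m F a' b' v := by
  obtain ⟨r, s, hs, h1, h2⟩ := exists_binary hab hab'
  refine ⟨binEquiv m r s hs, fun v => ?_⟩
  change Cfsg.quadFormMinus m F a b (binFun m r s v) = _
  simp only [Cfsg.quadFormMinus, binFun, Sum.elim_inl, Sum.elim_inr]
  simp only [Matrix.cons_val_zero, Matrix.cons_val_one, Matrix.cons_val_fin_one]
  rw [← h1, ← h2]
  ring

end Iso

end Cfsg.Agent.Lib.Classical.OrthAut.MinusA
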