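import Mathlib
import Cfsg.Agent.Lib.Classical.OrthAut.MinusA
import Cfsg.Agent.Lib.Classical.Orth.SimAut4

/-!
# Descended forms of a minus form are minus forms
-/

set_option autoImplicit false
set_option linter.unusedSectionVars false
set_option linter.unusedSimpArgs false
set_option linter.unusedVariables false
set_option linter.style.haveILetI false

namespace Cfsg.Agent.Lib.Classical.OrthAut.MinusB

open Matrix QuadraticMap Module
open Cfsg.Agent.Lib.Classical.Orth.Basic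
open Cfsg.Agent.Lib.Classical.Orth.Models
open Cfsg.Agent.Lib.Classical.Orth.Classes
open Cfsg.Agent.Lib.Classical.Witt.Hyp
open Cfsg.Agent.Lib.Classical.Witt.TS
open Cfsg.Agent.Lib.Linalg.OrthModels
open Cfsg.Agent.Lib.Classical.OrthAut.Fld
open Cfsg.Agent.Lib.Classical.OrthAut.MinusA

variable {ι ι' : Type} [Fintype ι] [DecidableEq ι] [Fintype ι'] [DecidableEq ι'] {F : Type*} [Field F] {K : Type*} [Field K]

/-- A form identity on rational vectors extends to all vectors (rectangular version). -/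
theorem form_of_rat' (j : K →+* F) (Q : QuadraticForm F (ι → F)) (Q' : QuadraticForm F (ι' → F)) (C₀ : Matrix ι ι' F) (κ : F)
    (hQrat : ∀ t : ι' → K, Q (C₀ *ᵥ (fun i => j (t i))) = κ * Q' (fun i => j (t i))) (v : ι' → F) :
    Q (C₀ *ᵥ v) = κ * Q' v := by
  have hsingle : ∀ k, (fun i => j ((Pi.single k 1 : ι' → K) i)) = (Pi.single k 1 : ι' → F) := by
    intro k
    funext i
    by_cases h : i = k
    · subst h
      simp
    · simp [Pi.single_eq_of_ne h]
  have hsingle2 : ∀ k l, (fun i => j (((Pi.single k 1 + Pi.single l 1 : ι' → K)) i)) = (Pi.single k 1 + Pi.single l 1 : ι' → F) := by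
    intro k l
    funext i
    have h1 := congrFun (hsingle k) i
    have h2 := congrFun (hsingle l) i
    simp only [Pi.add_apply, map_add] at h1 h2 ⊢
    rw [h1, h2]
  have h1 : Q.comp C₀.mulVecLin = κ • Q' := by
    apply Cfsg.Agent.Lib.Classical.Witt.Index.quadForm_eq_of_basis _ _ (Pi.basisFun F ι')
    · intro k
      have h2 := hQrat (Pi.single k 1)
      rw [hsingle] at h2
      simpa using h2
    · intro k l
      have h2 := hQrat (Pi.single k 1)
      have h3 := hQrat (Pi.single l 1)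
      have h4 := hQrat (Pi.single k 1 + Pi.single l 1)
      rw [hsingle] at h2 h3
      rw [hsingle2] at h4
      simp only [Pi.basisFun_apply, polar, QuadraticMap.comp_apply, Matrix.mulVecLin_apply, _root_.smul_apply,
        smul_eq_mul, Matrix.mulVec_add]
      rw [Matrix.mulVec_add] at h4
      rw [h2, h3, h4]
  have h2 := congrArg (fun R : QuadraticForm F (ι' → F) => R v) h1
  simpa using h2

variable [Fintype F] {j : K →+* F} {Q : QuadraticForm F (ι → F)}

/-- A matrix carrying a rational form to a descended form. -/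
theorem exists_rect {Q' : QuadraticForm F (ι' → F)} {Q₀ : QuadraticForm K (ι' → K)}
    (hcompat : ∀ t : ι' → K, j (Q₀ t) = Q' (fun i => j (t i))) {T : (ι → F) → (ι → F)} {β : Basis ι F (ι → F)} {a : F}
    {Q₁ : QuadraticForm K (ι → K)} (hD : Desc Q j T β a Q₁) (g : (ι → K) ≃ₗ[K] (ι' → K)) {d : K} (hd : d ≠ 0)
    (hg : ∀ u, Q₀ (g u) = d * Q₁ u) :
    ∃ C₀ : Matrix ι ι' F, ∀ v, Q (C₀ *ᵥ v) = (a * (j d)⁻¹) * Q' v := by
  classical
  set κ : F := a * (j d)⁻¹ with hκ
  have hjd : j d ≠ 0 := by simpa using hd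
  set vec := vecOf j (⇑β) with hvec
  have hQvec : ∀ u, Q (vec u) = a * j (Q₁ u) := by
    intro u
    have h1 := hD.form u
    change j (Q₁ u) = a⁻¹ * Q (vec u) at h1
    rw [h1, mul_inv_cancel_left₀ hD.a0]
  let w : ι' → ι → F := fun k => vec (g.symm (Pi.single k 1))
  let C₀ : Matrix ι ι' F := Matrix.of fun i k => w k i
  have hCmul : ∀ t : ι' → K, C₀ *ᵥ (fun i => j (t i)) = vec (g.symm t) := by
    intro t
    have h1 : t = ∑ k, t k • (Pi.single k 1 : ι' → K) := by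
      funext i
      simp [Finset.sum_apply, Pi.single_apply]
    have h2 : ∀ s : Finset ι', vec (g.symm (∑ k ∈ s, t k • (Pi.single k 1 : ι' → K))) = ∑ k ∈ s, j (t k) • w k := by
      intro s
      induction s using Finset.induction_on with
      | empty =>
        have h0 : vec 0 = 0 := by
          simp [hvec, vecOf]
        simp [h0]
      | insert k s hk ih =>
        rw [Finset.sum_insert hk, Finset.sum_insert hk, map_add, hvec, vecOf_add, ← hvec, ih, map_smul, hvec, vecOf_smul]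
    conv_rhs => rw [h1, h2]
    funext i
    simp [Matrix.mulVec, dotProduct, Finset.sum_apply, C₀, mul_comm]
  refine ⟨C₀, form_of_rat' j Q Q' C₀ κ ?_⟩
  intro t
  rw [hCmul, hQvec, ← hcompat]
  have h1 := hg (g.symm t)
  rw [g.apply_symm_apply] at h1
  rw [h1, map_mul, hκ]
  field_simp

section Model

variable {m : ℕ} {a b : F}

/-- A descended form of a minus form is not hyperbolic. -/
theorem no_plus (hab : ∀ z₁ z₂ : F, z₁ ^ 2 + a * z₁ * z₂ + b * z₂ ^ 2 = 0 → z₁ = 0 ∧ z₂ = 0)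
    {T : ((Fin m ⊕ Fin m) ⊕ Fin 2 → F) → ((Fin m ⊕ Fin m) ⊕ Fin 2 → F)}
    {β : Basis ((Fin m ⊕ Fin m) ⊕ Fin 2) F ((Fin m ⊕ Fin m) ⊕ Fin 2 → F)} {a₁ : F}
    {Q₁ : QuadraticForm K ((Fin m ⊕ Fin m) ⊕ Fin 2 → K)} (hD : Desc (minusForm m F a b) j T β a₁ Q₁)
    (g : ((Fin m ⊕ Fin m) ⊕ Fin 2 → K) ≃ₗ[K] (Fin (m + 1) ⊕ Fin (m + 1) → K))
    (hg : ∀ v, plusQ (m + 1) K (g v) = Q₁ v) : False := by
  have hcompat : ∀ t : Fin (m + 1) ⊕ Fin (m + 1) → K, j (plusQ (m + 1) K t) = plusForm (m + 1) F (fun i => j (t i)) := by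
    intro t
    rw [plusQ_apply, coe_plusForm_apply]
    simp [Cfsg.quadFormPlus, map_sum, map_mul]
  obtain ⟨C₀, hC₀⟩ := exists_rect hcompat hD g (d := 1) one_ne_zero (by
    intro u
    rw [hg, one_mul])
  have hκ0 : a₁ * (j 1)⁻¹ ≠ 0 := by
    rw [map_one, inv_one, mul_one]
    exact hD.a0
  set κ := a₁ * (j 1)⁻¹ with hκ
  have hpol : ∀ x y, polar (minusForm m F a b) (C₀ *ᵥ x) (C₀ *ᵥ y) = κ * polar (plusForm (m + 1) F) x y := by
    intro x y
    simp only [polar]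
    rw [← Matrix.mulVec_add, hC₀, hC₀, hC₀]
    ring
  have hinj : Function.Injective C₀.mulVecLin := by
    rw [injective_iff_map_eq_zero]
    intro x hx
    apply polarNondeg_of_nondeg (plusForm (m + 1) F) (plusForm_nondegenerate (m + 1))
    intro y
    have h1 : C₀ *ᵥ x = 0 := hx
    have h2 := hpol x y
    rw [h1] at h2
    have h3 : polar (minusForm m F a b) (0 : (Fin m ⊕ Fin m) ⊕ Fin 2 → F) (C₀ *ᵥ y) = 0 := by
      simp only [polar, zero_add, QuadraticMap.map_zero]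
      ring
    rw [h3] at h2
    exact (mul_eq_zero.1 h2.symm).resolve_left hκ0
  set W := (U₀ (m + 1) F).map C₀.mulVecLin with hW
  have hfin : finrank F W = m + 1 := by
    rw [hW, ← (LinearEquiv.finrank_eq (Submodule.equivMapOfInjective _ hinj _)), finrank_U₀]
  have hts : ∀ w ∈ W, minusQ m F a b w = 0 := by
    rintro _ ⟨y, hy, rfl⟩
    rw [minusQ_apply, ← coe_minusForm]
    change minusForm m F a b (C₀ *ᵥ y) = 0
    rw [hC₀, isTS_U₀ (m + 1) y hy, mul_zero]
  have := Cfsg.Agent.Lib.Classical.Witt.Index.finrank_le_of_ts_minus m hab W hts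
  omega

variable [Fintype K]

/-- A descended form of a minus form is a minus form. -/
theorem exists_match_minus (hab : ∀ z₁ z₂ : F, z₁ ^ 2 + a * z₁ * z₂ + b * z₂ ^ 2 = 0 → z₁ = 0 ∧ z₂ = 0)
    {a₀ b₀ : K} (hab₀ : ∀ z₁ z₂ : K, z₁ ^ 2 + a₀ * z₁ * z₂ + b₀ * z₂ ^ 2 = 0 → z₁ = 0 ∧ z₂ = 0)
    {T : ((Fin m ⊕ Fin m) ⊕ Fin 2 → F) → ((Fin m ⊕ Fin m) ⊕ Fin 2 → F)}
    {β : Basis ((Fin m ⊕ Fin m) ⊕ Fin 2) F ((Fin m ⊕ Fin m) ⊕ Fin 2 → F)} {a₁ : F}
    {Q₁ : QuadraticForm K ((Fin m ⊕ Fin m) ⊕ Fin 2 → K)} (hD : Desc (minusForm m F a b) j T β a₁ Q₁) :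
    ∃ g : ((Fin m ⊕ Fin m) ⊕ Fin 2 → K) ≃ₗ[K] ((Fin m ⊕ Fin m) ⊕ Fin 2 → K),
      ∀ u, minusForm m K a₀ b₀ (g u) = 1 * Q₁ u := by
  have hV : finrank K ((Fin m ⊕ Fin m) ⊕ Fin 2 → K) = 2 * (m + 1) := by
    rw [Module.finrank_fintype_fun_eq_card]
    simp
    ring
  rcases Cfsg.Agent.Lib.Classical.Witt.Index.exists_isometry_plus_or_minus (m := m + 1) (by omega) hV Q₁ hD.nd with
    ⟨g, hg⟩ | ⟨ζ, hζ, g, hg⟩
  · exact (no_plus hab hD g hg).elim
  · obtain ⟨g₁, hg₁⟩ := exists_isometry_minus m hab₀ (Cfsg.Agent.Lib.Classical.Witt.Index.anisotropic_of_no_root hζ)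
    refine ⟨g.trans g₁, fun u => ?_⟩
    rw [one_mul, ← hg u, minusQ_apply, coe_minusForm_apply]
    exact hg₁ (g u)

end Model

end Cfsg.Agent.Lib.Classical.OrthAut.MinusB
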