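import Mathlib
import Cfsg.Agent.Lib.Classical.OrthAut.MinusB

/-!
# The class condition for minus forms in characteristic two
-/

set_option autoImplicit false
set_option linter.unusedSectionVars false
set_option linter.unusedSimpArgs false
set_option linter.unusedVariables false
set_option linter.style.haveILetI false

namespace Cfsg.Agent.Lib.Classical.OrthAut.MinusC

open Matrix QuadraticMap Module
open Cfsg.Agent.Lib.Classical.Orth.Basic
open Cfsg.Agent.Lib.Classical.Orth.Models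
open Cfsg.Agent.Lib.Classical.Orth.Classes
open Cfsg.Agent.Lib.Classical.Orth.Dickson
open Cfsg.Agent.Lib.Classical.Orth.SimAut
open Cfsg.Agent.Lib.Classical.Orth.SimAut2
open Cfsg.Agent.Lib.Classical.Orth.SimAut4
open Cfsg.Agent.Lib.Classical.Orth.Semi
open Cfsg.Agent.Lib.Classical.Witt.Hyp
open Cfsg.Agent.Lib.Classical.Witt.TS
open Cfsg.Agent.Lib.Classical.OrthAut.FldCent
open Cfsg.Agent.Lib.Classical.OrthAut.FldJO
open Cfsg.Agent.Lib.Classical.OrthAut.MinusA

section JO

variable {ι : Type} [Fintype ι] [DecidableEq ι] {F : Type*} [Field F] [Fintype F]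
variable {K : Type*} [Field K] [Fintype K] {j : K →+* F}
variable {Q : QuadraticForm F (ι → F)} {Q₀ : QuadraticForm K (ι → K)}

/-- The Dickson sign is compatible with the extension of scalars. -/
theorem dickson_JO (hcompat : ∀ t : ι → K, j (Q₀ t) = Q (fun i => j (t i))) (hQ : (polarBilin Q).Nondegenerate)
    (hF : (∃ c : F, c ≠ 0 ∧ c ≠ 1) ∨ Fintype.card ι ≠ 4) (hQ₀ : (polarBilin Q₀).Nondegenerate)
    (hK : (∃ c : K, c ≠ 0 ∧ c ≠ 1) ∨ Fintype.card ι ≠ 4) (h : ↥(Cfsg.isometryGroup K (⇑Q₀))) :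
    dicksonHom hQ hF (JO hcompat h) = dicksonHom hQ₀ hK h := by
  induction h using isometry_induction' hQ₀ hK with
  | h1 => rw [map_one, map_one, map_one]
  | hstep v hv g ih =>
    have hv1 : Q (fun i => j (v i)) ≠ 0 := by
      rw [← hcompat]
      simpa using hv
    rw [map_mul, map_mul, map_mul, ih, JO_reflection hcompat v hv hv1, dicksonHom_reflection, dicksonHom_reflection]

end JO

section Compat

variable {F : Type*} [Field F] {K : Type*} [Field K]

/-- The minus form over a subfield. -/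
theorem minus_compat (j : K →+* F) (m : ℕ) (a₀ b₀ : K) (t : (Fin m ⊕ Fin m) ⊕ Fin 2 → K) :
    j (minusForm m K a₀ b₀ t) = minusForm m F (j a₀) (j b₀) (fun i => j (t i)) := by
  simp [coe_minusForm_apply, Cfsg.quadFormMinus, map_sum, map_add, map_mul, map_pow]

end Compat

section Two

universe u

variable {F : Type u} [Field F] [Fintype F] [CharP F 2] {K : Type u} [Field K] [Algebra F K]

theorem card_ne_four (m : ℕ) (hm : 2 ≤ m) : Fintype.card ((Fin m ⊕ Fin m) ⊕ Fin 2) ≠ 4 := by
  simp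
  omega

theorem card_minus (m : ℕ) : Fintype.card ((Fin m ⊕ Fin m) ⊕ Fin 2) = 2 * (m + 1) := by
  simp
  ring

/-- The class condition over a fixed quadratic extension. -/
theorem minus_pres_iff_two_K (hK : finrank F K = 2) {m : ℕ} (hm : 2 ≤ m) (a b : F)
    (hab : ∀ z₁ z₂ : F, z₁ ^ 2 + a * z₁ * z₂ + b * z₂ ^ 2 = 0 → z₁ = 0 ∧ z₂ = 0)
    (x : SimG (minusForm m F a b)) :
    Cfsg.PreservesSingularClasses (Cfsg.quadFormMinus m K (algebraMap F K a) (algebraMap F K b))
        ((x.1 : Matrix ((Fin m ⊕ Fin m) ⊕ Fin 2) ((Fin m ⊕ Fin m) ⊕ Fin 2) F).map (algebraMap F K)) ↔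
      dicksonHom (minusForm_nondegenerate m a b hab) (Or.inr (card_ne_four m hm))
        (normO (minusForm_nondegenerate m a b hab) inferInstance (lamTwo (minusForm_nondegenerate m a b hab) inferInstance)
          (lamTwo_sq (minusForm_nondegenerate m a b hab) inferInstance) x) = 1 := by
  classical
  haveI : Module.Finite F K := Module.finite_of_finrank_pos (by omega)
  haveI : Finite K := Module.finite_of_finite F
  letI : Fintype K := Fintype.ofFinite K
  set φ := algebraMap F K with hφ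
  have hcard : Fintype.card K = Fintype.card F ^ 2 := by
    rw [Module.card_eq_pow_finrank (K := F) (V := K), hK]
  have hd := Cfsg.Agent.Lib.Classical.Orth.Semi.disc_ne_zero hab
  have hd' : (φ a) ^ 2 - 4 * (φ b) ≠ 0 := by
    have h1 : (φ a) ^ 2 - 4 * (φ b) = φ (-(4 * b - a ^ 2)) := by
      simp [map_ofNat]
    rw [h1]
    exact (map_ne_zero _).2 (neg_ne_zero.2 hd)
  obtain ⟨z, hz⟩ := exists_root_quad φ hcard a b
  rw [← coe_minusForm m K (φ a) (φ b)]
  set QK := minusForm m K (φ a) (φ b) with hQK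
  have hQnd : (polarBilin QK).Nondegenerate := minusForm_nondeg_of_disc hd' m
  have hQ' : (polarBilin (minusForm m F a b)).Nondegenerate := minusForm_nondegenerate m a b hab
  have hι : Nonempty ((Fin m ⊕ Fin m) ⊕ Fin 2) := inferInstance
  have hcompat : ∀ t : (Fin m ⊕ Fin m) ⊕ Fin 2 → F, φ (minusForm m F a b t) = QK (fun i => φ (t i)) := minus_compat φ m a b
  set h := normO hQ' hι (lamTwo hQ' hι) (lamTwo_sq hQ' hι) x with hh
  have hF : (∃ c : F, c ≠ 0 ∧ c ≠ 1) ∨ Fintype.card ((Fin m ⊕ Fin m) ⊕ Fin 2) ≠ 4 := Or.inr (card_ne_four m hm)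
  have hFK : (∃ c : K, c ≠ 0 ∧ c ≠ 1) ∨ Fintype.card ((Fin m ⊕ Fin m) ⊕ Fin 2) ≠ 4 := Or.inr (card_ne_four m hm)
  haveI : CharP K 2 := charP_of_injective_algebraMap φ.injective 2
  rw [← dickson_JO hcompat hQnd hFK hQ' hF h]
  -- the image of a subspace
  have hmat : (x.1 : Matrix ((Fin m ⊕ Fin m) ⊕ Fin 2) ((Fin m ⊕ Fin m) ⊕ Fin 2) F).map φ =
      φ (lamTwo hQ' hι x : F) • (((JO hcompat h).1 : GL _ K) : Matrix ((Fin m ⊕ Fin m) ⊕ Fin 2) ((Fin m ⊕ Fin m) ⊕ Fin 2) K) := by
    have h1 : ofO h = x * scalG (lamTwo hQ' hι x)⁻¹ := ofO_normO hQ' hι _ _ x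
    have h2 : x = ofO h * scalG (lamTwo hQ' hι x) := by
      rw [h1, mul_assoc, ← scalG_mul, inv_mul_cancel, scalG_one, mul_one]
    have h3 : (x.1 : Matrix ((Fin m ⊕ Fin m) ⊕ Fin 2) ((Fin m ⊕ Fin m) ⊕ Fin 2) F) =
        ((h.1 : GL _ F) : Matrix _ _ F) * (((scalG (Q := minusForm m F a b) (lamTwo hQ' hι x)).1 : GL _ F) : Matrix _ _ F) := by
      conv_lhs => rw [h2]
      rfl
    rw [h3, scalG_mat', Matrix.mul_smul, Matrix.mul_one, coe_JO]
    ext k l
    simp [mul_comm]
  have himage : ∀ U : Submodule K ((Fin m ⊕ Fin m) ⊕ Fin 2 → K),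
      Cfsg.imageSubmodule ((x.1 : Matrix ((Fin m ⊕ Fin m) ⊕ Fin 2) ((Fin m ⊕ Fin m) ⊕ Fin 2) F).map φ) U = gMap (JO hcompat h) U := by
    intro U
    unfold Cfsg.imageSubmodule
    rw [hmat, gMap, map_smul, Submodule.map_smul _ _ _ ((map_ne_zero φ).2 (Units.ne_zero _)), Matrix.toLin'_apply']
  have hts := tsMap_isTS m hz
  have hfin := finrank_tsMap m z
  have hV := card_minus m
  constructor
  · intro hp
    rw [← mem_omega_iff_char_two hQnd hFK]
    have h1 := hp _ (isMax_of_finrank hQnd hV hts hfin)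
    unfold Cfsg.SameParityClass at h1
    rw [himage, hfin] at h1
    exact (class_iff_omega hQnd hFK hV hts hfin _).1 h1
  · intro hd1 U hU
    rw [← mem_omega_iff_char_two hQnd hFK] at hd1
    have hUts : IsTS QK U := hU.1
    have hUd : finrank K U = m + 1 := finrank_of_isMax hQnd hV hts hfin hU
    unfold Cfsg.SameParityClass
    rw [himage, hUd]
    exact (class_iff_omega hQnd hFK hV hUts hUd _).2 hd1

open Polynomial in
/-- A quadratic extension, for anisotropic binary forms. -/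
theorem exists_quad_ext_of_aniso {a b : F}
    (hab : ∀ z₁ z₂ : F, z₁ ^ 2 + a * z₁ * z₂ + b * z₂ ^ 2 = 0 → z₁ = 0 ∧ z₂ = 0) :
    ∃ (K : Type u) (_ : Field K) (_ : Algebra F K), finrank F K = 2 := by
  set f : F[X] := X ^ 2 + C a * X + C b with hf
  have hdeg : f.natDegree = 2 := by
    rw [hf]
    compute_degree!
  have hm : f.Monic := by
    rw [hf]
    monicity!
  have hirr : Irreducible f := by
    rw [hm.irreducible_iff_roots_eq_zero_of_degree_le_three (by omega) (by omega)]
    rw [Multiset.eq_zero_iff_forall_notMem]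
    intro r hr
    have h1 := (Polynomial.mem_roots hm.ne_zero).1 hr
    have h3 := (hab r 1 (by
      simp [hf, Polynomial.IsRoot.def] at h1
      linear_combination h1)).2
    exact one_ne_zero h3
  haveI : Fact (Irreducible f) := ⟨hirr⟩
  refine ⟨AdjoinRoot f, inferInstance, inferInstance, ?_⟩
  rw [(AdjoinRoot.powerBasis hm.ne_zero).finrank, AdjoinRoot.powerBasis_dim, hdeg]

/-- The class condition in characteristic two. -/
theorem minus_pres_iff_two {m : ℕ} (hm : 2 ≤ m) (a b : F)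
    (hab : ∀ z₁ z₂ : F, z₁ ^ 2 + a * z₁ * z₂ + b * z₂ ^ 2 = 0 → z₁ = 0 ∧ z₂ = 0)
    (x : SimG (minusForm m F a b)) :
    Cfsg.PreservesSingularClassesMinus m a b (x.1 : Matrix ((Fin m ⊕ Fin m) ⊕ Fin 2) ((Fin m ⊕ Fin m) ⊕ Fin 2) F) ↔
      dicksonHom (minusForm_nondegenerate m a b hab) (Or.inr (card_ne_four m hm))
        (normO (minusForm_nondegenerate m a b hab) inferInstance (lamTwo (minusForm_nondegenerate m a b hab) inferInstance)
          (lamTwo_sq (minusForm_nondegenerate m a b hab) inferInstance) x) = 1 := by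
  constructor
  · rintro ⟨K, iK, iA, hK, h⟩
    exact (minus_pres_iff_two_K hK hm a b hab x).1 h
  · intro h
    obtain ⟨K, iK, iA, hK⟩ := exists_quad_ext_of_aniso hab
    exact ⟨K, iK, iA, hK, (minus_pres_iff_two_K hK hm a b hab x).2 h⟩

end Two

end Cfsg.Agent.Lib.Classical.OrthAut.MinusC
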