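import Mathlib
import Cfsg.Agent.Lib.Classical.OrthAut.MinusC

/-!
# The class-preserving similarities of a minus form
-/

set_option autoImplicit false
set_option linter.unusedSectionVars false
set_option linter.unusedSimpArgs false
set_option linter.unusedVariables false
set_option linter.style.haveILetI false

namespace Cfsg.Agent.Lib.Classical.OrthAut.MinusD

open Matrix QuadraticMap Module
open Cfsg.Agent.Lib.Classical.Orth.Basic
open Cfsg.Agent.Lib.Classical.Orth.Models
open Cfsg.Agent.Lib.Classical.Orth.Classes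
open Cfsg.Agent.Lib.Classical.Orth.Dickson
open Cfsg.Agent.Lib.Classical.Orth.SimAut
open Cfsg.Agent.Lib.Classical.Orth.SimAut2
open Cfsg.Agent.Lib.Classical.Orth.SimAut4
open Cfsg.Agent.Lib.Classical.Orth.SimAutModels
open Cfsg.Agent.Lib.Classical.Orth.Semi
open Cfsg.Agent.Lib.Classical.OrthAut.FldCent
open Cfsg.Agent.Lib.Classical.OrthAut.FldJO
open Cfsg.Agent.Lib.Classical.OrthAut.MinusA
open Cfsg.Agent.Lib.Classical.OrthAut.MinusC

universe u v

section Sign

variable {F : Type u} [Field F] [Fintype F]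

theorem charP_two_of (h2 : (2 : F) = 0) : CharP F 2 := CharTwo.of_one_ne_zero_of_two_eq_zero one_ne_zero h2

/-- The sign detecting the class condition. -/
theorem exists_classSign {m : ℕ} (hm : 2 ≤ m) (a b : F)
    (hab : ∀ z₁ z₂ : F, z₁ ^ 2 + a * z₁ * z₂ + b * z₂ ^ 2 = 0 → z₁ = 0 ∧ z₂ = 0) :
    ∃ s : SimG (minusForm m F a b) →* ℤˣ,
      (∀ g, Cfsg.PreservesSingularClassesMinus m a b (g.1 : Matrix ((Fin m ⊕ Fin m) ⊕ Fin 2) ((Fin m ⊕ Fin m) ⊕ Fin 2) F) ↔ s g = 1) ∧
      (∀ v hv, s (ofO (reflectionIso (minusForm m F a b) v hv)) = -1) ∧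
      (∀ t, s (scalG t) = 1) := by
  by_cases h2 : (2 : F) = 0
  · haveI : CharP F 2 := charP_two_of h2
    have hQ := minusForm_nondegenerate m a b hab
    have hι : Nonempty ((Fin m ⊕ Fin m) ⊕ Fin 2) := inferInstance
    have hF : (∃ c : F, c ≠ 0 ∧ c ≠ 1) ∨ Fintype.card ((Fin m ⊕ Fin m) ⊕ Fin 2) ≠ 4 := Or.inr (card_ne_four m hm)
    refine ⟨(dicksonHom hQ hF).comp (normO hQ hι (lamTwo hQ hι) (lamTwo_sq hQ hι)), ?_, ?_, ?_⟩
    · intro g
      exact minus_pres_iff_two hm a b hab g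
    · intro v hv
      have hlam1 : lamTwo hQ hι (ofO (reflectionIso (minusForm m F a b) v hv)) = 1 := by
        apply Units.ext
        rw [lamTwo_val, multHom_ofO]
        exact map_one _
      rw [MonoidHom.comp_apply, normO_ofO' hQ hι _ _ hlam1, dicksonHom_reflection]
    · intro t
      rw [MonoidHom.comp_apply, normO_scal hQ hι _ _ (lamTwo_scal hQ hι), map_one]
  · obtain ⟨D⟩ := minusData_exists h2 hm a b hab
    refine ⟨D.sgn2, ?_, ?_, ?_⟩
    · intro g
      rw [minus_pres_iff h2 m a b hab g, D.sgn2_eq_one_iff, D.ratio_eq_one_iff]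
    · intro v hv
      rcases Int.units_eq_one_or (D.sgn2 (ofO (reflectionIso (minusForm m F a b) v hv))) with h | h
      · exfalso
        rw [D.sgn2_eq_one_iff, D.ratio_ofO_eq_one_iff] at h
        have h1 : ((reflectionIso (minusForm m F a b) v hv).1.1).det = -1 := by
          change (Cfsg.reflectionMatrix (⇑(minusForm m F a b)) v).det = -1
          exact det_reflectionMatrix _ hv
        rw [h1] at h
        apply h2
        linear_combination -h
      · exact h
    · intro t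
      exact (D.signs_ZG (D.scalG_mem t)).2

/-- The group of class-preserving similarities. -/
noncomputable def presS {m : ℕ} (hm : 2 ≤ m) (a b : F)
    (hab : ∀ z₁ z₂ : F, z₁ ^ 2 + a * z₁ * z₂ + b * z₂ ^ 2 = 0 → z₁ = 0 ∧ z₂ = 0) : Subgroup (SimG (minusForm m F a b)) :=
  (Classical.choose (exists_classSign hm a b hab)).ker

variable {m : ℕ} (hm : 2 ≤ m) (a b : F)
    (hab : ∀ z₁ z₂ : F, z₁ ^ 2 + a * z₁ * z₂ + b * z₂ ^ 2 = 0 → z₁ = 0 ∧ z₂ = 0)

theorem mem_presS (g : SimG (minusForm m F a b)) :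
    g ∈ presS hm a b hab ↔ Cfsg.PreservesSingularClassesMinus m a b (g.1 : Matrix ((Fin m ⊕ Fin m) ⊕ Fin 2) ((Fin m ⊕ Fin m) ⊕ Fin 2) F) := by
  rw [((Classical.choose_spec (exists_classSign hm a b hab)).1 g)]
  rfl

theorem scalG_mem_presS (t : Fˣ) : scalG t ∈ presS hm a b hab :=
  (Classical.choose_spec (exists_classSign hm a b hab)).2.2 t

/-- Exactly one of `g`, `r g` preserves the classes. -/
theorem mul_reflection_mem {g : SimG (minusForm m F a b)} (hg : g ∉ presS hm a b hab) (v : (Fin m ⊕ Fin m) ⊕ Fin 2 → F)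
    (hv : minusForm m F a b v ≠ 0) : ofO (reflectionIso (minusForm m F a b) v hv) * g ∈ presS hm a b hab := by
  have h1 := (Classical.choose_spec (exists_classSign hm a b hab)).2.1 v hv
  have h2 : (Classical.choose (exists_classSign hm a b hab)) g ≠ 1 := hg
  have h3 := (Int.units_eq_one_or _).resolve_left h2
  change (Classical.choose (exists_classSign hm a b hab)) _ = 1
  rw [map_mul, h1, h3]
  rfl

/-- The inner-diagonal group, for a function equal to the form. -/
def inndiagOf (m : ℕ) (a b : F) (Qf : ((Fin m ⊕ Fin m) ⊕ Fin 2 → F) → F) : Subgroup (MulAut (Cfsg.POmega F Qf)) :=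
  Cfsg.autSubgroupOf (fun β : Cfsg.POmega F Qf ≃* Cfsg.POmega F Qf =>
    ∃ g : GL ((Fin m ⊕ Fin m) ⊕ Fin 2) F, g ∈ Cfsg.Geo.quadSimilarityGroup (F := F) Qf ∧
      Cfsg.PreservesSingularClassesMinus m a b (g : Matrix ((Fin m ⊕ Fin m) ⊕ Fin 2) ((Fin m ⊕ Fin m) ⊕ Fin 2) F) ∧
      Cfsg.IsInducedBySemilinearPOmega Qf g (RingEquiv.refl F) β)

theorem inndiag_eq : inndiagOf m a b (⇑(minusForm m F a b)) =
    (presS hm a b hab).map (simHom (⇑(minusForm m F a b))) := by
  apply autSubgroupOf_eq_map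
  intro β
  constructor
  · rintro ⟨g, hg, hp, hi⟩
    exact ⟨g, hg, (mem_presS hm a b hab ⟨g, hg⟩).2 hp, hi⟩
  · rintro ⟨g, hg, hp, hi⟩
    exact ⟨g, hg, (mem_presS hm a b hab ⟨g, hg⟩).1 hp, hi⟩

end Sign

section JS

variable {F : Type u} [Field F] [Fintype F] {K : Type v} [Field K] [Fintype K] {j : K →+* F}
variable {ι : Type} [Fintype ι] [DecidableEq ι] {Q : QuadraticForm F (ι → F)} {Q₀ : QuadraticForm K (ι → K)}

/-- The multiplier of an extended similarity. -/
theorem mult_JS (hQ : (polarBilin Q).Nondegenerate) (hι : Nonempty ι) (hcompat : ∀ t : ι → K, j (Q₀ t) = Q (fun i => j (t i))) (g : SimG Q₀) :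
    (mult (JS hcompat g) : F) = j (mult g : K) := by
  apply mult_unique hQ hι (mult_spec (JS hcompat g))
  apply form_of_rat j
  intro t
  rw [coe_JS, map_mulVec_rat, ← hcompat, mult_spec, map_mul, ← hcompat]

theorem det_JS (hcompat : ∀ t : ι → K, j (Q₀ t) = Q (fun i => j (t i))) (g : SimG Q₀) :
    ((JS hcompat g).1 : Matrix ι ι F).det = j ((g.1 : Matrix ι ι K).det) := by
  rw [coe_JS]
  exact (RingHom.map_det j _).symm

/-- `JS` on scalars. -/
theorem JS_scalG (hcompat : ∀ t : ι → K, j (Q₀ t) = Q (fun i => j (t i))) (t : Kˣ) :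
    JS hcompat (scalG t) = scalG (Units.map (j : K →* F) t) := by
  apply Subtype.ext
  apply Units.ext
  rw [coe_JS, scalG_mat', scalG_mat']
  ext k l
  by_cases h : k = l
  · subst h
    simp
  · simp [h]

section Two

variable [CharP F 2] [CharP K 2]

/-- `normO` and `JO`. -/
theorem normO_JS (hQ : (polarBilin Q).Nondegenerate) (hι : Nonempty ι) (hQ₀ : (polarBilin Q₀).Nondegenerate)
    (hcompat : ∀ t : ι → K, j (Q₀ t) = Q (fun i => j (t i))) (g : SimG Q₀) :
    normO hQ hι (lamTwo hQ hι) (lamTwo_sq hQ hι) (JS hcompat g) =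
      JO hcompat (normO hQ₀ hι (lamTwo hQ₀ hι) (lamTwo_sq hQ₀ hι) g) := by
  apply ofO_injective
  rw [ofO_normO, ← JS_ofO, ofO_normO, map_mul, JS_scalG]
  have hlam : lamTwo hQ hι (JS hcompat g) = Units.map (j : K →* F) (lamTwo hQ₀ hι g) := by
    apply Units.ext
    apply frobenius_inj F 2
    have h1 := congrArg (fun u : Fˣ => (u : F)) (lamTwo_sq hQ hι (JS hcompat g))
    have h2 := congrArg (fun u : Kˣ => (u : K)) (lamTwo_sq hQ₀ hι g)
    simp only [Units.val_mul, multHom_apply] at h1 h2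
    rw [frobenius_def, frobenius_def, pow_two, pow_two, h1]
    rw [mult_JS hQ hι, ← h2, map_mul]
    rfl
  rw [hlam, map_inv]

end Two

end JS

section JSModel

variable {F : Type u} [Field F] [Fintype F] {K : Type v} [Field K] [Fintype K] (j : K →+* F)
variable {m : ℕ} (hm : 2 ≤ m) {a₀ b₀ : K}
    (hab₀ : ∀ z₁ z₂ : K, z₁ ^ 2 + a₀ * z₁ * z₂ + b₀ * z₂ ^ 2 = 0 → z₁ = 0 ∧ z₂ = 0)
    (hab : ∀ z₁ z₂ : F, z₁ ^ 2 + j a₀ * z₁ * z₂ + j b₀ * z₂ ^ 2 = 0 → z₁ = 0 ∧ z₂ = 0)

/-- The class condition is compatible with extending the scalars. -/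
theorem JS_mem_presS (g : SimG (minusForm m K a₀ b₀)) :
    JS (minus_compat j m a₀ b₀) g ∈ presS hm (j a₀) (j b₀) hab ↔ g ∈ presS hm a₀ b₀ hab₀ := by
  have hcompat := minus_compat j m a₀ b₀
  rw [mem_presS, mem_presS]
  by_cases h2 : (2 : F) = 0
  · have h2K : (2 : K) = 0 := by
      apply j.injective
      rw [map_ofNat, map_zero, h2]
    haveI : CharP F 2 := charP_two_of h2
    haveI : CharP K 2 := charP_two_of h2K
    rw [minus_pres_iff_two hm _ _ hab, minus_pres_iff_two hm _ _ hab₀, normO_JS _ _ (minusForm_nondegenerate m a₀ b₀ hab₀),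
      dickson_JO hcompat _ _ (minusForm_nondegenerate m a₀ b₀ hab₀) (Or.inr (card_ne_four m hm))]
  · have h2K : (2 : K) ≠ 0 := by
      intro h0
      apply h2
      have h3 : j 2 = 0 := by rw [h0, map_zero]
      rwa [map_ofNat] at h3
    rw [minus_pres_iff h2 m _ _ hab, minus_pres_iff h2K m _ _ hab₀, det_JS hcompat, mult_JS (minusForm_nondegenerate m _ _ hab) inferInstance hcompat,
      ← map_pow]
    exact j.injective.eq_iff

end JSModel

end Cfsg.Agent.Lib.Classical.OrthAut.MinusD
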