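import Mathlib
import Cfsg.Agent.Lib.Classical.OrthAut.MinusD

/-!
# Transport of `PΩ` along an isometry of forms
-/

set_option autoImplicit false
set_option linter.unusedSectionVars false
set_option linter.unusedSimpArgs false
set_option linter.unusedVariables false
set_option linter.style.haveILetI false

namespace Cfsg.Agent.Lib.Classical.OrthAut.MinusE

open Matrix QuadraticMap Module
open Cfsg.Agent.Lib.Classical.Orth.Basic
open Cfsg.Agent.Lib.Classical.Orth.Models
open Cfsg.Agent.Lib.Classical.Orth.Dickson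
open Cfsg.Agent.Lib.Classical.Orth.SimAut
open Cfsg.Agent.Lib.Classical.Orth.SimAut2
open Cfsg.Agent.Lib.Classical.Orth.SimAut4
open Cfsg.Agent.Lib.Classical.Orth.Semi
open Cfsg.Agent.Lib.Classical.OrthAut.MinusC
open Cfsg.Agent.Lib.Classical.OrthAut.MinusD

universe u

section Group

variable {G G' : Type*} [Group G] [Group G']

theorem map_commutator_equiv (f : G ≃* G') : (commutator G).map f.toMonoidHom = commutator G' := by
  rw [commutator_def, commutator_def, Subgroup.map_commutator, Subgroup.map_top_of_surjective _ f.surjective]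

/-- The commutator subgroups of isomorphic groups. -/
def commIso (f : G ≃* G') : commutator G ≃* commutator G' :=
  (f.subgroupMap (commutator G)).trans (MulEquiv.subgroupCongr (map_commutator_equiv f))

@[simp] theorem commIso_coe (f : G ≃* G') (s : commutator G) : ((commIso f s : commutator G') : G') = f s := rfl

theorem map_mem_commutator (f : G ≃* G') {s : G} : f s ∈ commutator G' ↔ s ∈ commutator G := by
  constructor
  · intro h
    rw [← map_commutator_equiv f] at h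
    obtain ⟨y, hy, hys⟩ := h
    have : y = s := f.injective hys
    rwa [← this]
  · intro h
    rw [← map_commutator_equiv f]
    exact ⟨s, h, rfl⟩

theorem map_center_equiv (f : G ≃* G') : (Subgroup.center G).map f.toMonoidHom = Subgroup.center G' := by
  ext y
  constructor
  · rintro ⟨x, hx, rfl⟩
    have hx' : x ∈ Subgroup.center G := hx
    rw [Subgroup.mem_center_iff] at hx' ⊢
    intro z
    obtain ⟨w, rfl⟩ := f.surjective z
    have h1 := congrArg f (hx' w)
    simpa using h1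
  · intro hy
    refine ⟨f.symm y, ?_, by simp⟩
    rw [Subgroup.mem_center_iff] at hy
    show f.symm y ∈ Subgroup.center G
    rw [Subgroup.mem_center_iff]
    intro z
    have h1 := hy (f z)
    apply f.injective
    simpa using h1

/-- The quotients by the centres of isomorphic groups. -/
def quotIso (f : G ≃* G') : (G ⧸ Subgroup.center G) ≃* (G' ⧸ Subgroup.center G') :=
  QuotientGroup.congr _ _ f (map_center_equiv f)

@[simp] theorem quotIso_mk (f : G ≃* G') (s : G) : quotIso f (QuotientGroup.mk s) = QuotientGroup.mk (f s) := rfl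

/-- Conjugation of automorphism groups. -/
def autCongr (Φ : G ≃* G') : MulAut G ≃* MulAut G' where
  toFun α := (Φ.symm.trans α).trans Φ
  invFun β := (Φ.trans β).trans Φ.symm
  left_inv α := by
    ext x
    simp
  right_inv β := by
    ext x
    simp
  map_mul' α β := by
    ext x
    simp

@[simp] theorem autCongr_apply (Φ : G ≃* G') (α : MulAut G) (y : G') : autCongr Φ α y = Φ (α (Φ.symm y)) := rfl

theorem autCongr_conj (Φ : G ≃* G') (x : G) : autCongr Φ (MulAut.conj x) = MulAut.conj (Φ x) := by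
  ext y
  simp

theorem autCongr_mem_inn (Φ : G ≃* G') {α : MulAut G} : autCongr Φ α ∈ Cfsg.Inn G' ↔ α ∈ Cfsg.Inn G := by
  constructor
  · rintro ⟨y, hy⟩
    refine ⟨Φ.symm y, ?_⟩
    apply (autCongr Φ).injective
    rw [autCongr_conj, ← hy]
    simp
  · rintro ⟨x, rfl⟩
    rw [autCongr_conj]
    exact ⟨_, rfl⟩

end Group

section Orth

variable {ι : Type} [Fintype ι] [DecidableEq ι] {F : Type*} [Field F]
variable {Q₁ Q₂ : (ι → F) → F}

theorem gl_cancel (g : GL ι F) (v : ι → F) : (g : Matrix ι ι F) *ᵥ (((g⁻¹ : GL ι F) : Matrix ι ι F) *ᵥ v) = v := by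
  rw [Matrix.mulVec_mulVec, ← Units.val_mul, mul_inv_cancel, Units.val_one, Matrix.one_mulVec]

theorem gl_cancel' (g : GL ι F) (v : ι → F) : ((g⁻¹ : GL ι F) : Matrix ι ι F) *ᵥ ((g : Matrix ι ι F) *ᵥ v) = v := by
  rw [Matrix.mulVec_mulVec, ← Units.val_mul, inv_mul_cancel, Units.val_one, Matrix.one_mulVec]

theorem conj_mulVec (g s : GL ι F) (v : ι → F) :
    ((g * s * g⁻¹ : GL ι F) : Matrix ι ι F) *ᵥ v = (g : Matrix ι ι F) *ᵥ ((s : Matrix ι ι F) *ᵥ (((g⁻¹ : GL ι F) : Matrix ι ι F) *ᵥ v)) := by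
  rw [Units.val_mul, Units.val_mul, Matrix.mulVec_mulVec, Matrix.mulVec_mulVec, Matrix.mul_assoc]

theorem inv_hg {g : GL ι F} (hg : ∀ v, Q₂ ((g : Matrix ι ι F) *ᵥ v) = Q₁ v) (v : ι → F) :
    Q₁ (((g⁻¹ : GL ι F) : Matrix ι ι F) *ᵥ v) = Q₂ v := by
  rw [← hg, gl_cancel]

variable (g : GL ι F) (hg : ∀ v, Q₂ ((g : Matrix ι ι F) *ᵥ v) = Q₁ v)

include hg

theorem conj_mem_iso {s : GL ι F} (hs : s ∈ Cfsg.isometryGroup F Q₁) : g * s * g⁻¹ ∈ Cfsg.isometryGroup F Q₂ := by
  intro u _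
  show Q₂ (((g * s * g⁻¹ : GL ι F) : Matrix ι ι F) *ᵥ u) = Q₂ u
  rw [conj_mulVec, hg]
  have h4 := hs (((g⁻¹ : GL ι F) : Matrix ι ι F) *ᵥ u) (((g⁻¹ : GL ι F) : Matrix ι ι F) *ᵥ u)
  have h4' : Q₁ ((s : Matrix ι ι F) *ᵥ (((g⁻¹ : GL ι F) : Matrix ι ι F) *ᵥ u)) =
      Q₁ (((g⁻¹ : GL ι F) : Matrix ι ι F) *ᵥ u) := h4
  rw [h4', inv_hg hg]

/-- Conjugation of the isometry groups. -/
def conjI : ↥(Cfsg.isometryGroup F Q₁) ≃* ↥(Cfsg.isometryGroup F Q₂) where
  toFun s := ⟨g * s.1 * g⁻¹, conj_mem_iso g hg s.2⟩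
  invFun t := ⟨g⁻¹ * t.1 * g, by
    have h := conj_mem_iso (Q₁ := Q₂) (Q₂ := Q₁) g⁻¹ (inv_hg hg) t.2
    rwa [inv_inv] at h⟩
  left_inv s := Subtype.ext (by simp [mul_assoc])
  right_inv s := Subtype.ext (by simp [mul_assoc])
  map_mul' a b := Subtype.ext (by simp [mul_assoc])

@[simp] theorem conjI_coe (s : ↥(Cfsg.isometryGroup F Q₁)) : ((conjI g hg s : ↥(Cfsg.isometryGroup F Q₂)) : GL ι F) = g * s.1 * g⁻¹ := rfl

/-- The isomorphism of `PΩ`. -/
def pIso : Cfsg.POmega F Q₁ ≃* Cfsg.POmega F Q₂ := quotIso (commIso (conjI g hg))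

theorem conj_mem_sim {s : GL ι F} (hs : s ∈ Cfsg.Geo.quadSimilarityGroup (F := F) Q₁) :
    g * s * g⁻¹ ∈ Cfsg.Geo.quadSimilarityGroup (F := F) Q₂ := by
  obtain ⟨c, hc⟩ := hs
  refine ⟨c, fun u => ?_⟩
  rw [conj_mulVec, hg, hc, inv_hg hg]

/-- Conjugation of the similarity groups. -/
def conjS : ↥(Cfsg.Geo.quadSimilarityGroup (F := F) Q₁) ≃* ↥(Cfsg.Geo.quadSimilarityGroup (F := F) Q₂) where
  toFun s := ⟨g * s.1 * g⁻¹, conj_mem_sim g hg s.2⟩
  invFun t := ⟨g⁻¹ * t.1 * g, by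
    have h := conj_mem_sim (Q₁ := Q₂) (Q₂ := Q₁) g⁻¹ (inv_hg hg) t.2
    rwa [inv_inv] at h⟩
  left_inv s := Subtype.ext (by simp [mul_assoc])
  right_inv s := Subtype.ext (by simp [mul_assoc])
  map_mul' a b := Subtype.ext (by simp [mul_assoc])

@[simp] theorem conjS_coe (s : ↥(Cfsg.Geo.quadSimilarityGroup (F := F) Q₁)) :
    ((conjS g hg s : ↥(Cfsg.Geo.quadSimilarityGroup (F := F) Q₂)) : GL ι F) = g * s.1 * g⁻¹ := rfl

/-- Compatibility of the transport with conjugation by similarities. -/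
theorem autCongr_simHom (u : ↥(Cfsg.Geo.quadSimilarityGroup (F := F) Q₁)) :
    autCongr (pIso g hg) (simHom Q₁ u) = simHom Q₂ (conjS g hg u) := by
  ext y
  obtain ⟨x, rfl⟩ := (pIso g hg).surjective y
  induction x using QuotientGroup.induction_on with
  | H t =>
    rw [autCongr_apply, MulEquiv.symm_apply_apply, simHom_mk]
    change QuotientGroup.mk _ = simHom Q₂ (conjS g hg u) (QuotientGroup.mk _)
    rw [simHom_mk]
    congr 1
    apply Subtype.ext
    apply Subtype.ext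
    show g * (u.1 * t.1.1 * u.1⁻¹) * g⁻¹ = (g * u.1 * g⁻¹) * (g * t.1.1 * g⁻¹) * (g * u.1 * g⁻¹)⁻¹
    group

end Orth

section Model

variable {F : Type u} [Field F] [Fintype F] {m : ℕ} (hm : 2 ≤ m) {a b a' b' : F}
    (hab : ∀ z₁ z₂ : F, z₁ ^ 2 + a * z₁ * z₂ + b * z₂ ^ 2 = 0 → z₁ = 0 ∧ z₂ = 0)
    (hab' : ∀ z₁ z₂ : F, z₁ ^ 2 + a' * z₁ * z₂ + b' * z₂ ^ 2 = 0 → z₁ = 0 ∧ z₂ = 0)

include hab hab' in
/-- An isometry of two minus forms, as a matrix. -/
theorem exists_gl_isometry : ∃ g : GL ((Fin m ⊕ Fin m) ⊕ Fin 2) F,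
    ∀ v, minusForm m F a' b' ((g : Matrix ((Fin m ⊕ Fin m) ⊕ Fin 2) ((Fin m ⊕ Fin m) ⊕ Fin 2) F) *ᵥ v) = minusForm m F a b v := by
  obtain ⟨L, hL⟩ := Cfsg.Agent.Lib.Classical.OrthAut.MinusA.exists_isometry_minus m hab' hab
  obtain ⟨g, hg⟩ := exists_gl_of_semilinear (RingEquiv.refl F) (⇑L) (map_add L) (fun t v => by simp) L.injective
  refine ⟨g, fun v => ?_⟩
  have h1 := hg v
  simp only [RingEquiv.refl_apply] at h1
  rw [h1, coe_minusForm_apply, coe_minusForm_apply]
  exact hL v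

variable (g : GL ((Fin m ⊕ Fin m) ⊕ Fin 2) F)
    (hg : ∀ v, (⇑(minusForm m F a' b')) ((g : Matrix ((Fin m ⊕ Fin m) ⊕ Fin 2) ((Fin m ⊕ Fin m) ⊕ Fin 2) F) *ᵥ v) = (⇑(minusForm m F a b)) v)

include hab' in
/-- The multiplier is preserved by the transport. -/
theorem mult_conjS (u : SimG (minusForm m F a b)) : (mult (conjS g hg u) : F) = (mult u : F) := by
  apply mult_unique (minusForm_nondegenerate m a' b' hab') inferInstance (mult_spec (conjS g hg u))
  intro v
  show minusForm m F a' b' (((g * u.1 * g⁻¹ : GL _ F) : Matrix _ _ F) *ᵥ v) = _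
  rw [conj_mulVec, hg, mult_spec, inv_hg hg]

omit [Fintype F] in
theorem det_conjS (u : SimG (minusForm m F a b)) :
    (((conjS g hg u).1 : GL _ F) : Matrix ((Fin m ⊕ Fin m) ⊕ Fin 2) ((Fin m ⊕ Fin m) ⊕ Fin 2) F).det =
      ((u.1 : GL _ F) : Matrix ((Fin m ⊕ Fin m) ⊕ Fin 2) ((Fin m ⊕ Fin m) ⊕ Fin 2) F).det := by
  show ((g * u.1 * g⁻¹ : GL _ F) : Matrix ((Fin m ⊕ Fin m) ⊕ Fin 2) ((Fin m ⊕ Fin m) ⊕ Fin 2) F).det = _
  rw [Units.val_mul, Units.val_mul, Matrix.det_mul, Matrix.det_mul, mul_comm, ← mul_assoc, ← Matrix.det_mul,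
    ← Units.val_mul, inv_mul_cancel, Units.val_one, Matrix.det_one, one_mul]

include hm hab hab' in
/-- The class condition is preserved by the transport. -/
theorem conjS_mem_presS (u : SimG (minusForm m F a b)) :
    conjS g hg u ∈ presS hm a' b' hab' ↔ u ∈ presS hm a b hab := by
  rw [mem_presS, mem_presS]
  by_cases h2 : (2 : F) = 0
  · haveI : CharP F 2 := charP_two_of h2
    rw [minus_pres_iff_two hm _ _ hab', minus_pres_iff_two hm _ _ hab, ← mem_omega_iff_char_two, ← mem_omega_iff_char_two]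
    have hQ := minusForm_nondegenerate m a b hab
    have hQ' := minusForm_nondegenerate m a' b' hab'
    have hι : Nonempty ((Fin m ⊕ Fin m) ⊕ Fin 2) := inferInstance
    have hlam : lamTwo hQ' hι (conjS g hg u) = lamTwo hQ hι u := by
      apply Units.ext
      rw [lamTwo_val, lamTwo_val, multHom_apply, multHom_apply, mult_conjS hab']
    have key : normO hQ' hι (lamTwo hQ' hι) (lamTwo_sq hQ' hι) (conjS g hg u) =
        conjI g hg (normO hQ hι (lamTwo hQ hι) (lamTwo_sq hQ hι) u) := by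
      apply ofO_injective
      rw [ofO_normO, hlam]
      apply Subtype.ext
      show (conjS g hg u).1 * (scalG (Q := minusForm m F a' b') (lamTwo hQ hι u)⁻¹).1 =
        g * (u.1 * (scalG (Q := minusForm m F a b) (lamTwo hQ hι u)⁻¹).1) * g⁻¹
      apply Units.ext
      rw [conjS_coe]
      simp only [Units.val_mul]
      rw [scalG_mat', scalG_mat']
      simp only [Matrix.mul_smul, Matrix.smul_mul, Matrix.mul_one]
    rw [key]
    exact map_mem_commutator (conjI g hg)
  · rw [minus_pres_iff h2 m _ _ hab', minus_pres_iff h2 m _ _ hab, det_conjS, mult_conjS hab']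

include hm hab hab' in
/-- The inner-diagonal group is preserved by the transport. -/
theorem autCongr_mem_inndiag {α : MulAut (Cfsg.POmega F (⇑(minusForm m F a b)))} :
    autCongr (pIso g hg) α ∈ inndiagOf m a' b' (⇑(minusForm m F a' b')) ↔ α ∈ inndiagOf m a b (⇑(minusForm m F a b)) := by
  rw [inndiag_eq hm a' b' hab', inndiag_eq hm a b hab]
  constructor
  · rintro ⟨u', hu', h⟩
    obtain ⟨u, rfl⟩ := (conjS g hg).surjective u'
    refine ⟨u, (conjS_mem_presS hm hab hab' g hg u).1 hu', ?_⟩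
    apply (autCongr (pIso g hg)).injective
    rw [← h, autCongr_simHom]
  · rintro ⟨u, hu, rfl⟩
    exact ⟨conjS g hg u, (conjS_mem_presS hm hab hab' g hg u).2 hu, (autCongr_simHom g hg u).symm⟩

end Model

end Cfsg.Agent.Lib.Classical.OrthAut.MinusE
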