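import Mathlib
import Cfsg.Agent.Lib.Classical.OrthAut.MinusE

/-!
# Field automorphisms of `PΩ⁻`: Lang–Steinberg
-/

set_option autoImplicit false
set_option linter.unusedSectionVars false
set_option linter.unusedSimpArgs false
set_option linter.unusedVariables false
set_option linter.style.haveILetI false

namespace Cfsg.Agent.Lib.Classical.OrthAut.MinusF

open Matrix QuadraticMap Module
open Cfsg.Agent.Lib.Classical.Orth.Basic
open Cfsg.Agent.Lib.Classical.Orth.Models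
open Cfsg.Agent.Lib.Classical.Orth.SimAut
open Cfsg.Agent.Lib.Classical.Orth.SimAut2
open Cfsg.Agent.Lib.Classical.Orth.Semi
open Cfsg.Agent.Lib.Classical.Orth.Spinor
open Cfsg.Agent.Lib.Classical.Witt.Hyp
open Cfsg.Agent.Lib.Classical.Herm.Descent
open Cfsg.Agent.Lib.Classical.Herm.GLDescent
open Cfsg.Agent.Lib.Classical.OrthAut.Fld
open Cfsg.Agent.Lib.Classical.OrthAut.FldConj
open Cfsg.Agent.Lib.Classical.OrthAut.FldCent
open Cfsg.Agent.Lib.Classical.OrthAut.FldJO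
open Cfsg.Agent.Lib.Classical.OrthAut.MinusB
open Cfsg.Agent.Lib.Classical.OrthAut.MinusC
open Cfsg.Agent.Lib.Classical.OrthAut.MinusD
open Cfsg.Agent.Lib.Classical.OrthAut.MinusE

attribute [local instance] finite_ringAut

universe u v

variable {F : Type u} [Field F] [Fintype F] {m : ℕ}

theorem hn_minus (hm : 3 ≤ m) : 7 ≤ Fintype.card ((Fin m ⊕ Fin m) ⊕ Fin 2) := by
  simp
  omega

theorem minus_inv {a b : F} {σ : F ≃+* F} (hσa : σ a = a) (hσb : σ b = b) (v : (Fin m ⊕ Fin m) ⊕ Fin 2 → F) :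
    minusForm m F a b (fun i => σ (v i)) = σ (minusForm m F a b v) := by
  simp [coe_minusForm_apply, Cfsg.quadFormMinus, map_sum, map_add, map_mul, map_pow, hσa, hσb]

/-- Surjectivity of the semilinear description. -/
theorem exists_Y (hm : 3 ≤ m) {a b : F} (hab : ∀ z₁ z₂ : F, z₁ ^ 2 + a * z₁ * z₂ + b * z₂ ^ 2 = 0 → z₁ = 0 ∧ z₂ = 0)
    (α : MulAut (Cfsg.POmega F (⇑(minusForm m F a b)))) : ∃ Y : ↥(Ss (⇑(minusForm m F a b))), semiHom (⇑(minusForm m F a b)) Y = α := by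
  have h := Cfsg.Agent.Lib.Classical.OrthAut.Models.gamma_minus hm a b hab
  rw [← coe_minusForm, gamma_eq] at h
  have h1 : α ∈ (semiHom (⇑(minusForm m F a b))).range := by
    rw [h]
    trivial
  exact h1

theorem comm_conj_inv {G : Type*} [Group G] {r p : G} (h : p * r = r * p) : r * p * r⁻¹ = p := by
  rw [← h]
  group

section Gen

variable {ι : Type} [Fintype ι] [DecidableEq ι] {K : Type v} [Field K] [Fintype K] {j : K →+* F}
variable {Q : QuadraticForm F (ι → F)} {Q₀ : QuadraticForm K (ι → K)}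

/-- A reflection in a rational vector commutes with the standard field automorphism. -/
theorem comm_reflection {σ : F ≃+* F} {hσ : ∀ v, Q (fun i => σ (v i)) = σ (Q v)} (hQ : (polarBilin Q).Nondegenerate)
    (hn : 7 ≤ Fintype.card ι) (hfix : ∀ k, σ (j k) = j k) (hcompat : ∀ t : ι → K, j (Q₀ t) = Q (fun i => j (t i)))
    (t₀ : ι → K) (ht₀ : Q₀ t₀ ≠ 0) (hv : Q (fun i => j (t₀ i)) ≠ 0) :
    phi₀ σ hσ * simHom (⇑Q) (ofO (reflectionIso Q (fun i => j (t₀ i)) hv)) =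
      simHom (⇑Q) (ofO (reflectionIso Q (fun i => j (t₀ i)) hv)) * phi₀ σ hσ := by
  have h1 := comm_JS hQ hn (σ := σ) (hσ := hσ) hfix hcompat (ofO (reflectionIso Q₀ t₀ ht₀))
  rw [JS_ofO, JO_reflection hcompat t₀ ht₀ hv] at h1
  exact h1

/-- **Lang–Steinberg**: conjugacy to the standard map by an element of a subgroup of similarities, given a
matching of forms and a reflection flip. -/
theorem conj_std_gen (hQ : (polarBilin Q).Nondegenerate) (hn : 7 ≤ Fintype.card ι) (hQ₀ : (polarBilin Q₀).Nondegenerate)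
    {σ : F ≃+* F} (hfix : ∀ k, σ (j k) = j k) (hsurj : ∀ y, σ y = y → ∃ k, j k = y)
    (hcompat : ∀ t : ι → K, j (Q₀ t) = Q (fun i => j (t i)))
    (hσ : ∀ v, Q (fun i => σ (v i)) = σ (Q v)) (S : Subgroup (SimG Q))
    (hflip : ∀ g, g ∉ S → ∀ v (hv : Q v ≠ 0), ofO (reflectionIso Q v hv) * g ∈ S)
    {Y : ↥(Ss (⇑Q))}
    (hmatch : ∀ (μ : F) (β : Basis ι F (ι → F)) (a : F) (Q₁ : QuadraticForm K (ι → K)), Desc Q j (fun x => μ • sm Y.1 x) β a Q₁ →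
      ∃ (g : (ι → K) ≃ₗ[K] (ι → K)) (d : K), d ≠ 0 ∧ ∀ u, Q₀ (g u) = d * Q₁ u)
    (hY : Y.1.right = σ) (h : (semiHom (⇑Q) Y) ^ orderOf σ = 1) :
    ∃ c ∈ S, simHom (⇑Q) c * semiHom (⇑Q) Y * (simHom (⇑Q) c)⁻¹ = phi₀ σ hσ := by
  have hι : Nonempty ι := Fintype.card_pos_iff.1 (by omega)
  obtain ⟨μ, β, a, Q₁, hμ, hD⟩ := exists_descent hQ hn hfix hsurj hY h
  obtain ⟨g, d, hd, hg⟩ := hmatch μ β a Q₁ hD
  obtain ⟨C, hC⟩ := conj_of_match hQ hn hfix hcompat hσ hY hμ hD g hd hg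
  by_cases hmem : C⁻¹ ∈ S
  · refine ⟨C⁻¹, hmem, ?_⟩
    rw [map_inv, inv_inv]
    exact hC
  · obtain ⟨t₀, ht₀⟩ := exists_ne_zero_value Q₀ hQ₀ hι
    have hv : Q (fun i => j (t₀ i)) ≠ 0 := by
      rw [← hcompat]
      simpa using ht₀
    refine ⟨_, hflip _ hmem _ hv, ?_⟩
    have h1 := comm_reflection hQ hn (σ := σ) (hσ := hσ) hfix hcompat t₀ ht₀ hv
    rw [map_mul, map_inv]
    calc _ = simHom (⇑Q) (ofO (reflectionIso Q _ hv)) * ((simHom (⇑Q) C)⁻¹ * semiHom (⇑Q) Y * simHom (⇑Q) C) *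
          (simHom (⇑Q) (ofO (reflectionIso Q _ hv)))⁻¹ := by group
      _ = _ := by
        rw [hC]
        exact comm_conj_inv h1

theorem conj_aux {G : Type*} [Group G] {D X C₁ C₂ : G} (h : C₁ * (D * X) * C₁⁻¹ = C₂ * X * C₂⁻¹) :
    D * X = (C₁⁻¹ * C₂) * X * (C₁⁻¹ * C₂)⁻¹ := by
  have h1 : D * X = C₁⁻¹ * (C₁ * (D * X) * C₁⁻¹) * C₁ := by group
  rw [h1, h]
  group

/-- Coset conjugacy in a group of similarities. -/
theorem coset_gen (hQ : (polarBilin Q).Nondegenerate) (hn : 7 ≤ Fintype.card ι) (hQ₀ : (polarBilin Q₀).Nondegenerate)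
    {σ : F ≃+* F} (hfix : ∀ k, σ (j k) = j k) (hsurj : ∀ y, σ y = y → ∃ k, j k = y)
    (hcompat : ∀ t : ι → K, j (Q₀ t) = Q (fun i => j (t i)))
    (hσ : ∀ v, Q (fun i => σ (v i)) = σ (Q v)) (S : Subgroup (SimG Q))
    (hflip : ∀ g, g ∉ S → ∀ v (hv : Q v ≠ 0), ofO (reflectionIso Q v hv) * g ∈ S)
    (hmatch : ∀ (T : (ι → F) → (ι → F)) (β : Basis ι F (ι → F)) (a : F) (Q₁ : QuadraticForm K (ι → K)), Desc Q j T β a Q₁ →
      ∃ (g : (ι → K) ≃ₗ[K] (ι → K)) (d : K), d ≠ 0 ∧ ∀ u, Q₀ (g u) = d * Q₁ u)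
    (hYs : ∀ α : MulAut (Cfsg.POmega F (⇑Q)), ∃ Y : ↥(Ss (⇑Q)), semiHom (⇑Q) Y = α)
    (hσ1 : σ ≠ RingEquiv.refl F) {x δ α : MulAut (Cfsg.POmega F (⇑Q))} (hα : α * x * α⁻¹ = phi₀ σ hσ)
    {r : ℕ} (hr : r.Prime) (hxr : orderOf x = r) (hδ : δ ∈ S.map (simHom (⇑Q))) (hy : orderOf (δ * x) = r) :
    Cfsg.IsConjUnder (S.map (simHom (⇑Q))) x (δ * x) := by
  obtain ⟨X, rfl⟩ := hYs x
  obtain ⟨A, rfl⟩ := hYs α
  have hXσ := right_of_conj hQ hn hσ hα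
  have hσ1' : X.1.right ≠ 1 := by
    rw [hXσ]
    exact hσ1
  have hXr : (semiHom (⇑Q) X) ^ r = 1 := by
    rw [← hxr, pow_orderOf_eq_one]
  have hordσ : orderOf σ = r := by
    rw [← hXσ]
    exact orderOf_right hQ hn hr hXr hσ1'
  obtain ⟨c₂, hc₂S, hc₂⟩ := conj_std_gen hQ hn hQ₀ hfix hsurj hcompat hσ S hflip
    (fun μ β a Q₁ hD => hmatch _ β a Q₁ hD) hXσ (by rw [hordσ, hXr])
  obtain ⟨D, hDS, rfl⟩ := hδ
  have hyr : (semiHom (⇑Q) (ofSim _ D * X)) ^ r = 1 := by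
    rw [map_mul, semiHom_ofSim, ← hy, pow_orderOf_eq_one]
  have hYσ : (ofSim _ D * X : ↥(Ss (⇑Q))).1.right = σ := by
    rw [← hXσ]
    have e : (ofSim _ D * X : ↥(Ss (⇑Q))).1 = (SemidirectProduct.inl D.1 : GS ι F) * X.1 := rfl
    rw [e]
    simp
  obtain ⟨c₁, hc₁S, hc₁⟩ := conj_std_gen hQ hn hQ₀ hfix hsurj hcompat hσ S hflip
    (fun μ β a Q₁ hD => hmatch _ β a Q₁ hD) hYσ (by rw [hordσ, hyr])
  refine ⟨simHom _ (c₁⁻¹ * c₂), ⟨_, S.mul_mem (S.inv_mem hc₁S) hc₂S, rfl⟩, ?_⟩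
  rw [map_mul, semiHom_ofSim] at hc₁
  rw [map_mul, map_inv]
  exact conj_aux (hc₁.trans hc₂.symm)

end Gen

section Std

variable {K : Type v} [Field K] [Fintype K] {j : K →+* F} {a₀ b₀ : K}

/-- **Lang–Steinberg** for minus forms: conjugacy to the standard map by a class-preserving similarity. -/
theorem conj_std (hm : 3 ≤ m) (hab₀ : ∀ z₁ z₂ : K, z₁ ^ 2 + a₀ * z₁ * z₂ + b₀ * z₂ ^ 2 = 0 → z₁ = 0 ∧ z₂ = 0)
    (hab : ∀ z₁ z₂ : F, z₁ ^ 2 + j a₀ * z₁ * z₂ + j b₀ * z₂ ^ 2 = 0 → z₁ = 0 ∧ z₂ = 0)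
    {σ : F ≃+* F} (hfix : ∀ k, σ (j k) = j k) (hsurj : ∀ y, σ y = y → ∃ k, j k = y)
    (hσ : ∀ v, minusForm m F (j a₀) (j b₀) (fun i => σ (v i)) = σ (minusForm m F (j a₀) (j b₀) v))
    {Y : ↥(Ss (⇑(minusForm m F (j a₀) (j b₀))))} (hY : Y.1.right = σ)
    (h : (semiHom (⇑(minusForm m F (j a₀) (j b₀))) Y) ^ orderOf σ = 1) :
    ∃ c ∈ presS (by omega : 2 ≤ m) (j a₀) (j b₀) hab,
      simHom (⇑(minusForm m F (j a₀) (j b₀))) c * semiHom (⇑(minusForm m F (j a₀) (j b₀))) Y *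
        (simHom (⇑(minusForm m F (j a₀) (j b₀))) c)⁻¹ = phi₀ σ hσ :=
  conj_std_gen (minusForm_nondegenerate m _ _ hab) (hn_minus hm) (minusForm_nondegenerate m _ _ hab₀) hfix hsurj
    (minus_compat j m a₀ b₀) hσ _ (fun g hg v hv => mul_reflection_mem (by omega : 2 ≤ m) (j a₀) (j b₀) hab hg v hv)
    (fun μ β a Q₁ hD => by
      obtain ⟨g, hg⟩ := exists_match_minus hab hab₀ hD
      exact ⟨g, 1, one_ne_zero, hg⟩) hY h

end Std

section Main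

/-- The order of a conjugate. -/
theorem orderOf_conj_eq {G : Type*} [Group G] (h x : G) : orderOf (h * x * h⁻¹) = orderOf x := by
  have : h * x * h⁻¹ = (MulAut.conj h).toMonoidHom x := rfl
  rw [this]
  exact orderOf_injective _ (MulAut.conj h).injective x

/-- Pulling back coset conjugacy along an isomorphism. -/
theorem coset_transport {X Y : Type*} [Group X] [Group Y] (Φ : X ≃* Y) (P : Subgroup (MulAut X)) (P' : Subgroup (MulAut Y))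
    (hP : ∀ α, autCongr Φ α ∈ P' ↔ α ∈ P) (x : MulAut X) {r : ℕ}
    (h : ∀ δ' ∈ P', orderOf (δ' * autCongr Φ x) = r → Cfsg.IsConjUnder P' (autCongr Φ x) (δ' * autCongr Φ x))
    {δ : MulAut X} (hδ : δ ∈ P) (hy : orderOf (δ * x) = r) : Cfsg.IsConjUnder P x (δ * x) := by
  have hy' : orderOf (autCongr Φ δ * autCongr Φ x) = r := by
    rw [← hy, ← map_mul]
    exact MulEquiv.orderOf_eq _ _
  obtain ⟨h', hh', he⟩ := h _ ((hP δ).2 hδ) hy'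
  obtain ⟨k, rfl⟩ := (autCongr Φ).surjective h'
  refine ⟨k, (hP k).1 hh', ?_⟩
  apply (autCongr Φ).injective
  rw [map_mul, map_mul, map_mul, map_inv]
  exact he

theorem conj_pull {X Y : Type*} [Group X] [Group Y] (Φ ψ : X ≃* Y) (x : MulAut X) :
    ((Φ.symm.trans ψ : Y ≃* Y) : MulAut Y) * autCongr Φ x * ((Φ.symm.trans ψ : Y ≃* Y) : MulAut Y)⁻¹ = (ψ.symm.trans x).trans ψ := by
  ext y
  have h : ((Φ.symm.trans ψ : Y ≃* Y) : MulAut Y)⁻¹ y = Φ (ψ.symm y) := rfl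
  rw [MulAut.mul_apply, MulAut.mul_apply, h]
  change ψ (Φ.symm (Φ (x (Φ.symm (Φ (ψ.symm y)))))) = ψ (x (ψ.symm y))
  simp

/-- Coset conjugacy on the side of a rational form. -/
theorem coset_std {K : Type v} [Field K] [Fintype K] {j : K →+* F} {a₀ b₀ : K} (hm : 3 ≤ m)
    (hab₀ : ∀ z₁ z₂ : K, z₁ ^ 2 + a₀ * z₁ * z₂ + b₀ * z₂ ^ 2 = 0 → z₁ = 0 ∧ z₂ = 0)
    (hab : ∀ z₁ z₂ : F, z₁ ^ 2 + j a₀ * z₁ * z₂ + j b₀ * z₂ ^ 2 = 0 → z₁ = 0 ∧ z₂ = 0)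
    {σ : F ≃+* F} (hfix : ∀ k, σ (j k) = j k) (hsurj : ∀ y, σ y = y → ∃ k, j k = y)
    (hσ : ∀ v, minusForm m F (j a₀) (j b₀) (fun i => σ (v i)) = σ (minusForm m F (j a₀) (j b₀) v))
    (hσ1 : σ ≠ RingEquiv.refl F) {x δ α : MulAut (Cfsg.POmega F (⇑(minusForm m F (j a₀) (j b₀))))} (hα : α * x * α⁻¹ = phi₀ σ hσ)
    {r : ℕ} (hr : r.Prime) (hxr : orderOf x = r) (hδ : δ ∈ inndiagOf m (j a₀) (j b₀) (⇑(minusForm m F (j a₀) (j b₀))))
    (hy : orderOf (δ * x) = r) : Cfsg.IsConjUnder (inndiagOf m (j a₀) (j b₀) (⇑(minusForm m F (j a₀) (j b₀)))) x (δ * x) := by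
  have hm2 : 2 ≤ m := by omega
  rw [inndiag_eq hm2 _ _ hab] at hδ ⊢
  exact coset_gen (minusForm_nondegenerate m _ _ hab) (hn_minus hm) (minusForm_nondegenerate m _ _ hab₀) hfix hsurj
      (minus_compat j m a₀ b₀) hσ (presS hm2 (j a₀) (j b₀) hab)
      (fun g hg v hv => mul_reflection_mem hm2 (j a₀) (j b₀) hab hg v hv)
      (fun T β a Q₁ hD => by
        obtain ⟨g, hg⟩ := exists_match_minus hab hab₀ hD
        exact ⟨g, 1, one_ne_zero, hg⟩) (exists_Y hm hab) hσ1 hα hr hxr hδ hy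

/-- Coset conjugacy for the minus forms. -/
theorem coset_minus (hm : 3 ≤ m) {a b a' b' : F} (hab : ∀ z₁ z₂ : F, z₁ ^ 2 + a * z₁ * z₂ + b * z₂ ^ 2 = 0 → z₁ = 0 ∧ z₂ = 0)
    (hab' : ∀ z₁ z₂ : F, z₁ ^ 2 + a' * z₁ * z₂ + b' * z₂ ^ 2 = 0 → z₁ = 0 ∧ z₂ = 0) {σ : F ≃+* F} (hσ1 : σ ≠ RingEquiv.refl F)
    (hσa : σ a' = a') (hσb : σ b' = b') (x δ : MulAut (Cfsg.POmega F (⇑(minusForm m F a b))))
    (ψ : Cfsg.POmega F (⇑(minusForm m F a b)) ≃* Cfsg.POmega F (⇑(minusForm m F a' b')))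
    (hφ : Cfsg.IsFieldAutPOmegaOf (⇑(minusForm m F a' b')) σ ((ψ.symm.trans x).trans ψ))
    {r : ℕ} (hr : r.Prime) (hxr : orderOf x = r) (hδ : δ ∈ inndiagOf m a b (⇑(minusForm m F a b))) :
    orderOf (δ * x) = r ↔ Cfsg.IsConjUnder (inndiagOf m a b (⇑(minusForm m F a b))) x (δ * x) := by
  constructor
  · intro hy
    have hm2 : 2 ≤ m := by omega
    letI : Fintype (fixF σ) := Fintype.ofFinite _
    have hfix : ∀ y : fixF σ, σ ((fixF σ).subtype y) = (fixF σ).subtype y := fun y => y.2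
    have hsurj : ∀ y, σ y = y → ∃ z, (fixF σ).subtype z = y := fun y hy => ⟨⟨y, hy⟩, rfl⟩
    obtain ⟨a₀, rfl⟩ : ∃ a₀, (fixF σ).subtype a₀ = a' := ⟨⟨a', hσa⟩, rfl⟩
    obtain ⟨b₀, rfl⟩ : ∃ b₀, (fixF σ).subtype b₀ = b' := ⟨⟨b', hσb⟩, rfl⟩
    have hab₀ : ∀ z₁ z₂ : fixF σ, z₁ ^ 2 + a₀ * z₁ * z₂ + b₀ * z₂ ^ 2 = 0 → z₁ = 0 ∧ z₂ = 0 := by
      intro z₁ z₂ h
      have h1 := hab' ((fixF σ).subtype z₁) ((fixF σ).subtype z₂) (by
        have := congrArg (fixF σ).subtype h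
        simpa using this)
      exact ⟨(fixF σ).subtype_injective (by rw [h1.1, map_zero]), (fixF σ).subtype_injective (by rw [h1.2, map_zero])⟩
    have hσ := minus_inv (m := m) hσa hσb
    obtain ⟨g, hg⟩ := exists_gl_isometry (m := m) hab hab'
    have hα := conj_pull (pIso g hg) ψ x
    have hφ' := eq_phi₀ hσ hφ
    rw [hφ'] at hα
    refine coset_transport (pIso g hg) _ _ (fun α => autCongr_mem_inndiag hm2 hab hab' g hg) x ?_ hδ hy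
    intro δ' hδ' hy'
    have hxr' : orderOf (autCongr (pIso g hg) x) = r := by
      rw [← hxr]
      exact MulEquiv.orderOf_eq _ _
    exact coset_std hm hab₀ hab' hfix hsurj hσ hσ1 hα hr hxr' hδ' hy'
  · rintro ⟨h, -, hy⟩
    rw [hy, orderOf_conj_eq, hxr]

end Main

end Cfsg.Agent.Lib.Classical.OrthAut.MinusF
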