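import Mathlib
import Cfsg.Agent.Lib.Classical.OrthAut.MinusF
import Cfsg.Agent.Lib.Classical.OrthAut.FldOddCent

/-!
# Field automorphisms of `PΩ⁻`: centraliser and classes
-/

set_option autoImplicit false
set_option linter.unusedSectionVars false
set_option linter.unusedSimpArgs false
set_option linter.unusedVariables false
set_option linter.style.haveILetI false

namespace Cfsg.Agent.Lib.Classical.OrthAut.MinusG

open Matrix QuadraticMap Module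
open Cfsg.Agent.Lib.Classical.Orth.Basic
open Cfsg.Agent.Lib.Classical.Orth.Models
open Cfsg.Agent.Lib.Classical.Orth.Dickson
open Cfsg.Agent.Lib.Classical.Orth.SimAut
open Cfsg.Agent.Lib.Classical.Orth.SimAut2
open Cfsg.Agent.Lib.Classical.Orth.SimAut4
open Cfsg.Agent.Lib.Classical.Orth.SimAutModels
open Cfsg.Agent.Lib.Classical.Orth.Semi
open Cfsg.Agent.Lib.Classical.Orth.Spinor
open Cfsg.Agent.Lib.Classical.Witt.Hyp
open Cfsg.Agent.Lib.Classical.Herm.Descent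
open Cfsg.Agent.Lib.Classical.Herm.GLDescent
open Cfsg.Agent.Lib.Classical.OrthAut.Fld
open Cfsg.Agent.Lib.Classical.OrthAut.FldConj
open Cfsg.Agent.Lib.Classical.OrthAut.FldCent
open Cfsg.Agent.Lib.Classical.OrthAut.FldJO
open Cfsg.Agent.Lib.Classical.OrthAut.FldOddCent
open Cfsg.Agent.Lib.Classical.OrthAut.MinusB
open Cfsg.Agent.Lib.Classical.OrthAut.MinusC
open Cfsg.Agent.Lib.Classical.OrthAut.MinusD
open Cfsg.Agent.Lib.Classical.OrthAut.MinusE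
open Cfsg.Agent.Lib.Classical.OrthAut.MinusF

attribute [local instance] finite_ringAut

universe u v

section Abs

/-- If the group `H` factors as `K` times the centraliser of `x`, the `H`-class of `x` is one `K`-class. -/
theorem split_one_of_factor {X : Type*} [Group X] (H K : Subgroup X) (x : X)
    (h : ∀ g ∈ H, ∃ κ ∈ K, x * (κ⁻¹ * g) = (κ⁻¹ * g) * x) : Cfsg.splitClassCount H K x = 1 := by
  classical
  unfold Cfsg.splitClassCount
  let base : {y : X // Cfsg.IsConjUnder H x y} := ⟨x, 1, H.one_mem, by simp⟩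
  have hall : ∀ y : {y : X // Cfsg.IsConjUnder H x y},
      Quot.mk (fun y z : {y : X // Cfsg.IsConjUnder H x y} => Cfsg.IsConjUnder K y.1 z.1) y = Quot.mk _ base := by
    rintro ⟨y, g, hg, rfl⟩
    obtain ⟨κ, hκ, he⟩ := h g hg
    symm
    apply Quot.sound
    refine ⟨κ, hκ, ?_⟩
    show g * x * g⁻¹ = κ * x * κ⁻¹
    have h1 : g = κ * (κ⁻¹ * g) := by group
    have h2 : (κ⁻¹ * g) * x * (κ⁻¹ * g)⁻¹ = x := by
      rw [← he]
      group
    calc g * x * g⁻¹ = κ * ((κ⁻¹ * g) * x * (κ⁻¹ * g)⁻¹) * κ⁻¹ := by group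
      _ = _ := by rw [h2]
  rw [Nat.card_eq_one_iff_unique]
  refine ⟨⟨fun a b => ?_⟩, ⟨Quot.mk _ base⟩⟩
  induction a using Quot.ind with
  | mk a =>
    induction b using Quot.ind with
    | mk b => rw [hall a, hall b]

theorem factor_transport {X Y : Type*} [Group X] [Group Y] (f : X ≃* Y) {P K : Subgroup X} {P' K' : Subgroup Y}
    (hP : ∀ α, f α ∈ P' ↔ α ∈ P) (hK : ∀ α, f α ∈ K' ↔ α ∈ K) {x : X}
    (h : ∀ g ∈ P', ∃ κ ∈ K', f x * (κ⁻¹ * g) = (κ⁻¹ * g) * f x) :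
    ∀ g ∈ P, ∃ κ ∈ K, x * (κ⁻¹ * g) = (κ⁻¹ * g) * x := by
  intro g hg
  obtain ⟨κ', hκ', he⟩ := h (f g) ((hP g).2 hg)
  obtain ⟨κ, rfl⟩ := f.surjective κ'
  refine ⟨κ, (hK κ).1 hκ', ?_⟩
  apply f.injective
  simpa [map_mul] using he

/-- Transport of a centraliser. -/
theorem cent_transport {X Y : Type*} [Group X] [Group Y] (f : X ≃* Y) {P : Subgroup X} {P' : Subgroup Y}
    (hP : ∀ α, f α ∈ P' ↔ α ∈ P) (x : X) :
    Nonempty (↥(P ⊓ Subgroup.centralizer {x}) ≃* ↥(P' ⊓ Subgroup.centralizer {f x})) := by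
  have h : (P ⊓ Subgroup.centralizer {x}).map f.toMonoidHom = P' ⊓ Subgroup.centralizer {f x} := by
    ext y
    obtain ⟨w, rfl⟩ := f.surjective y
    constructor
    · rintro ⟨z, ⟨hz1, hz2⟩, hz⟩
      have hzw : z = w := f.injective hz
      subst hzw
      refine ⟨(hP z).2 hz1, ?_⟩
      have hz2' : z ∈ Subgroup.centralizer {x} := hz2
      rw [Subgroup.mem_centralizer_iff] at hz2'
      show f z ∈ Subgroup.centralizer ({f x} : Set Y)
      rw [Subgroup.mem_centralizer_iff]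
      intro y hy
      have hy' : y = f x := hy
      rw [hy']
      have h1 := hz2' x rfl
      have h2 := congrArg f h1
      simpa [map_mul] using h2
    · rintro ⟨h1, h2⟩
      refine ⟨w, ⟨(hP w).1 h1, ?_⟩, rfl⟩
      have h2' : f w ∈ Subgroup.centralizer {f x} := h2
      rw [Subgroup.mem_centralizer_iff] at h2'
      show w ∈ Subgroup.centralizer ({x} : Set X)
      rw [Subgroup.mem_centralizer_iff]
      intro y hy
      have hy' : y = x := hy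
      rw [hy']
      have h3 := h2' (f x) rfl
      apply f.injective
      simpa [map_mul] using h3
  exact ⟨(f.subgroupMap _).trans (MulEquiv.subgroupCongr h)⟩

end Abs

section Decomp

variable {ι : Type} [Fintype ι] [DecidableEq ι] {F : Type u} [Field F] [Fintype F] {K : Type v} [Field K] [Fintype K] {j : K →+* F}
variable {Q : QuadraticForm F (ι → F)} {Q₀ : QuadraticForm K (ι → K)} {M : ℕ}

theorem exists_neg_spinor (hQ : (polarBilin Q).Nondegenerate) (hQ₀ : (polarBilin Q₀).Nondegenerate) (h2 : (2 : F) ≠ 0) (h2K : (2 : K) ≠ 0)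
    (hn2 : 2 ≤ Fintype.card ι) (hcompat : ∀ t : ι → K, j (Q₀ t) = Q (fun i => j (t i)))
    {r : ℕ} (hr : Odd r) (hc : Fintype.card F = Fintype.card K ^ r) :
    ∃ t : ↥(Cfsg.isometryGroup K (⇑Q₀)), ((JO hcompat t).1 : Matrix ι ι F).det = 1 ∧ spinorSign Q h2 (JO hcompat t) = -1 := by
  obtain ⟨u, hu⟩ := exists_value Q₀ hQ₀ h2K hn2 1
  obtain ⟨v, hv⟩ := exists_value Q₀ hQ₀ h2K hn2 (nonsq h2K)
  have hu0 : Q₀ u ≠ 0 := by
    rw [hu]
    exact one_ne_zero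
  have hv0 : Q₀ v ≠ 0 := by
    rw [hv]
    exact nonsq_ne_zero h2K
  have hu1 : Q (fun i => j (u i)) ≠ 0 := by
    rw [← hcompat, hu, map_one]
    exact one_ne_zero
  have hv1 : Q (fun i => j (v i)) ≠ 0 := by
    rw [← hcompat, hv]
    simpa using nonsq_ne_zero h2K
  refine ⟨reflectionIso Q₀ u hu0 * reflectionIso Q₀ v hv0, ?_, ?_⟩
  · rw [map_mul, JO_reflection hcompat u hu0 hu1, JO_reflection hcompat v hv0 hv1]
    exact mem_SOs.1 (refl_mem_SOs hu1 hv1)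
  · rw [map_mul, map_mul, JO_reflection hcompat u hu0 hu1, JO_reflection hcompat v hv0 hv1, spinorSign_reflection _ h2,
      spinorSign_reflection _ h2, if_pos (by rw [← hcompat, hu, map_one]; exact IsSquare.one),
      if_neg (by rw [← hcompat, hv]; exact not_isSquare_of_odd j h2 hr hc (nonsq_spec h2K)), one_mul]

/-- In an extension of odd degree, similarities with trivial determinant sign decompose. -/
theorem decomp_of_data (D : Data Q M) (D₀ : Data Q₀ M) (hcompat : ∀ t : ι → K, j (Q₀ t) = Q (fun i => j (t i)))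
    {r : ℕ} (hr : Odd r) (hc : Fintype.card F = Fintype.card K ^ r) (g : SimG Q) (hg : D.sgn2 g = 1) :
    ∃ κ ∈ Nn Q, ∃ u₀ : SimG Q₀, g = κ * JS hcompat u₀ := by
  classical
  have hQ := D.hQ
  have hQ₀ := D₀.hQ
  have h2 := D.h2
  have h2K := D₀.h2
  have hι := D.hι
  have hn2 : 2 ≤ Fintype.card ι := by
    have := D.hn
    omega
  haveI := D.ZG_normal
  -- the non-square multiplier
  set e := JS hcompat D₀.δG with he
  have hmulte : (mult e : F) = j D₀.c := by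
    rw [he, mult_JS hQ hι hcompat, D₀.mult_δG]
  have he1 : D.sgn1 e = -1 := by
    refine (Int.units_eq_one_or _).resolve_left ?_
    rw [D.sgn1_eq_one_iff, hmulte]
    exact not_isSquare_of_odd j h2 hr hc D₀.hc
  have he2 : D.sgn2 e = 1 := by
    rw [D.sgn2_eq_one_iff, D.ratio_eq_one_iff, hmulte, he, det_JS hcompat]
    have : ((D₀.δG.1 : GL ι K) : Matrix ι ι K).det = D₀.c ^ M := D₀.hdet
    rw [this, map_pow]
  -- reduce to a square multiplier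
  obtain ⟨u₁, hu₁⟩ : ∃ u₁ : SimG Q₀, D.sgn1 (g * (JS hcompat u₁)⁻¹) = 1 ∧ D.sgn2 (g * (JS hcompat u₁)⁻¹) = 1 := by
    rcases Int.units_eq_one_or (D.sgn1 g) with h | h
    · refine ⟨1, ?_⟩
      rw [map_one, inv_one, mul_one]
      exact ⟨h, hg⟩
    · refine ⟨D₀.δG, ?_⟩
      rw [← he, map_mul, map_mul, map_inv, map_inv, h, he1, he2, hg]
      simp
  obtain ⟨a, ha, z, hz, hgaz⟩ := Subgroup.mem_sup_of_normal_right.1 ((D.signs_eq_one_iff _).1 hu₁)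
  obtain ⟨ha1, ha2⟩ := ha
  set s : ↥(Cfsg.isometryGroup F (⇑Q)) := ⟨a.1, ha1⟩ with hs
  have has : a = ofO s := rfl
  have hdet : ((s.1 : GL ι F) : Matrix ι ι F).det = 1 := by
    have h3 : (Matrix.GeneralLinearGroup.det a.1) = 1 := ha2
    have h4 := congrArg (fun u : Fˣ => (u : F)) h3
    simpa using h4
  -- correct the spinor norm
  obtain ⟨s₁, hs₁, u₂, hsu⟩ : ∃ s₁ ∈ Cfsg.Omega F (⇑Q), ∃ u₂ : SimG Q₀, a = ofO s₁ * JS hcompat u₂ := by
    rcases Int.units_eq_one_or (spinorSign Q h2 s) with h | h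
    · refine ⟨s, (so_mem_omega' hQ h2 s hdet).2 h, 1, ?_⟩
      rw [map_one, mul_one]
      exact has
    · obtain ⟨t, ht1, ht2⟩ := exists_neg_spinor hQ hQ₀ h2 h2K hn2 hcompat hr hc
      refine ⟨s * (JO hcompat t)⁻¹, ?_, ofO t, ?_⟩
      · rw [so_mem_omega' hQ h2 _ ?_, map_mul, map_inv, h, ht2]
        · rfl
        · have h5 : (((s * (JO hcompat t)⁻¹).1 : GL ι F) : Matrix ι ι F).det * ((JO hcompat t).1 : Matrix ι ι F).det =
              ((s.1 : GL ι F) : Matrix ι ι F).det := by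
            rw [← Matrix.det_mul]
            congr 1
            have : ((s * (JO hcompat t)⁻¹ * JO hcompat t).1 : GL ι F) = s.1 := by
              rw [inv_mul_cancel_right]
            rw [← this]
            rfl
          rw [ht1, mul_one, hdet] at h5
          exact h5
      · rw [JS_ofO, has]
        have e1 : ofO (s * (JO hcompat t)⁻¹) * ofO (JO hcompat t) = ofO (s * (JO hcompat t)⁻¹ * JO hcompat t) := rfl
        rw [e1, inv_mul_cancel_right]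
  refine ⟨ofO s₁ * z, Subgroup.mul_mem_sup ((ofO_mem_ΩG_iff s₁).2 hs₁) hz, u₂ * u₁, ?_⟩
  have h6 : g = a * z * JS hcompat u₁ := by
    rw [hgaz]
    group
  rw [h6, hsu, map_mul, mul_assoc (ofO s₁), ← ZG_comm hz (JS hcompat u₂)]
  group

/-- In characteristic two, the similarities with trivial Dickson sign lie in `Ω Z`. -/
theorem mem_Nn_two [CharP F 2] (hQ : (polarBilin Q).Nondegenerate) (hι : Nonempty ι)
    (hF : (∃ c : F, c ≠ 0 ∧ c ≠ 1) ∨ Fintype.card ι ≠ 4) (g : SimG Q)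
    (hg : dicksonHom hQ hF (normO hQ hι (lamTwo hQ hι) (lamTwo_sq hQ hι) g) = 1) : g ∈ Nn Q := by
  have h1 : ofO (normO hQ hι (lamTwo hQ hι) (lamTwo_sq hQ hι) g) = g * scalG (lamTwo hQ hι g)⁻¹ := ofO_normO hQ hι _ _ g
  have h3 : g = ofO (normO hQ hι (lamTwo hQ hι) (lamTwo_sq hQ hι) g) * scalG (lamTwo hQ hι g) := by
    rw [h1, mul_assoc, ← scalG_mul, inv_mul_cancel, scalG_one, mul_one]
  rw [h3]
  exact Subgroup.mul_mem_sup ((ofO_mem_ΩG_iff _).2 ((mem_omega_iff_char_two hQ hF _).2 hg)) (Cfsg.Agent.Lib.Classical.Orth.Semi.scalG_mem' _)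

theorem simHom_mem_inn {κ : SimG Q} (hQ : (polarBilin Q).Nondegenerate) (hn : 5 ≤ Fintype.card ι) (hκ : κ ∈ Nn Q) :
    simHom (⇑Q) κ ∈ Cfsg.Inn (Cfsg.POmega F (⇑Q)) := by
  have h : Nn Q ≤ (Cfsg.Inn (Cfsg.POmega F (⇑Q))).comap (simHom (⇑Q)) := by
    apply sup_le
    · intro y hy
      rw [Subgroup.mem_comap, inn_eq]
      exact ⟨y, hy, rfl⟩
    · intro y hy
      rw [← ker_simHom hQ hn] at hy
      rw [Subgroup.mem_comap, MonoidHom.mem_ker.1 hy]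
      exact Subgroup.one_mem _
  exact h hκ

/-- A decomposition `c g c⁻¹ = κ J(u)` gives a factorisation of `g`. -/
theorem factor_of_decomp (hQ : (polarBilin Q).Nondegenerate) (hn : 7 ≤ Fintype.card ι)
    {σ : F ≃+* F} {hσ : ∀ v, Q (fun i => σ (v i)) = σ (Q v)} (hfix : ∀ k, σ (j k) = j k)
    (hcompat : ∀ t : ι → K, j (Q₀ t) = Q (fun i => j (t i))) (S : Subgroup (SimG Q))
    (hdec : ∀ g ∈ S, ∃ κ ∈ Nn Q, ∃ u₀ : SimG Q₀, g = κ * JS hcompat u₀)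
    {x : MulAut (Cfsg.POmega F (⇑Q))} {c : SimG Q} (hcS : c ∈ S)
    (hc : simHom (⇑Q) c * x * (simHom (⇑Q) c)⁻¹ = phi₀ σ hσ) :
    ∀ β ∈ S.map (simHom (⇑Q)), ∃ κ' ∈ Cfsg.Inn (Cfsg.POmega F (⇑Q)), x * (κ'⁻¹ * β) = (κ'⁻¹ * β) * x := by
  rintro _ ⟨g, hg, rfl⟩
  obtain ⟨κ, hκ, u₀, hdecomp⟩ := hdec (c * g * c⁻¹) (S.mul_mem (S.mul_mem hcS hg) (S.inv_mem hcS))
  have hn5 : 5 ≤ Fintype.card ι := by omega
  have hκ' := simHom_mem_inn hQ hn5 hκ
  refine ⟨(simHom (⇑Q) c)⁻¹ * simHom (⇑Q) κ * simHom (⇑Q) c, ?_, ?_⟩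
  · have := (Cfsg.innNormal (Cfsg.POmega F (⇑Q))).conj_mem _ hκ' (simHom (⇑Q) c)⁻¹
    rwa [inv_inv] at this
  · have h1 := congrArg (simHom (⇑Q)) hdecomp
    rw [map_mul, map_mul, map_mul, map_inv] at h1
    have h3 := comm_JS hQ hn (σ := σ) (hσ := hσ) hfix hcompat u₀
    rw [← hc] at h3
    generalize simHom (⇑Q) (JS hcompat u₀) = J at h1 h3
    generalize simHom (⇑Q) κ = k at h1 h3
    generalize simHom (⇑Q) g = b at h1 h3
    generalize simHom (⇑Q) c = C at h1 h3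
    have h4 : b = C⁻¹ * (k * J) * C := by
      rw [← h1]
      group
    rw [h4]
    have h5 : x * (C⁻¹ * J * C) = (C⁻¹ * J * C) * x := by
      have h6 : C * (x * (C⁻¹ * J * C)) * C⁻¹ = C * ((C⁻¹ * J * C) * x) * C⁻¹ := by
        calc _ = C * x * C⁻¹ * J := by group
          _ = J * (C * x * C⁻¹) := h3
          _ = _ := by group
      have h7 := mul_left_cancel (mul_right_cancel h6)
      exact h7
    calc _ = x * (C⁻¹ * J * C) := by group
      _ = (C⁻¹ * J * C) * x := h5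
      _ = _ := by group

/-- The centraliser and the factorisation, on the side of a rational form. -/
theorem main_gen (hQ : (polarBilin Q).Nondegenerate) (hn : 7 ≤ Fintype.card ι) (hQ₀ : (polarBilin Q₀).Nondegenerate)
    {σ : F ≃+* F} (hfix : ∀ k, σ (j k) = j k) (hsurj : ∀ y, σ y = y → ∃ k, j k = y)
    (hcompat : ∀ t : ι → K, j (Q₀ t) = Q (fun i => j (t i)))
    (hσ : ∀ v, Q (fun i => σ (v i)) = σ (Q v)) (S : Subgroup (SimG Q)) (S₀ : Subgroup (SimG Q₀))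
    (hflip : ∀ g, g ∉ S → ∀ v (hv : Q v ≠ 0), ofO (reflectionIso Q v hv) * g ∈ S)
    (hmatch : ∀ (T : (ι → F) → (ι → F)) (β : Basis ι F (ι → F)) (a : F) (Q₁ : QuadraticForm K (ι → K)), Desc Q j T β a Q₁ →
      ∃ (g : (ι → K) ≃ₗ[K] (ι → K)) (d : K), d ≠ 0 ∧ ∀ u, Q₀ (g u) = d * Q₁ u)
    (hYs : ∀ α : MulAut (Cfsg.POmega F (⇑Q)), ∃ Y : ↥(Ss (⇑Q)), semiHom (⇑Q) Y = α)
    (hSS₀ : ∀ g, JS hcompat g ∈ S ↔ g ∈ S₀) (hZ : ∀ a : Fˣ, scalG a ∈ S)
    (hdec : ∀ g ∈ S, ∃ κ ∈ Nn Q, ∃ u₀ : SimG Q₀, g = κ * JS hcompat u₀)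
    (hσ1 : σ ≠ RingEquiv.refl F) {x α : MulAut (Cfsg.POmega F (⇑Q))} (hα : α * x * α⁻¹ = phi₀ σ hσ)
    {r : ℕ} (hr : r.Prime) (hxr : orderOf x = r) :
    Nonempty (↥(S.map (simHom (⇑Q)) ⊓ Subgroup.centralizer {x}) ≃* ↥(S₀.map (simHom (⇑Q₀)))) ∧
      ∀ β ∈ S.map (simHom (⇑Q)), ∃ κ' ∈ Cfsg.Inn (Cfsg.POmega F (⇑Q)), x * (κ'⁻¹ * β) = (κ'⁻¹ * β) * x := by
  obtain ⟨X, rfl⟩ := hYs x
  obtain ⟨A, rfl⟩ := hYs α
  have hXσ := right_of_conj hQ hn hσ hα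
  have hσ1' : X.1.right ≠ 1 := by
    rw [hXσ]
    exact hσ1
  have hXr : (semiHom (⇑Q) X) ^ r = 1 := by
    rw [← hxr, pow_orderOf_eq_one]
  have hordσ : orderOf σ = r := by
    rw [← hXσ]
    exact orderOf_right hQ hn hr hXr hσ1'
  obtain ⟨c, hcS, hc'⟩ := conj_std_gen hQ hn hQ₀ hfix hsurj hcompat hσ S hflip
    (fun μ β a Q₁ hD => hmatch _ β a Q₁ hD) hXσ (by rw [hordσ, hXr])
  exact ⟨cent_iso hQ hn hfix hsurj hQ₀ hcompat S S₀ hSS₀ hZ c hcS hc',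
    factor_of_decomp hQ hn hfix hcompat S hdec hcS hc'⟩

/-- The order of the field automorphism. -/
theorem order_gen (hQ : (polarBilin Q).Nondegenerate) (hn : 7 ≤ Fintype.card ι) {σ : F ≃+* F}
    (hσ : ∀ v, Q (fun i => σ (v i)) = σ (Q v))
    (hYs : ∀ α : MulAut (Cfsg.POmega F (⇑Q)), ∃ Y : ↥(Ss (⇑Q)), semiHom (⇑Q) Y = α)
    (hσ1 : σ ≠ RingEquiv.refl F) {x α : MulAut (Cfsg.POmega F (⇑Q))} (hα : α * x * α⁻¹ = phi₀ σ hσ)
    {r : ℕ} (hr : r.Prime) (hxr : orderOf x = r) : orderOf σ = r := by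
  obtain ⟨X, rfl⟩ := hYs x
  obtain ⟨A, rfl⟩ := hYs α
  have hXσ := right_of_conj hQ hn hσ hα
  have hσ1' : X.1.right ≠ 1 := by
    rw [hXσ]
    exact hσ1
  have hXr : (semiHom (⇑Q) X) ^ r = 1 := by
    rw [← hxr, pow_orderOf_eq_one]
  rw [← hXσ]
  exact orderOf_right hQ hn hr hXr hσ1'

end Decomp

section Model

variable {F : Type u} [Field F] [Fintype F] {K : Type v} [Field K] [Fintype K] {j : K →+* F} {m : ℕ} {a₀ b₀ : K}

/-- The decomposition for minus forms. -/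
theorem decomp_minus (hm : 2 ≤ m) (hab₀ : ∀ z₁ z₂ : K, z₁ ^ 2 + a₀ * z₁ * z₂ + b₀ * z₂ ^ 2 = 0 → z₁ = 0 ∧ z₂ = 0)
    (hab : ∀ z₁ z₂ : F, z₁ ^ 2 + j a₀ * z₁ * z₂ + j b₀ * z₂ ^ 2 = 0 → z₁ = 0 ∧ z₂ = 0) {r : ℕ} (hr : Odd r)
    (hc : Fintype.card F = Fintype.card K ^ r) :
    ∀ g ∈ presS hm (j a₀) (j b₀) hab, ∃ κ ∈ Nn (minusForm m F (j a₀) (j b₀)), ∃ u₀ : SimG (minusForm m K a₀ b₀),
      g = κ * JS (minus_compat j m a₀ b₀) u₀ := by
  intro g hg
  rw [mem_presS] at hg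
  by_cases h2 : (2 : F) = 0
  · haveI : CharP F 2 := charP_two_of h2
    rw [minus_pres_iff_two hm _ _ hab] at hg
    refine ⟨g, mem_Nn_two _ _ _ g hg, 1, ?_⟩
    rw [map_one, mul_one]
  · have h2K : (2 : K) ≠ 0 := by
      intro h0
      apply h2
      have h3 : j 2 = 0 := by rw [h0, map_zero]
      rwa [map_ofNat] at h3
    obtain ⟨D⟩ := minusData_exists h2 hm _ _ hab
    obtain ⟨D₀⟩ := minusData_exists h2K hm _ _ hab₀
    rw [minus_pres_iff h2 m _ _ hab, ← D.ratio_eq_one_iff, ← D.sgn2_eq_one_iff] at hg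
    exact decomp_of_data D D₀ _ hr hc g hg

/-- **Centraliser and classes.** -/
theorem main_rat (hm : 3 ≤ m) {a b : F} (hab : ∀ z₁ z₂ : F, z₁ ^ 2 + a * z₁ * z₂ + b * z₂ ^ 2 = 0 → z₁ = 0 ∧ z₂ = 0)
    (hab₀ : ∀ z₁ z₂ : K, z₁ ^ 2 + a₀ * z₁ * z₂ + b₀ * z₂ ^ 2 = 0 → z₁ = 0 ∧ z₂ = 0)
    (hab' : ∀ z₁ z₂ : F, z₁ ^ 2 + j a₀ * z₁ * z₂ + j b₀ * z₂ ^ 2 = 0 → z₁ = 0 ∧ z₂ = 0)
    {σ : F ≃+* F} (hfix : ∀ k, σ (j k) = j k) (hsurj : ∀ y, σ y = y → ∃ k, j k = y)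
    (hσ : ∀ v, minusForm m F (j a₀) (j b₀) (fun i => σ (v i)) = σ (minusForm m F (j a₀) (j b₀) v))
    (hσ1 : σ ≠ RingEquiv.refl F) (x : MulAut (Cfsg.POmega F (⇑(minusForm m F a b))))
    (ψ : Cfsg.POmega F (⇑(minusForm m F a b)) ≃* Cfsg.POmega F (⇑(minusForm m F (j a₀) (j b₀))))
    (hφ : Cfsg.IsFieldAutPOmegaOf (⇑(minusForm m F (j a₀) (j b₀))) σ ((ψ.symm.trans x).trans ψ))
    {r : ℕ} (hr : r.Prime) (hodd : Odd r) (hc : Fintype.card F = Fintype.card K ^ r) (hxr : orderOf x = r) :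
    Nonempty (↥(inndiagOf m a b (⇑(minusForm m F a b)) ⊓ Subgroup.centralizer {x}) ≃* ↥(inndiagOf m a₀ b₀ (⇑(minusForm m K a₀ b₀)))) ∧
      Cfsg.splitClassCount (inndiagOf m a b (⇑(minusForm m F a b))) (Cfsg.Inn (Cfsg.POmega F (⇑(minusForm m F a b)))) x = 1 := by
  have hm2 : 2 ≤ m := by omega
  obtain ⟨g, hg⟩ := exists_gl_isometry (m := m) hab hab'
  have hα := conj_pull (pIso g hg) ψ x
  have hφ' := eq_phi₀ hσ hφ
  rw [hφ'] at hα
  have hP := fun α => autCongr_mem_inndiag hm2 hab hab' g hg (α := α)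
  have hxr' : orderOf (autCongr (pIso g hg) x) = r := by
    rw [← hxr]
    exact MulEquiv.orderOf_eq _ _
  obtain ⟨e₂, hf⟩ := main_gen (minusForm_nondegenerate m _ _ hab') (hn_minus hm) (minusForm_nondegenerate m _ _ hab₀) hfix hsurj
    (minus_compat j m a₀ b₀) hσ (presS hm2 (j a₀) (j b₀) hab') (presS hm2 a₀ b₀ hab₀)
    (fun g hg v hv => mul_reflection_mem hm2 (j a₀) (j b₀) hab' hg v hv)
    (fun T β a Q₁ hD => by
      obtain ⟨g, hg⟩ := exists_match_minus hab' hab₀ hD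
      exact ⟨g, 1, one_ne_zero, hg⟩) (exists_Y hm hab') (JS_mem_presS j hm2 hab₀ hab') (scalG_mem_presS hm2 _ _ hab')
    (decomp_minus hm2 hab₀ hab' hodd hc) hσ1 hα hr hxr'
  constructor
  · obtain ⟨e₁⟩ := cent_transport (autCongr (pIso g hg)) hP x
    rw [inndiag_eq hm2 _ _ hab'] at e₁
    rw [inndiag_eq hm2 _ _ hab₀]
    obtain ⟨e₂⟩ := e₂
    exact ⟨e₁.trans e₂⟩
  · apply split_one_of_factor
    exact factor_transport (autCongr (pIso g hg)) hP (fun α => autCongr_mem_inn (pIso g hg))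
      (fun β hβ => hf β ((inndiag_eq hm2 _ _ hab').le hβ))

/-- The order of the field automorphism attached to a field automorphism of `PΩ⁻`. -/
theorem order_minus (hm : 3 ≤ m) {a b a' b' : F} (hab : ∀ z₁ z₂ : F, z₁ ^ 2 + a * z₁ * z₂ + b * z₂ ^ 2 = 0 → z₁ = 0 ∧ z₂ = 0)
    (hab' : ∀ z₁ z₂ : F, z₁ ^ 2 + a' * z₁ * z₂ + b' * z₂ ^ 2 = 0 → z₁ = 0 ∧ z₂ = 0) {σ : F ≃+* F} (hσ1 : σ ≠ RingEquiv.refl F)
    (hσa : σ a' = a') (hσb : σ b' = b') (x : MulAut (Cfsg.POmega F (⇑(minusForm m F a b))))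
    (ψ : Cfsg.POmega F (⇑(minusForm m F a b)) ≃* Cfsg.POmega F (⇑(minusForm m F a' b')))
    (hφ : Cfsg.IsFieldAutPOmegaOf (⇑(minusForm m F a' b')) σ ((ψ.symm.trans x).trans ψ))
    {r : ℕ} (hr : r.Prime) (hxr : orderOf x = r) : orderOf σ = r := by
  have hσ := minus_inv (m := m) hσa hσb
  obtain ⟨g, hg⟩ := exists_gl_isometry (m := m) hab hab'
  have hα := conj_pull (pIso g hg) ψ x
  have hφ' := eq_phi₀ hσ hφ
  rw [hφ'] at hα
  have hxr' : orderOf (autCongr (pIso g hg) x) = r := by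
    rw [← hxr]
    exact MulEquiv.orderOf_eq _ _
  exact order_gen (minusForm_nondegenerate m _ _ hab') (hn_minus hm) hσ (exists_Y hm hab') hσ1 hα hr hxr'

end Model

end Cfsg.Agent.Lib.Classical.OrthAut.MinusG
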