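import Mathlib
import Cfsg.Agent.Lib.Classical.OrthAut.BalA
import Cfsg.Agent.Lib.Classical.OrthAut.BalB
import Cfsg.Agent.Lib.Classical.OrthAut.MinusG
import Cfsg.Agent.Lib.Classical.OrthAut.FldBal3

/-!
# The block lemma for singular lines
-/

set_option autoImplicit false
set_option linter.unusedSectionVars false
set_option linter.unusedVariables false
set_option linter.unusedSimpArgs false
set_option linter.style.haveILetI false

namespace Cfsg.Agent.Lib.Classical.OrthAut.BalC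

open Matrix QuadraticMap Module
open Cfsg.Agent.Lib.Classical.Orth.Basic
open Cfsg.Agent.Lib.Classical.Orth.SimAut
open Cfsg.Agent.Lib.Classical.Orth.SimAut2
open Cfsg.Agent.Lib.Classical.Orth.Semi
open Cfsg.Agent.Lib.Classical.Orth.Spinor
open Cfsg.Agent.Lib.Classical.Witt.Hyp
open Cfsg.Agent.Lib.Classical.OrthAut.FldBal
open Cfsg.Agent.Lib.Classical.OrthAut.BalA
open Cfsg.Agent.Lib.Classical.OrthAut.BalB

variable {ι : Type} [Fintype ι] [DecidableEq ι] {F : Type*} [Field F]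
variable {Q : QuadraticForm F (ι → F)}

/-- A matrix from a linear equivalence. -/
noncomputable def glOf (e : (ι → F) ≃ₗ[F] (ι → F)) : GL ι F where
  val := LinearMap.toMatrix' e.toLinearMap
  inv := LinearMap.toMatrix' e.symm.toLinearMap
  val_inv := by
    rw [← LinearMap.toMatrix'_comp]
    simp
  inv_val := by
    rw [← LinearMap.toMatrix'_comp]
    simp

@[simp] theorem glOf_mulVec (e : (ι → F) ≃ₗ[F] (ι → F)) (v : ι → F) : ((glOf e : GL ι F) : Matrix ι ι F) *ᵥ v = e v :=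
  LinearMap.toMatrix'_mulVec _ _

section Tower

variable {K : Type*} [Field K] [Algebra F K] [Module K (ι → F)] [IsScalarTower F K (ι → F)]
variable {Qk : QuadraticForm K (ι → F)} {ℓ : K → F}

/-- The Eichler map as an isometry of the form over the small field. -/
noncomputable def siegO (hℓ : ∀ v, Q v = ℓ (Qk v)) {a c : ι → F} (ha : Qk a = 0) (hc : polar Qk a c = 0) :
    ↥(Cfsg.isometryGroup F (⇑Q)) :=
  ⟨glOf ((siegE ha hc).restrictScalars F), (mem_isometryGroup_iff Q _).2 (fun x => by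
    rw [glOf_mulVec, hℓ, hℓ x]
    congr 1
    exact Q_sieg ha hc x)⟩

theorem act_siegO (hℓ : ∀ v, Q v = ℓ (Qk v)) {a c : ι → F} (ha : Qk a = 0) (hc : polar Qk a c = 0) (v : ι → F) :
    act (siegO hℓ ha hc) v = siegFun Qk a c v :=
  glOf_mulVec _ _

theorem siegO_mul (hℓ : ∀ v, Q v = ℓ (Qk v)) {a c c' : ι → F} (ha : Qk a = 0) (hc : polar Qk a c = 0) (hc' : polar Qk a c' = 0)
    (hcc : polar Qk a (c + c') = 0) : siegO hℓ ha hc * siegO hℓ ha hc' = siegO hℓ ha hcc := by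
  apply ext_act
  intro v
  rw [act_mul, act_siegO, act_siegO, act_siegO, sieg_comp ha hc hc']

/-- Eichler maps lie in `Ω`. -/
theorem siegO_mem_omega [Fintype F] (hQ : (polarBilin Q).Nondegenerate) (h2 : (2 : F) ≠ 0) (h2K : (2 : K) ≠ 0) (hℓ : ∀ v, Q v = ℓ (Qk v))
    {a c : ι → F} (ha : Qk a = 0) (hc : polar Qk a c = 0) : siegO hℓ ha hc ∈ Cfsg.Omega F (⇑Q) := by
  have h1 : polar Qk a ((2 : K)⁻¹ • c) = 0 := by
    rw [polar_smul_right, hc, smul_zero]
  have h3 : (2 : K)⁻¹ • c + (2 : K)⁻¹ • c = c := by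
    rw [← add_smul, ← two_mul, mul_inv_cancel₀ h2K, one_smul]
  have h4 := sq_mem_omega_odd hQ h2 (siegO hℓ ha h1)
  rw [siegO_mul hℓ ha h1 h1 (by rw [h3]; exact hc)] at h4
  convert h4 using 2
  exact h3.symm

/-- The action of semisimilarities on sets of vectors. -/
@[instance_reducible] def actSet (Q : (ι → F) → F) : MulAction ↥(Ss Q) (Set (ι → F)) where
  smul Y S := sm Y.1 '' S
  one_smul S := by
    change sm (1 : GS ι F) '' S = S
    ext v
    simp [sm_one]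
  mul_smul X Y S := by
    change sm (X.1 * Y.1) '' S = sm X.1 '' (sm Y.1 '' S)
    ext v
    simp [sm_mul]

theorem sm_ofSim_ofO (E : ↥(Cfsg.isometryGroup F (⇑Q))) (v : ι → F) : sm (ofSim (⇑Q) (ofO E)).1 v = act E v := by
  show ((SemidirectProduct.inl E.1 : GS ι F).left : Matrix ι ι F) *ᵥ (fun i => (SemidirectProduct.inl E.1 : GS ι F).right (v i)) = _
  simp

/-- Perpendicularity of sets. -/
def Perp (Qk : QuadraticForm K (ι → F)) (S R : Set (ι → F)) : Prop := ∀ x ∈ S, ∀ y ∈ R, polar Qk x y = 0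

omit [Algebra F K] [IsScalarTower F K (ι → F)] in
theorem perp_line {a b : ι → F} : Perp Qk (line K a) (line K b) ↔ polar Qk a b = 0 := by
  constructor
  · intro h
    exact h a (self_mem_line a) b (self_mem_line b)
  · rintro h _ ⟨k, rfl⟩ _ ⟨k', rfl⟩
    simp only [polar_smul_left, polar_smul_right, h, smul_zero]

theorem image_scalar {e : K} (he : e ≠ 0) (a : ι → F) : (fun v => e • v) '' line K a = line K a := by
  ext v
  constructor
  · rintro ⟨_, ⟨k, rfl⟩, rfl⟩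
    exact ⟨e * k, by
      change (e * k) • a = e • k • a
      rw [smul_smul]⟩
  · rintro ⟨k, rfl⟩
    refine ⟨(e⁻¹ * k) • a, ⟨e⁻¹ * k, rfl⟩, ?_⟩
    change e • (e⁻¹ * k) • a = k • a
    rw [smul_smul, mul_inv_cancel_left₀ he]

variable [Fintype F] [Finite K]

/-- **Elements of an odd-order normal subgroup fix the singular lines.** -/
theorem fix_lines (hQ : (polarBilin Q).Nondegenerate) (hn : 7 ≤ Fintype.card ι) (h2 : (2 : F) ≠ 0) (h2K : (2 : K) ≠ 0) (hℓ : ∀ v, Q v = ℓ (Qk v))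
    (W : Submodule K (ι → F)) (hWnd : PolarNondeg (Qk.comp W.subtype)) (hWodd : Odd (finrank K W))
    (C L : Subgroup (MulAut (Cfsg.POmega F (⇑Q)))) (hLn : ∀ c ∈ C, ∀ y ∈ L, c * y * c⁻¹ ∈ L) (hLodd : Odd (Nat.card L))
    (hU : ∀ (a c : ι → F) (ha : Qk a = 0) (hc : polar Qk a c = 0), a ∈ W → c ∈ W → simHom (⇑Q) (ofO (siegO hℓ ha hc)) ∈ C)
    (hY : ∀ Y : ↥(Ss (⇑Q)), semiHom (⇑Q) Y ∈ L → ∀ a ∈ W, a ≠ 0 → Qk a = 0 →
      sm Y.1 a ∈ W ∧ Qk (sm Y.1 a) = 0 ∧ sm Y.1 '' line K a = line K (sm Y.1 a))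
    (Y : ↥(Ss (⇑Q))) (hYL : semiHom (⇑Q) Y ∈ L) {a : ι → F} (haW : a ∈ W) (ha0 : a ≠ 0) (ha : Qk a = 0) :
    ∃ k : K, sm Y.1 a = k • a := by
  classical
  letI := actSet (⇑Q)
  have hsmul : ∀ (Y : ↥(Ss (⇑Q))) (S : Set (ι → F)), Y • S = sm Y.1 '' S := fun _ _ => rfl
  have hcoe : ∀ {x : W}, ((x : ι → F) = 0) ↔ x = 0 := fun {x} => Submodule.coe_eq_zero
  set X : Set (Set (ι → F)) := {S | ∃ a ∈ W, a ≠ 0 ∧ Qk a = 0 ∧ S = line K a} with hX
  have hQW : ∀ x : W, (Qk.comp W.subtype) x = Qk x.1 := fun _ => rfl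
  have hpW : ∀ x y : W, polar (Qk.comp W.subtype) x y = polar Qk x.1 y.1 := fun _ _ => rfl
  -- the Eichler elements
  set U : Set ↥(Ss (⇑Q)) := {u | ∃ (a c : ι → F) (ha : Qk a = 0) (hc : polar Qk a c = 0), a ∈ W ∧ c ∈ W ∧ u = ofSim (⇑Q) (ofO (siegO hℓ ha hc))} with hUdef
  have hUact : ∀ (a c : ι → F) (ha : Qk a = 0) (hc : polar Qk a c = 0) (b : ι → F),
      (ofSim (⇑Q) (ofO (siegO hℓ ha hc)) : ↥(Ss (⇑Q))) • line K b = line K (siegFun Qk a c b) := by
    intro a c ha hc b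
    rw [hsmul]
    have h1 : sm (ofSim (⇑Q) (ofO (siegO hℓ ha hc))).1 = siegL Qk a c := by
      funext v
      rw [sm_ofSim_ofO, act_siegO]
      rfl
    rw [h1]
    exact image_line _ _
  have hsieg_mem : ∀ {a c b : ι → F}, a ∈ W → c ∈ W → b ∈ W → siegFun Qk a c b ∈ W := by
    intro a c b ha hc hb
    exact W.sub_mem (W.sub_mem (W.add_mem hb (W.smul_mem _ hc)) (W.smul_mem _ ha)) (W.smul_mem _ ha)
  have hsieg_ne : ∀ {a c b : ι → F} (ha : Qk a = 0) (hc : polar Qk a c = 0), b ≠ 0 → siegFun Qk a c b ≠ 0 := by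
    intro a c b ha hc hb h
    apply hb
    exact (siegE ha hc).map_eq_zero_iff.1 h
  haveI hfin : Finite X := Subtype.finite
  have hmain := block_trivial (S := Set (ι → F)) (G := ↥(Ss (⇑Q))) X (L.comap (semiHom (⇑Q))) ?_ (Perp Qk) ?_ U ?_ ?_ ?_ ?_ ?_ ?_ ?_
  · have h1 := hmain Y hYL (line K a) ⟨a, haW, ha0, ha, rfl⟩
    rw [hsmul, (hY Y hYL a haW ha0 ha).2.2] at h1
    have h3 : sm Y.1 a ∈ line K a := by
      rw [← h1]
      exact self_mem_line _
    obtain ⟨k, hk⟩ := h3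
    exact ⟨k, hk.symm⟩
  · -- `L` preserves the lines
    rintro l hl _ ⟨a, haW, ha0, ha, rfl⟩
    obtain ⟨h1, h3, h4⟩ := hY l hl a haW ha0 ha
    refine ⟨sm l.1 a, h1, ?_, h3, h4⟩
    intro h
    apply ha0
    rw [← sm_inv_sm l.1 a, h, sm_zero]
  · -- symmetry
    intro P R h x hx y hy
    rw [polar_comm]
    exact h y hy x hx
  · -- `U` preserves the lines
    rintro u ⟨a', c', ha', hc', ha'W, hc'W, rfl⟩ _ ⟨a, haW, ha0, ha, rfl⟩
    rw [hUact]
    exact ⟨_, hsieg_mem ha'W hc'W haW, hsieg_ne ha' hc' ha0, by rw [Q_sieg ha' hc', ha], rfl⟩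
  · -- `U` normalises `L`
    rintro u ⟨a', c', ha', hc', ha'W, hc'W, rfl⟩ l hl
    rw [Subgroup.mem_comap, map_mul, map_mul, map_inv]
    apply hLn _ _ _ hl
    rw [semiHom_ofSim]
    exact hU _ _ _ _ ha'W hc'W
  · -- orbits have odd length
    intro P hP
    apply odd_orbit (L.comap (semiHom (⇑Q))) P ((semiHom (⇑Q)).comp (L.comap (semiHom (⇑Q))).subtype)
    · rintro ⟨z, hzL⟩ hz
      obtain ⟨a, haW, ha0, ha, rfl⟩ := hP
      have hz' : z ∈ (semiHom (⇑Q)).ker := hz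
      rw [ker_semiHom hQ hn] at hz'
      obtain ⟨g, hg, rfl⟩ := hz'
      obtain ⟨t, ht⟩ := (mem_ZG g).1 hg
      change sm (ofSim (⇑Q) g).1 '' line K a = line K a
      have h1 : sm (ofSim (⇑Q) g).1 = fun v => (algebraMap F K (t : F)) • v := by
        funext v
        have h3 : sm (ofSim (⇑Q) g).1 v = (g.1 : Matrix ι ι F) *ᵥ v := by
          show ((SemidirectProduct.inl g.1 : GS ι F).left : Matrix ι ι F) *ᵥ (fun i => (SemidirectProduct.inl g.1 : GS ι F).right (v i)) = _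
          simp
        rw [h3, ht, Matrix.smul_mulVec, Matrix.one_mulVec, algebraMap_smul]
      rw [h1]
      apply image_scalar
      rw [Ne, map_eq_zero]
      exact t.ne_zero
    · have h1 : ((semiHom (⇑Q)).comp (L.comap (semiHom (⇑Q))).subtype).range ≤ L := by
        rintro _ ⟨z, rfl⟩
        exact z.2
      exact Odd.of_dvd_nat hLodd (Subgroup.card_dvd_of_le h1)
  · -- transitivity on points not perpendicular to a given one
    rintro _ ⟨a, haW, ha0, ha, rfl⟩ _ ⟨b, hbW, hb0, hb, rfl⟩ _ ⟨b', hb'W, hb'0, hb', rfl⟩ hab hab'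
    rw [perp_line] at hab hab'
    set b₁ := (polar Qk a b)⁻¹ • b with hb₁
    set b₁' := (polar Qk a b')⁻¹ • b' with hb₁'
    have h1 : polar Qk a b₁ = 1 := by
      rw [hb₁, polar_smul_right, smul_eq_mul, inv_mul_cancel₀ hab]
    have h3 : polar Qk a b₁' = 1 := by
      rw [hb₁', polar_smul_right, smul_eq_mul, inv_mul_cancel₀ hab']
    have h4 : Qk b₁ = 0 := by rw [hb₁, Qk.map_smul, hb, smul_zero]
    have h5 : Qk b₁' = 0 := by rw [hb₁', Qk.map_smul, hb', smul_zero]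
    have h6 : polar Qk a (b₁' - b₁) = 0 := by rw [polar_sub_right, h1, h3, sub_self]
    refine ⟨_, ⟨a, b₁' - b₁, ha, h6, haW, W.sub_mem (W.smul_mem _ hb'W) (W.smul_mem _ hbW), rfl⟩, ?_, ?_⟩
    · rw [hUact, sieg_self ha h6]
    · have h7 : line K b = line K b₁ := (line_smul (inv_ne_zero hab)).symm
      have h8 : line K b' = line K b₁' := (line_smul (inv_ne_zero hab')).symm
      rw [h7, h8, hUact, sieg_move ha h4 h5 h1 h3]
  · -- the perpendicular case
    rintro _ ⟨a, haW, ha0, ha, rfl⟩ _ ⟨b, hbW, hb0, hb, rfl⟩ hne hab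
    rw [perp_line] at hab
    have hind : (⟨b, hbW⟩ : W) ∉ Submodule.span K {(⟨a, haW⟩ : W)} := by
      intro h
      apply hne
      obtain ⟨k, hk⟩ := Submodule.mem_span_singleton.1 h
      have hk' : k • a = b := congrArg Subtype.val hk
      exact line_eq_of_mem hb0 ⟨k, hk'⟩
    have ha0' : (⟨a, haW⟩ : W) ≠ 0 := fun h => ha0 (hcoe.2 h)
    have hab' : polar (Qk.comp W.subtype) (⟨a, haW⟩ : W) (⟨b, hbW⟩ : W) = 0 := hab
    have hb' : (Qk.comp W.subtype) (⟨b, hbW⟩ : W) = 0 := hb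
    have ha'' : (Qk.comp W.subtype) (⟨a, haW⟩ : W) = 0 := ha
    obtain ⟨a', ha'1, ha'2, ha'3⟩ := exists_perp_singular_partner hWnd ha0' hb' hab' hind
    have h4 := four_le_of_ts hWnd ha0' ha'' hb' hab' hind
    have h5 : 5 ≤ finrank K W := by
      obtain ⟨t, ht⟩ := hWodd
      omega
    obtain ⟨c', hc'1, hc'2, hc'3⟩ := exists_nonsingular_perp hWnd h5 (⟨a, haW⟩ : W) a'
    have e1 : polar Qk a'.1 c'.1 = 0 := hc'2
    have e2 : Qk a'.1 = 0 := ha'1
    have e3 : polar Qk a a'.1 = 0 := ha'2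
    have e4 : polar Qk a c'.1 = 0 := hc'1
    have e5 : polar Qk b a'.1 = 1 := ha'3
    refine ⟨_, ⟨a'.1, c'.1, e2, e1, a'.2, c'.2, rfl⟩, ?_, ?_⟩
    · rw [hUact]
      have h6 : siegFun Qk a'.1 c'.1 a = a := by
        simp [siegFun, e3, e4]
      rw [h6]
    · rw [hUact, perp_line, polar_sieg_self e2 e1 hb e5]
      exact neg_ne_zero.2 hc'3
  · -- a common partner
    rintro _ ⟨a, haW, ha0, ha, rfl⟩ _ ⟨b, hbW, hb0, hb, rfl⟩ hab
    rw [perp_line] at hab
    obtain ⟨z, hz1, hz2, hz3, hz4⟩ := exists_common_partner hWnd (a := (⟨a, haW⟩ : W)) (r := (⟨b, hbW⟩ : W))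
      (fun h => ha0 (hcoe.2 h)) (fun h => hb0 (hcoe.2 h)) ha hab
    refine ⟨_, ⟨z.1, z.2, fun h => hz2 (hcoe.1 h), hz1, rfl⟩, ?_, ?_⟩
    · rw [perp_line]
      exact hz3
    · rw [perp_line]
      exact hz4
  · -- parity
    haveI : FiniteDimensional K W := by
      haveI : Finite W := inferInstance
      exact Module.Finite.of_finite
    have h1 := even_lines (Qk.comp W.subtype) h2K hWnd
    have h3 : X = (fun S : Set W => Subtype.val '' S) '' SingLines (Qk.comp W.subtype) := by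
      ext S
      constructor
      · rintro ⟨a, haW, ha0, ha, rfl⟩
        refine ⟨line K (⟨a, haW⟩ : W), ⟨⟨a, haW⟩, fun h => ha0 (hcoe.2 h), ha, rfl⟩, ?_⟩
        exact image_line W.subtype ⟨a, haW⟩
      · rintro ⟨_, ⟨a, ha0, ha, rfl⟩, rfl⟩
        refine ⟨a.1, a.2, fun h => ha0 (hcoe.1 h), ha, ?_⟩
        exact image_line W.subtype a
    rw [h3, Nat.card_image_of_injective (Set.image_injective.2 Subtype.val_injective)]
    exact h1

end Tower

end Cfsg.Agent.Lib.Classical.OrthAut.BalC
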