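import Mathlib
import Cfsg.Agent.Lib.Classical.OrthAut.BalC

/-!
# Graph involutions induced by isometric involutions
-/

set_option autoImplicit false
set_option linter.unusedSectionVars false
set_option linter.unusedVariables false
set_option linter.unusedSimpArgs false
set_option linter.style.haveILetI false

namespace Cfsg.Agent.Lib.Classical.OrthAut.BalD

open Matrix QuadraticMap Module
open Cfsg.Agent.Lib.Classical.Orth.Basic
open Cfsg.Agent.Lib.Classical.Orth.SimAut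
open Cfsg.Agent.Lib.Classical.Orth.SimAut2
open Cfsg.Agent.Lib.Classical.Orth.Semi
open Cfsg.Agent.Lib.Classical.Orth.Spinor
open Cfsg.Agent.Lib.Classical.Witt.Hyp
open Cfsg.Agent.Lib.Classical.OrthAut.FldBal
open Cfsg.Agent.Lib.Classical.OrthAut.BalA
open Cfsg.Agent.Lib.Classical.OrthAut.BalB
open Cfsg.Agent.Lib.Classical.OrthAut.BalC

variable {ι : Type} [Fintype ι] [DecidableEq ι] {F : Type*} [Field F] [Fintype F]
variable {Q : QuadraticForm F (ι → F)}

theorem sm_ofSim (g : SimG Q) (v : ι → F) : sm (ofSim (⇑Q) g).1 v = (g.1 : Matrix ι ι F) *ᵥ v := by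
  show ((SemidirectProduct.inl g.1 : GS ι F).left : Matrix ι ι F) *ᵥ (fun i => (SemidirectProduct.inl g.1 : GS ι F).right (v i)) = _
  simp

/-- Commuting with a similarity in the automorphism group, at the level of vectors. -/
theorem exists_lambda (hQ : (polarBilin Q).Nondegenerate) (hn : 7 ≤ Fintype.card ι) (Y : ↥(Ss (⇑Q))) (g : SimG Q)
    (h : semiHom (⇑Q) Y * simHom (⇑Q) g = simHom (⇑Q) g * semiHom (⇑Q) Y) :
    ∃ t : Fˣ, ∀ v, sm Y.1 ((g.1 : Matrix ι ι F) *ᵥ v) = (t : F) • ((g.1 : Matrix ι ι F) *ᵥ sm Y.1 v) := by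
  set G := ofSim (⇑Q) g with hG
  have h1 : semiHom (⇑Q) (Y * G * Y⁻¹ * G⁻¹) = 1 := by
    rw [map_mul, map_mul, map_mul, map_inv, map_inv, hG, semiHom_ofSim, h]
    group
  have h3 : Y * G * Y⁻¹ * G⁻¹ ∈ (semiHom (⇑Q)).ker := h1
  rw [ker_semiHom hQ hn] at h3
  obtain ⟨z, hz, hZ⟩ := h3
  obtain ⟨t, ht⟩ := (mem_ZG z).1 hz
  refine ⟨t, fun v => ?_⟩
  have h4 : Y * G = ofSim (⇑Q) z * (G * Y) := by
    rw [hZ]
    group
  have h5 := congrArg (fun W : ↥(Ss (⇑Q)) => sm W.1 v) h4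
  simp only [Subgroup.coe_mul, sm_mul] at h5
  rw [hG, sm_ofSim, sm_ofSim, ht, Matrix.smul_mulVec, Matrix.one_mulVec] at h5
  exact h5

/-- An Eichler element commuting with `g` lies in the centraliser. -/
theorem simHom_mem_C {C : Subgroup (MulAut (Cfsg.POmega F (⇑Q)))} {g : SimG Q}
    (hCinn : ∀ α ∈ Cfsg.Inn (Cfsg.POmega F (⇑Q)), α * simHom (⇑Q) g = simHom (⇑Q) g * α → α ∈ C)
    (E : ↥(Cfsg.isometryGroup F (⇑Q))) (hE : E ∈ Cfsg.Omega F (⇑Q))
    (hcomm : ∀ v, act E ((g.1 : Matrix ι ι F) *ᵥ v) = (g.1 : Matrix ι ι F) *ᵥ (act E v)) :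
    simHom (⇑Q) (ofO E) ∈ C := by
  apply hCinn
  · rw [inn_eq]
    exact ⟨ofO E, (ofO_mem_ΩG_iff E).2 hE, rfl⟩
  · rw [← map_mul, ← map_mul]
    congr 1
    apply Subtype.ext
    apply Units.ext
    apply Matrix.ext_of_mulVec_single
    intro j
    show (((E.1 : GL ι F) : Matrix ι ι F) * (g.1 : Matrix ι ι F)) *ᵥ _ = ((g.1 : Matrix ι ι F) * ((E.1 : GL ι F) : Matrix ι ι F)) *ᵥ _
    rw [← Matrix.mulVec_mulVec, ← Matrix.mulVec_mulVec]
    exact hcomm _

/-- A semisimilarity acting as a scalar acts trivially. -/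
theorem semiHom_one_of_sm (hQ : (polarBilin Q).Nondegenerate) (hn : 7 ≤ Fintype.card ι) {Y : ↥(Ss (⇑Q))} (hr : Y.1.right = 1) {l : F} (hl : l ≠ 0)
    (hs : ∀ v, sm Y.1 v = l • v) : semiHom (⇑Q) Y = 1 := by
  apply semiHom_eq_one_of_scalar hQ (by omega) hr hl
  apply Matrix.ext_of_mulVec_single
  intro j
  have h5 := hs (Pi.single j 1 : ι → F)
  rw [sm_def, hr] at h5
  rw [show (fun i => (1 : F ≃+* F) ((Pi.single j 1 : ι → F) i)) = (Pi.single j 1 : ι → F) from rfl] at h5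
  rw [h5, Matrix.smul_mulVec, Matrix.one_mulVec]

/-- A semisimilarity acting as a multiple of a similarity acts as this similarity. -/
theorem semiHom_eq_of_sm (hQ : (polarBilin Q).Nondegenerate) (hn : 7 ≤ Fintype.card ι) {Y : ↥(Ss (⇑Q))} (hr : Y.1.right = 1) {l : F} (hl : l ≠ 0)
    (g : SimG Q) (hs : ∀ v, sm Y.1 v = l • ((g.1 : Matrix ι ι F) *ᵥ v)) : semiHom (⇑Q) Y = simHom (⇑Q) g := by
  have hGr : ((ofSim (⇑Q) g)⁻¹ : ↥(Ss (⇑Q))).1.right = 1 := by
    show ((SemidirectProduct.inl g.1 : GS ι F)⁻¹).right = 1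
    simp
  have hxr : (Y * (ofSim (⇑Q) g)⁻¹ : ↥(Ss (⇑Q))).1.right = 1 := by
    show Y.1.right * ((ofSim (⇑Q) g)⁻¹ : ↥(Ss (⇑Q))).1.right = 1
    rw [hGr, hr, mul_one]
  have h1 : semiHom (⇑Q) (Y * (ofSim (⇑Q) g)⁻¹) = 1 := by
    apply semiHom_one_of_sm hQ hn hxr hl
    intro v
    show sm (Y.1 * ((ofSim (⇑Q) g)⁻¹ : ↥(Ss (⇑Q))).1) v = _
    rw [sm_mul, hs, ← sm_ofSim]
    congr 1
    exact sm_sm_inv _ _
  rw [map_mul, map_inv, semiHom_ofSim] at h1
  exact mul_inv_eq_one.1 h1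

/-- An element of odd order which squares to one is trivial. -/
theorem eq_one_of_sq {G : Type*} [Group G] {L : Subgroup G} (hLodd : Odd (Nat.card L)) {y : G} (hy : y ∈ L) (h : y * y = 1) : y = 1 := by
  have h1 : orderOf y ∣ Nat.card L := by
    rw [← Subgroup.orderOf_mk _ hy]
    exact orderOf_dvd_natCard _
  have h3 : orderOf y ∣ 2 := by
    apply orderOf_dvd_of_pow_eq_one
    rw [pow_two, h]
  have h4 : Odd (orderOf y) := Odd.of_dvd_nat hLodd h1
  have h5 : orderOf y = 1 := by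
    rcases (Nat.dvd_prime Nat.prime_two).1 h3 with h | h
    · exact h
    · rw [h] at h4
      exact absurd h4 (by decide)
  exact orderOf_eq_one_iff.1 h5

section Mat

/-- The eigenspaces of a matrix. -/
def eigM (M : Matrix ι ι F) (ε : F) : Submodule F (ι → F) where
  carrier := {v | M *ᵥ v = ε • v}
  add_mem' := by
    intro a b ha hb
    show M *ᵥ (a + b) = ε • (a + b)
    rw [Matrix.mulVec_add, ha, hb, smul_add]
  zero_mem' := by
    show M *ᵥ 0 = ε • 0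
    rw [Matrix.mulVec_zero, smul_zero]
  smul_mem' := by
    intro c a ha
    show M *ᵥ (c • a) = ε • (c • a)
    rw [Matrix.mulVec_smul, ha, smul_comm]

theorem mem_eigM {M : Matrix ι ι F} {ε : F} {v : ι → F} : v ∈ eigM M ε ↔ M *ᵥ v = ε • v := Iff.rfl

variable {M : Matrix ι ι F} (hM : ∀ v, M *ᵥ (M *ᵥ v) = v)

include hM

theorem compsM (h2 : (2 : F) ≠ 0) {ε : F} (hε : ε * ε = 1) (v : ι → F) :
    ∃ x ∈ eigM M ε, ∃ y ∈ eigM M (-ε), v = x + y := by
  refine ⟨(2 : F)⁻¹ • (v + ε • (M *ᵥ v)), ?_, (2 : F)⁻¹ • (v - ε • (M *ᵥ v)), ?_, ?_⟩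
  · rw [mem_eigM, Matrix.mulVec_smul, Matrix.mulVec_add, Matrix.mulVec_smul, hM, smul_comm ε (2 : F)⁻¹]
    congr 1
    rw [smul_add, smul_smul, hε, one_smul, add_comm]
  · rw [mem_eigM, Matrix.mulVec_smul, Matrix.mulVec_sub, Matrix.mulVec_smul, hM, smul_comm (-ε) (2 : F)⁻¹]
    congr 1
    rw [smul_sub, smul_smul, neg_mul, hε, neg_smul (1 : F), one_smul, neg_smul]
    abel
  · rw [← smul_add]
    have e : v + ε • (M *ᵥ v) + (v - ε • (M *ᵥ v)) = (2 : F) • v := by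
      rw [two_smul]
      abel
    rw [e, smul_smul, inv_mul_cancel₀ h2, one_smul]

theorem isCompl_eigM (h2 : (2 : F) ≠ 0) : IsCompl (eigM M 1) (eigM M (-1)) := by
  have hne : (1 : F) ≠ -1 := by
    intro h
    apply h2
    linear_combination h
  constructor
  · rw [Submodule.disjoint_def]
    intro v h1 h3
    have h4 : (1 : F) • v = (-1 : F) • v := (mem_eigM.1 h1).symm.trans (mem_eigM.1 h3)
    have h5 : ((1 : F) - (-1)) • v = 0 := by rw [sub_smul, h4, sub_self]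
    exact (smul_eq_zero.1 h5).resolve_left (sub_ne_zero.2 hne)
  · rw [codisjoint_iff, eq_top_iff]
    intro v _
    obtain ⟨x, hx, y, hy, rfl⟩ := compsM hM h2 (ε := 1) (by ring) v
    exact Submodule.add_mem_sup hx hy

theorem finrank_eigM (h2 : (2 : F) ≠ 0) : finrank F ↥(eigM M 1) + finrank F ↥(eigM M (-1)) = Fintype.card ι := by
  rw [Submodule.finrank_add_eq_of_isCompl (isCompl_eigM hM h2), Module.finrank_fintype_fun_eq_card]

/-- The determinant of an involution. -/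
theorem det_eigM (h2 : (2 : F) ≠ 0) : M.det = (-1 : F) ^ finrank F ↥(eigM M (-1)) := by
  have hc := isCompl_eigM hM h2
  set e := Submodule.prodEquivOfIsCompl _ _ hc with he
  set f : (↥(eigM M 1) × ↥(eigM M (-1))) →ₗ[F] (↥(eigM M 1) × ↥(eigM M (-1))) :=
    LinearMap.prodMap (LinearMap.id) ((-1 : F) • LinearMap.id) with hf
  have h1 : Matrix.toLin' M = e.toLinearMap ∘ₗ f ∘ₗ e.symm.toLinearMap := by
    apply LinearMap.ext
    intro v
    obtain ⟨x, hx, y, hy, rfl⟩ := compsM hM h2 (ε := 1) (by ring) v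
    have h3 : e.symm (x + y) = (⟨x, hx⟩, ⟨y, hy⟩) := by
      rw [LinearEquiv.symm_apply_eq]
      rfl
    simp only [LinearMap.comp_apply, LinearEquiv.coe_coe, h3, hf, LinearMap.prodMap_apply, LinearMap.id_apply, LinearMap.smul_apply]
    rw [Matrix.toLin'_apply]
    rw [Matrix.mulVec_add, mem_eigM.1 hx, mem_eigM.1 hy, one_smul]
    rfl
  rw [← LinearMap.det_toLin', h1, LinearMap.det_conj, hf, LinearMap.det_prodMap, LinearMap.det_id, LinearMap.det_smul, LinearMap.det_id]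
  ring

end Mat

section Invol

variable (g₀ : ↥(Cfsg.isometryGroup F (⇑Q)))

/-- The eigenspaces of an isometry. -/
abbrev eigS (ε : F) : Submodule F (ι → F) := eigM ((g₀.1 : GL ι F) : Matrix ι ι F) ε

variable {g₀}

theorem mem_eigS {ε : F} {v : ι → F} : v ∈ eigS g₀ ε ↔ act g₀ v = ε • v := Iff.rfl

theorem polar_eig_neg (h2 : (2 : F) ≠ 0) {ε : F} (hε : ε * ε = 1) {a b : ι → F} (ha : a ∈ eigS g₀ ε) (hb : b ∈ eigS g₀ (-ε)) :
    polar (⇑Q) a b = 0 := by
  have h1 := polar_act g₀ a b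
  rw [mem_eigS.1 ha, mem_eigS.1 hb, polar_smul_left', polar_smul_right'] at h1
  have h3 : (2 : F) * polar (⇑Q) a b = 0 := by
    linear_combination -h1 + (-polar (⇑Q) a b) * hε
  exact (mul_eq_zero.1 h3).resolve_left h2

variable (hinv : ∀ v, act g₀ (act g₀ v) = v)

include hinv

theorem comps (h2 : (2 : F) ≠ 0) {ε : F} (hε : ε * ε = 1) (v : ι → F) :
    ∃ x ∈ eigS g₀ ε, ∃ y ∈ eigS g₀ (-ε), v = x + y :=
  compsM hinv h2 hε v

theorem nondeg_eig (hQ : (polarBilin Q).Nondegenerate) (h2 : (2 : F) ≠ 0) {ε : F} (hε : ε * ε = 1) :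
    PolarNondeg (Q.comp (eigS g₀ ε).subtype) := by
  rintro ⟨w, hw⟩ hall
  apply Subtype.ext
  apply polarNondeg_of_nondeg Q hQ
  intro v
  obtain ⟨x, hx, y, hy, rfl⟩ := comps hinv h2 hε v
  rw [polar_add_right, polar_eig_neg h2 hε hw hy, add_zero]
  exact hall ⟨x, hx⟩

theorem finrank_eig (h2 : (2 : F) ≠ 0) : finrank F ↥(eigS g₀ 1) + finrank F ↥(eigS g₀ (-1)) = Fintype.card ι :=
  finrank_eigM hinv h2

/-- Eichler maps with data in an eigenspace commute with the involution. -/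
theorem sieg_comm {ε : F} (hε : ε * ε = 1) {a c : ι → F} (ha : a ∈ eigS g₀ ε) (hc : c ∈ eigS g₀ ε) (v : ι → F) :
    siegFun Q a c (act g₀ v) = act g₀ (siegFun Q a c v) := by
  have h1 : ∀ {b : ι → F}, b ∈ eigS g₀ ε → polar (⇑Q) (act g₀ v) b = ε * polar (⇑Q) v b := by
    intro b hb
    have h3 := polar_act g₀ v b
    rw [mem_eigS.1 hb, polar_smul_right'] at h3
    rw [← h3, ← mul_assoc, hε, one_mul]
  simp only [siegFun]
  rw [h1 ha, h1 hc, act_sub, act_sub, act_add, act_smul, act_smul, act_smul, mem_eigS.1 ha, mem_eigS.1 hc]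
  module

omit hinv in
/-- The eigenspaces contain nonsingular vectors. -/
theorem exists_nonsingular_of_nondeg {W : Submodule F (ι → F)} (h : PolarNondeg (Q.comp W.subtype)) (hW : W ≠ ⊥) :
    ∃ v ∈ W, Q v ≠ 0 := by
  by_contra hcon
  push Not at hcon
  apply hW
  rw [Submodule.eq_bot_iff]
  intro x hx
  have h5 : (⟨x, hx⟩ : W) = 0 := by
    apply h
    intro y
    change polar (⇑Q) x y.1 = 0
    rw [polar, hcon x hx, hcon y.1 y.2, hcon _ (W.add_mem hx y.2)]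
    ring
  exact congrArg Subtype.val h5

/-- **Commutation with the involution for elements of odd order.** -/
theorem comm_of_odd (hQ : (polarBilin Q).Nondegenerate) (hn : 7 ≤ Fintype.card ι) (h2 : (2 : F) ≠ 0)
    {L : Subgroup (MulAut (Cfsg.POmega F (⇑Q)))} (hLx : ∀ y ∈ L, y * simHom (⇑Q) (ofO g₀) = simHom (⇑Q) (ofO g₀) * y)
    (hLodd : Odd (Nat.card L)) (Y : ↥(Ss (⇑Q))) (hY : semiHom (⇑Q) Y ∈ L) (v : ι → F) :
    sm Y.1 (act g₀ v) = act g₀ (sm Y.1 v) := by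
  have hι : Nonempty ι := Fintype.card_pos_iff.1 (by omega)
  -- first step
  have step1 : ∀ Y' : ↥(Ss (⇑Q)), semiHom (⇑Q) Y' ∈ L → ∃ t : F, t * t = 1 ∧ ∀ v, sm Y'.1 (act g₀ v) = t • act g₀ (sm Y'.1 v) := by
    intro Y' hY'
    obtain ⟨t, ht⟩ := exists_lambda hQ hn Y' (ofO g₀) (hLx _ hY')
    refine ⟨t, ?_, ht⟩
    obtain ⟨v₀, hv₀⟩ : ∃ v₀ : ι → F, v₀ ≠ 0 := by
      obtain ⟨i⟩ := hι
      exact ⟨Pi.single i 1, fun h0 => by
        have := congrFun h0 i
        simp at this⟩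
    have hu : sm Y'.1 v₀ ≠ 0 := by
      intro h
      apply hv₀
      rw [← sm_inv_sm Y'.1 v₀, h, sm_zero]
    have h1 : sm Y'.1 (act g₀ (act g₀ v₀)) = (t : F) • act g₀ (sm Y'.1 (act g₀ v₀)) := ht _
    have h3 : sm Y'.1 (act g₀ v₀) = (t : F) • act g₀ (sm Y'.1 v₀) := ht _
    rw [hinv, h3, act_smul, hinv, smul_smul] at h1
    have h4 : ((t : F) * t - 1) • sm Y'.1 v₀ = 0 := by
      rw [sub_smul, one_smul, ← h1, sub_self]
    exact sub_eq_zero.1 ((smul_eq_zero.1 h4).resolve_right hu)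
  -- the order
  have hord : Odd (orderOf (semiHom (⇑Q) Y)) := by
    have h1 : orderOf (semiHom (⇑Q) Y) ∣ Nat.card L := by
      rw [← Subgroup.orderOf_mk _ hY]
      exact orderOf_dvd_natCard _
    exact Odd.of_dvd_nat hLodd h1
  obtain ⟨l, hl⟩ := hord
  set Y' := Y ^ (l + 1) with hY'
  have hY'L : semiHom (⇑Q) Y' ∈ L := by
    rw [hY', map_pow]
    exact L.pow_mem hY _
  obtain ⟨t, ht1, ht⟩ := step1 Y' hY'L
  have h1 : semiHom (⇑Q) (Y * (Y' * Y')⁻¹) = 1 := by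
    rw [map_mul, map_inv, map_mul, hY', map_pow]
    have h3 : (semiHom (⇑Q) Y) ^ (l + 1) * (semiHom (⇑Q) Y) ^ (l + 1) = semiHom (⇑Q) Y := by
      rw [← pow_add]
      have h4 : l + 1 + (l + 1) = orderOf (semiHom (⇑Q) Y) + 1 := by omega
      rw [h4, pow_succ, pow_orderOf_eq_one, one_mul]
    rw [h3, mul_inv_cancel]
  have h3 : Y * (Y' * Y')⁻¹ ∈ (semiHom (⇑Q)).ker := h1
  rw [ker_semiHom hQ hn] at h3
  obtain ⟨z, hz, hZ⟩ := h3
  obtain ⟨s, hs⟩ := (mem_ZG z).1 hz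
  have h4 : Y = ofSim (⇑Q) z * (Y' * Y') := by
    rw [hZ]
    group
  have h5 : ∀ w, sm Y.1 w = (s : F) • sm Y'.1 (sm Y'.1 w) := by
    intro w
    have h6 := congrArg (fun W : ↥(Ss (⇑Q)) => sm W.1 w) h4
    simp only [Subgroup.coe_mul, sm_mul] at h6
    rw [sm_ofSim, hs, Matrix.smul_mulVec, Matrix.one_mulVec] at h6
    exact h6
  rw [h5, h5, ht, sm_smul, ht, act_smul]
  congr 1
  have h6 : Y'.1.right t = t := by
    have : t = 1 ∨ t = -1 := mul_self_eq_one_iff.1 ht1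
    rcases this with rfl | rfl <;> simp
  rw [h6, smul_smul, ht1, one_smul]

/-- An element of `Ss` acting on the eigenspaces. -/
theorem sm_eig {ε : F} (hε : ε * ε = 1) (Y : ↥(Ss (⇑Q))) (hc : ∀ v, sm Y.1 (act g₀ v) = act g₀ (sm Y.1 v)) {a : ι → F} (ha : a ∈ eigS g₀ ε) :
    sm Y.1 a ∈ eigS g₀ ε := by
  rw [mem_eigS, ← hc, mem_eigS.1 ha, sm_smul]
  have h6 : Y.1.right ε = ε := by
    have : ε = 1 ∨ ε = -1 := mul_self_eq_one_iff.1 hε
    rcases this with rfl | rfl <;> simp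
  rw [h6]

omit hinv in
theorem image_line_right (Y : ↥(Ss (⇑Q))) (a : ι → F) : sm Y.1 '' line F a = line F (sm Y.1 a) := by
  ext v
  constructor
  · rintro ⟨_, ⟨k, rfl⟩, rfl⟩
    exact ⟨Y.1.right k, by
      change Y.1.right k • sm Y.1 a = sm Y.1 (k • a)
      rw [sm_smul]⟩
  · rintro ⟨k, rfl⟩
    refine ⟨Y.1.right.symm k • a, ⟨_, rfl⟩, ?_⟩
    change sm Y.1 (Y.1.right.symm k • a) = k • sm Y.1 a
    rw [sm_smul, RingEquiv.apply_symm_apply]

/-- **The case of an isometric involution.** -/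
theorem main_invol (hQ : (polarBilin Q).Nondegenerate) (hn : 7 ≤ Fintype.card ι) (h2 : (2 : F) ≠ 0)
    (htop : ∀ β : MulAut (Cfsg.POmega F (⇑Q)), ∃ y, semiHom (⇑Q) y = β)
    (hp : Odd (finrank F ↥(eigS g₀ 1))) (hm : Odd (finrank F ↥(eigS g₀ (-1))))
    (C L : Subgroup (MulAut (Cfsg.POmega F (⇑Q)))) (hLx : ∀ y ∈ L, y * simHom (⇑Q) (ofO g₀) = simHom (⇑Q) (ofO g₀) * y)
    (hCinn : ∀ α ∈ Cfsg.Inn (Cfsg.POmega F (⇑Q)), α * simHom (⇑Q) (ofO g₀) = simHom (⇑Q) (ofO g₀) * α → α ∈ C)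
    (hLn : ∀ c ∈ C, ∀ y ∈ L, c * y * c⁻¹ ∈ L) (hLodd : Odd (Nat.card L)) : L = ⊥ := by
  classical
  rw [eq_bot_iff]
  intro y hy
  obtain ⟨Y, rfl⟩ := htop y
  rw [Subgroup.mem_bot]
  have hcomm := comm_of_odd hinv hQ hn h2 hLx hLodd
  -- the fixed lines
  have hfix : ∀ ε : F, ε * ε = 1 → Odd (finrank F ↥(eigS g₀ ε)) → ∀ a ∈ eigS g₀ ε, a ≠ 0 → Q a = 0 → ∃ k : F, sm Y.1 a = k • a := by
    intro ε hε hodd a ha ha0 haQ
    refine fix_lines (K := F) (Qk := Q) (ℓ := id) hQ hn h2 h2 (fun v => rfl) (eigS g₀ ε) (nondeg_eig hinv hQ h2 hε) hodd C L hLn hLodd ?_ ?_ Y hy ha ha0 haQ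
    · intro a' c ha' hc ha'W hcW
      apply simHom_mem_C hCinn _ (siegO_mem_omega hQ h2 h2 (fun v => rfl) ha' hc)
      intro v
      change act (siegO (Q := Q) (ℓ := id) (fun v => rfl) ha' hc) (act g₀ v) = act g₀ (act (siegO (Q := Q) (ℓ := id) (fun v => rfl) ha' hc) v)
      rw [act_siegO, act_siegO]
      exact sieg_comm hinv hε ha'W hcW v
    · intro Y' hY' a' ha' ha'0 ha'Q
      refine ⟨sm_eig hinv hε Y' (hcomm Y' hY') ha', ?_, image_line_right Y' a'⟩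
      obtain ⟨c, hc⟩ := (mem_Ss (⇑Q)).1 Y'.2
      rw [hc, ha'Q, map_zero, mul_zero]
  -- the scalar on an eigenspace
  have hscal : ∀ ε : F, ε * ε = 1 → Odd (finrank F ↥(eigS g₀ ε)) → 3 ≤ finrank F ↥(eigS g₀ ε) →
      (∀ k, Y.1.right k = k) ∧ ∃ α : F, α ≠ 0 ∧ ∀ v ∈ eigS g₀ ε, sm Y.1 v = α • v := by
    intro ε hε hodd h3
    let s : ↥(eigS g₀ ε) →+ ↥(eigS g₀ ε) :=
      { toFun := fun v => ⟨sm Y.1 v.1, sm_eig hinv hε Y (hcomm Y hy) v.2⟩
        map_zero' := by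
          apply Subtype.ext
          exact sm_zero _
        map_add' := fun a b => by
          apply Subtype.ext
          exact sm_add _ _ _ }
    haveI : FiniteDimensional F ↥(eigS g₀ ε) := inferInstance
    obtain ⟨h4, α, hα, h5⟩ := scalar_of_lines (Q := Q.comp (eigS g₀ ε).subtype) h2 (nondeg_eig hinv hQ h2 hε) h3 s Y.1.right
      (fun k v => by
        apply Subtype.ext
        exact sm_smul _ _ _)
      (fun a b hab => by
        apply Subtype.ext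
        have h6 : sm Y.1 a.1 = sm Y.1 b.1 := congrArg Subtype.val hab
        rw [← sm_inv_sm Y.1 a.1, h6, sm_inv_sm])
      (fun v hv => by
        by_cases hv0 : v = 0
        · refine ⟨0, ?_⟩
          subst hv0
          simp
        obtain ⟨k, hk⟩ := hfix ε hε hodd v.1 v.2 (fun h => hv0 (Subtype.ext h)) hv
        exact ⟨k, Subtype.ext hk⟩)
    refine ⟨h4, α, hα, fun v hv => ?_⟩
    exact congrArg Subtype.val (h5 ⟨v, hv⟩)
  have hone : (1 : F) * 1 = 1 := by ring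
  have hneg : (-1 : F) * (-1) = 1 := by ring
  have hsum := finrank_eig hinv h2
  -- the field automorphism is trivial
  have hright : ∀ k, Y.1.right k = k := by
    by_cases h3 : 3 ≤ finrank F ↥(eigS g₀ 1)
    · exact (hscal 1 hone hp h3).1
    · exact (hscal (-1) hneg hm (by omega)).1
  -- all eigenspaces
  have hall : ∀ ε : F, ε * ε = 1 → Odd (finrank F ↥(eigS g₀ ε)) → ∃ α : F, α ≠ 0 ∧ ∀ v ∈ eigS g₀ ε, sm Y.1 v = α • v := by
    intro ε hε hodd
    by_cases h3 : 3 ≤ finrank F ↥(eigS g₀ ε)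
    · exact (hscal ε hε hodd h3).2
    · have h1 : finrank F ↥(eigS g₀ ε) = 1 := by
        obtain ⟨t, ht⟩ := hodd
        omega
      obtain ⟨v₀, hv₀, hall⟩ := finrank_eq_one_iff'.1 h1
      have h4 := sm_eig hinv hε Y (hcomm Y hy) v₀.2
      obtain ⟨α, hα⟩ := hall ⟨_, h4⟩
      have hα' : α • v₀.1 = sm Y.1 v₀.1 := congrArg Subtype.val hα
      have hv₀' : v₀.1 ≠ 0 := fun h => hv₀ (Subtype.ext h)
      refine ⟨α, ?_, ?_⟩
      · rintro rfl
        rw [zero_smul] at hα'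
        apply hv₀'
        rw [← sm_inv_sm Y.1 v₀.1, ← hα', sm_zero]
      · intro v hv
        obtain ⟨c, hc⟩ := hall ⟨v, hv⟩
        have hc' : c • v₀.1 = v := congrArg Subtype.val hc
        rw [← hc', sm_smul, hright, ← hα', smul_comm]
  obtain ⟨αp, hαp0, hαp⟩ := hall 1 hone hp
  obtain ⟨αm, hαm0, hαm⟩ := hall (-1) hneg hm
  -- the multiplier
  obtain ⟨c, hc⟩ := (mem_Ss (⇑Q)).1 Y.2
  have hbot : ∀ ε : F, Odd (finrank F ↥(eigS g₀ ε)) → eigS g₀ ε ≠ ⊥ := by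
    rintro ε hodd h
    rw [h, finrank_bot] at hodd
    exact Nat.not_odd_zero hodd
  have hmul : ∀ ε : F, ε * ε = 1 → Odd (finrank F ↥(eigS g₀ ε)) → ∀ α : F, (∀ v ∈ eigS g₀ ε, sm Y.1 v = α • v) → α * α = c := by
    intro ε hε hodd α hα
    obtain ⟨v, hv, hQv⟩ := exists_nonsingular_of_nondeg (nondeg_eig hinv hQ h2 hε) (hbot ε hodd)
    have h1 := hc v
    rw [hα v hv, Q_smul, hright] at h1
    exact mul_right_cancel₀ hQv h1
  have hp2 := hmul 1 hone hp αp hαp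
  have hm2 := hmul (-1) hneg hm αm hαm
  have hsq : αm = αp ∨ αm = -αp := by
    exact mul_self_eq_mul_self_iff.1 (hm2.trans hp2.symm)
  have hr1 : Y.1.right = 1 := by
    ext k
    exact hright k
  rcases hsq with heq | heq
  · -- a scalar
    apply semiHom_eq_one_of_scalar hQ (by omega) hr1 hαp0
    apply Matrix.ext_of_mulVec_single
    intro j
    have h1 := congrFun (show (fun k => Y.1.right ((Pi.single j 1 : ι → F) k)) = (Pi.single j 1 : ι → F) from by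
      funext k
      exact hright _)
    obtain ⟨x, hx, y, hy', h4⟩ := comps hinv h2 hone (Pi.single j 1 : ι → F)
    have h5 : sm Y.1 (Pi.single j 1 : ι → F) = αp • (Pi.single j 1 : ι → F) := by
      rw [h4, sm_add, hαp x hx, hαm y hy', heq, smul_add]
    rw [sm_def] at h5
    rw [show (fun k => Y.1.right ((Pi.single j 1 : ι → F) k)) = (Pi.single j 1 : ι → F) from by
      funext k
      exact hright _] at h5
    rw [h5, Matrix.smul_mulVec, Matrix.one_mulVec]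
  · -- the involution itself
    have hsq1 : semiHom (⇑Q) Y = simHom (⇑Q) (ofO g₀) := by
      have hGr : ((ofSim (⇑Q) (ofO g₀))⁻¹ : ↥(Ss (⇑Q))).1.right = 1 := by
        show ((SemidirectProduct.inl (ofO g₀).1 : GS ι F)⁻¹).right = 1
        simp
      have hxr : (Y * (ofSim (⇑Q) (ofO g₀))⁻¹ : ↥(Ss (⇑Q))).1.right = 1 := by
        show Y.1.right * ((ofSim (⇑Q) (ofO g₀))⁻¹ : ↥(Ss (⇑Q))).1.right = 1
        rw [hGr, hr1, mul_one]
      have hY2 : ∀ v, sm Y.1 v = αp • act g₀ v := by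
        intro v
        obtain ⟨x, hx, y, hy', h4⟩ := comps hinv h2 hone v
        rw [h4, sm_add, hαp x hx, hαm y hy', heq, act_add, mem_eigS.1 hx, mem_eigS.1 hy', smul_add, one_smul, smul_smul]
        simp
      have hGi : ∀ w, sm ((ofSim (⇑Q) (ofO g₀))⁻¹ : ↥(Ss (⇑Q))).1 w = act g₀ w := by
        intro w
        have h5 : sm (ofSim (⇑Q) (ofO g₀)).1 (act g₀ w) = w := by
          rw [sm_ofSim_ofO, hinv]
        conv_lhs => rw [← h5]
        exact sm_inv_sm _ _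
      have h1 : semiHom (⇑Q) (Y * (ofSim (⇑Q) (ofO g₀))⁻¹) = 1 := by
        apply semiHom_eq_one_of_scalar hQ (by omega) hxr hαp0
        apply Matrix.ext_of_mulVec_single
        intro j
        have h5 : sm (Y * (ofSim (⇑Q) (ofO g₀))⁻¹ : ↥(Ss (⇑Q))).1 (Pi.single j 1 : ι → F) = αp • (Pi.single j 1 : ι → F) := by
          show sm (Y.1 * ((ofSim (⇑Q) (ofO g₀))⁻¹ : ↥(Ss (⇑Q))).1) _ = _
          rw [sm_mul, hGi, hY2, hinv]
        rw [sm_def, hxr] at h5
        rw [show (fun i => (1 : F ≃+* F) ((Pi.single j 1 : ι → F) i)) = (Pi.single j 1 : ι → F) from rfl] at h5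
        rw [h5, Matrix.smul_mulVec, Matrix.one_mulVec]
      have h3 : semiHom (⇑Q) Y * (simHom (⇑Q) (ofO g₀))⁻¹ = 1 := by
        rw [map_mul, map_inv, semiHom_ofSim] at h1
        exact h1
      exact mul_inv_eq_one.1 h3
    have hxx : simHom (⇑Q) (ofO g₀) * simHom (⇑Q) (ofO g₀) = 1 := by
      rw [← map_mul]
      have : ofO g₀ * ofO g₀ = 1 := by
        apply Subtype.ext
        apply Units.ext
        apply Matrix.ext_of_mulVec_single
        intro j
        show (((g₀.1 : GL ι F) : Matrix ι ι F) * ((g₀.1 : GL ι F) : Matrix ι ι F)) *ᵥ _ = (1 : Matrix ι ι F) *ᵥ _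
        rw [← Matrix.mulVec_mulVec, Matrix.one_mulVec]
        exact hinv _
      rw [this, map_one]
    have h1 : orderOf (semiHom (⇑Q) Y) ∣ Nat.card L := by
      rw [← Subgroup.orderOf_mk _ hy]
      exact orderOf_dvd_natCard _
    have h3 : orderOf (semiHom (⇑Q) Y) ∣ 2 := by
      apply orderOf_dvd_of_pow_eq_one
      rw [hsq1, pow_two, hxx]
    have h4 : Odd (orderOf (semiHom (⇑Q) Y)) := Odd.of_dvd_nat hLodd h1
    have h5 : orderOf (semiHom (⇑Q) Y) = 1 := by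
      rcases (Nat.dvd_prime Nat.prime_two).1 h3 with h | h
      · exact h
      · rw [h] at h4
        exact absurd h4 (by decide)
    exact orderOf_eq_one_iff.1 h5

end Invol

end Cfsg.Agent.Lib.Classical.OrthAut.BalD
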