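import Mathlib
import Cfsg.Agent.Lib.Classical.OrthAut.BalD

/-!
# Graph involutions induced by similarities whose square is a non-square scalar
-/

set_option autoImplicit false
set_option linter.unusedSectionVars false
set_option linter.unusedVariables false
set_option linter.unusedSimpArgs false
set_option linter.style.haveILetI false

namespace Cfsg.Agent.Lib.Classical.OrthAut.BalE

open Matrix QuadraticMap Module
open Cfsg.Agent.Lib.Classical.Orth.Basic
open Cfsg.Agent.Lib.Classical.Orth.SimAut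
open Cfsg.Agent.Lib.Classical.Orth.SimAut2
open Cfsg.Agent.Lib.Classical.Orth.Semi
open Cfsg.Agent.Lib.Classical.Orth.Spinor
open Cfsg.Agent.Lib.Classical.Witt.Hyp
open Cfsg.Agent.Lib.Classical.OrthAut.FldBal
open Cfsg.Agent.Lib.Classical.OrthAut.BalA
open Cfsg.Agent.Lib.Classical.OrthAut.BalB
open Cfsg.Agent.Lib.Classical.OrthAut.BalC
open Cfsg.Agent.Lib.Classical.OrthAut.BalD

universe u

variable {ι : Type} [Fintype ι] [DecidableEq ι] {F : Type u} [Field F]
variable {Q : QuadraticForm F (ι → F)}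

section Form

variable {K : Type*} [Field K] [Algebra F K] [Module K (ι → F)] [IsScalarTower F K (ι → F)]
variable {M : Matrix ι ι F} {c : F} {θ : K}

/-- Coordinates are unique. -/
theorem coord_unique (hc : ¬ IsSquare c) (hθ2 : θ * θ = algebraMap F K c) {u u' w w' : F}
    (h : algebraMap F K u + algebraMap F K u' * θ = algebraMap F K w + algebraMap F K w' * θ) : u = w ∧ u' = w' := by
  have hu' : u' = w' := by
    by_contra hne
    apply hc
    have h1 : algebraMap F K (u' - w') * θ = algebraMap F K (w - u) := by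
      rw [map_sub, map_sub]
      linear_combination h
    have hd : u' - w' ≠ 0 := sub_ne_zero.2 hne
    have hd' : algebraMap F K (u' - w') ≠ 0 := (map_ne_zero _).2 hd
    have h3 : θ = algebraMap F K ((w - u) / (u' - w')) := by
      rw [map_div₀, ← h1]
      field_simp
    refine ⟨(w - u) / (u' - w'), ?_⟩
    apply (algebraMap F K).injective
    rw [← hθ2, map_mul, ← h3]
  subst hu'
  refine ⟨?_, rfl⟩
  apply (algebraMap F K).injective
  linear_combination h

variable (hθ : ∀ v, θ • v = M *ᵥ v)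

include hθ

theorem smul_coord (u u' : F) (v : ι → F) : (algebraMap F K u + algebraMap F K u' * θ) • v = u • v + u' • (M *ᵥ v) := by
  rw [add_smul, mul_smul, hθ, algebraMap_smul, algebraMap_smul]

/-- The form over the extension field, as a function. -/
noncomputable def bK (Q : QuadraticForm F (ι → F)) (M : Matrix ι ι F) (c : F) (θ : K) (v w : ι → F) : K :=
  algebraMap F K (polar (⇑Q) v w) + algebraMap F K (c⁻¹ * polar (⇑Q) (M *ᵥ v) w) * θ

omit hθ in
theorem self_adjoint (hc0 : c ≠ 0) (hMM : ∀ v, M *ᵥ (M *ᵥ v) = c • v) (hmult : ∀ v, Q (M *ᵥ v) = c * Q v) (v w : ι → F) :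
    polar (⇑Q) (M *ᵥ v) w = polar (⇑Q) v (M *ᵥ w) := by
  have hp : ∀ x y : ι → F, polar (⇑Q) (M *ᵥ x) (M *ᵥ y) = c * polar (⇑Q) x y := by
    intro x y
    simp only [polar]
    rw [← Matrix.mulVec_add, hmult, hmult, hmult]
    ring
  have h1 := hp v (M *ᵥ w)
  rw [hMM, polar_smul_right'] at h1
  exact mul_left_cancel₀ hc0 h1

omit hθ in
theorem bK_comm (hc0 : c ≠ 0) (hMM : ∀ v, M *ᵥ (M *ᵥ v) = c • v) (hmult : ∀ v, Q (M *ᵥ v) = c * Q v) (v w : ι → F) :
    bK Q M c θ v w = bK Q M c θ w v := by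
  simp only [bK]
  rw [polar_comm (⇑Q) v w, self_adjoint hc0 hMM hmult v w, polar_comm (⇑Q) v (M *ᵥ w)]

/-- The form over the extension field. -/
theorem exists_Qk (h2 : (2 : F) ≠ 0) (hc0 : c ≠ 0) (hθ2 : θ * θ = algebraMap F K c)
    (hdecomp : ∀ k : K, ∃ u u' : F, k = algebraMap F K u + algebraMap F K u' * θ)
    (hMM : ∀ v, M *ᵥ (M *ᵥ v) = c • v) (hmult : ∀ v, Q (M *ᵥ v) = c * Q v) :
    ∃ Qk : QuadraticForm K (ι → F), (∀ v w, polar Qk v w = bK Q M c θ v w) ∧
      ∀ v, Qk v = algebraMap F K (Q v) + algebraMap F K ((2 * c)⁻¹ * polar (⇑Q) (M *ᵥ v) v) * θ := by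
  have h2K : (2 : K) ≠ 0 := by
    have h : algebraMap F K 2 = 2 := map_ofNat _ 2
    rw [← h]
    exact (map_ne_zero _).2 h2
  have hc0K : algebraMap F K c ≠ 0 := (map_ne_zero _).2 hc0
  have hadd : ∀ m m' n, bK Q M c θ (m + m') n = bK Q M c θ m n + bK Q M c θ m' n := by
    intro m m' n
    simp only [bK, polar_add_left, Matrix.mulVec_add, map_add, mul_add, add_mul]
    ring
  have hsm : ∀ (k : K) m n, bK Q M c θ (k • m) n = k • bK Q M c θ m n := by
    intro k m n
    obtain ⟨u, u', rfl⟩ := hdecomp k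
    rw [smul_coord hθ]
    simp only [bK, polar_add_left, polar_smul_left', Matrix.mulVec_add, Matrix.mulVec_smul, hMM, smul_eq_mul, map_add, map_mul,
      map_inv₀]
    have h1 : algebraMap F K c * (algebraMap F K c)⁻¹ = 1 := mul_inv_cancel₀ hc0K
    generalize algebraMap F K (polar (⇑Q) m n) = B at *
    generalize algebraMap F K (polar (⇑Q) (M *ᵥ m) n) = B₁ at *
    generalize algebraMap F K u = a at *
    generalize algebraMap F K u' = a' at *
    generalize (algebraMap F K c)⁻¹ = ci at *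
    generalize algebraMap F K c = cc at *
    linear_combination (a' * ci * B₁) * (-hθ2) + (a' * B) * h1 * θ - (a' * B₁) * h1
  let Bk : (ι → F) →ₗ[K] (ι → F) →ₗ[K] K := LinearMap.mk₂ K (bK Q M c θ) hadd (fun k m n => hsm k m n)
    (fun m n n' => by
      rw [bK_comm hc0 hMM hmult, hadd, bK_comm hc0 hMM hmult n, bK_comm hc0 hMM hmult n'])
    (fun k m n => by
      rw [bK_comm hc0 hMM hmult, hsm, bK_comm hc0 hMM hmult n])
  have hBk : ∀ v w, Bk v w = bK Q M c θ v w := fun v w => rfl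
  refine ⟨(2 : K)⁻¹ • (LinearMap.BilinMap.toQuadraticMap Bk), ?_, ?_⟩
  · intro v w
    have h1 : (2 : K) * (2 : K)⁻¹ = 1 := mul_inv_cancel₀ h2K
    simp only [polar, _root_.smul_apply, LinearMap.BilinMap.toQuadraticMap_apply, map_add, LinearMap.add_apply, hBk, smul_eq_mul]
    rw [bK_comm hc0 hMM hmult w v]
    linear_combination (bK Q M c θ v w) * h1
  · intro v
    simp only [_root_.smul_apply, LinearMap.BilinMap.toQuadraticMap_apply, hBk, smul_eq_mul, bK]
    have h5 : polar (⇑Q) v v = 2 * Q v := by rw [Cfsg.Agent.Lib.Classical.Witt.Hyp.polar_self]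
    rw [h5]
    have h1 : (2 : K) * (2 : K)⁻¹ = 1 := mul_inv_cancel₀ h2K
    have h6 : algebraMap F K 2 = 2 := map_ofNat _ 2
    simp only [map_mul, mul_inv, map_inv₀, h6]
    linear_combination (algebraMap F K (Q v)) * h1

end Form

section Main

variable {K : Type*} [Field K] [Algebra F K] [Module K (ι → F)] [IsScalarTower F K (ι → F)]
variable {c : F} {θ : K}

/-- **The case of a similarity whose square is a non-square scalar.** -/
theorem main_sqrt [Fintype F] (hQ : (polarBilin Q).Nondegenerate) (hn : 7 ≤ Fintype.card ι) (h2 : (2 : F) ≠ 0)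
    (htop : ∀ β : MulAut (Cfsg.POmega F (⇑Q)), ∃ y, semiHom (⇑Q) y = β) (g : SimG Q) (hc : ¬ IsSquare c)
    (hMM : ∀ v, (g.1 : Matrix ι ι F) *ᵥ ((g.1 : Matrix ι ι F) *ᵥ v) = c • v) (hmult : ∀ v, Q ((g.1 : Matrix ι ι F) *ᵥ v) = c * Q v)
    (hθ : ∀ v, θ • v = (g.1 : Matrix ι ι F) *ᵥ v) (hθ2 : θ * θ = algebraMap F K c)
    (hdecomp : ∀ k : K, ∃ u u' : F, k = algebraMap F K u + algebraMap F K u' * θ)
    (hodd : Odd (finrank K (ι → F))) (h3 : 3 ≤ finrank K (ι → F))
    (C L : Subgroup (MulAut (Cfsg.POmega F (⇑Q)))) (hLx : ∀ y ∈ L, y * simHom (⇑Q) g = simHom (⇑Q) g * y)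
    (hCinn : ∀ α ∈ Cfsg.Inn (Cfsg.POmega F (⇑Q)), α * simHom (⇑Q) g = simHom (⇑Q) g * α → α ∈ C)
    (hLn : ∀ c ∈ C, ∀ y ∈ L, c * y * c⁻¹ ∈ L) (hLodd : Odd (Nat.card L)) : L = ⊥ := by
  classical
  set M := (g.1 : Matrix ι ι F) with hM
  have hc0 : c ≠ 0 := by
    rintro rfl
    exact hc IsSquare.zero
  have h2K : (2 : K) ≠ 0 := by
    have h : algebraMap F K 2 = 2 := map_ofNat _ 2
    rw [← h]
    exact (map_ne_zero _).2 h2
  haveI hfinK : Finite K := Finite.of_surjective (fun p : F × F => algebraMap F K p.1 + algebraMap F K p.2 * θ) (fun k => by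
    obtain ⟨u, u', rfl⟩ := hdecomp k
    exact ⟨(u, u'), rfl⟩)
  haveI : FiniteDimensional K (ι → F) := Module.Finite.of_finite
  obtain ⟨Qk, hpk, hQk⟩ := exists_Qk (K := K) (Q := Q) (M := M) (c := c) (θ := θ) hθ h2 hc0 hθ2 hdecomp hMM hmult
  choose u u' hdec using hdecomp
  have hℓ : ∀ v, Q v = u (Qk v) := by
    intro v
    have h1 := (hdec (Qk v)).symm.trans (hQk v)
    exact (coord_unique hc hθ2 h1).1.symm
  have hzero : ∀ {x y : F}, algebraMap F K x + algebraMap F K y * θ = 0 → x = 0 ∧ y = 0 := by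
    intro x y h
    apply coord_unique hc hθ2
    rw [h]
    simp
  have hsing : ∀ a, Q a = 0 → polar (⇑Q) (M *ᵥ a) a = 0 → Qk a = 0 := by
    intro a h1 h4
    rw [hQk, h1, h4]
    simp
  have hnd : PolarNondeg Qk := by
    intro w hw
    apply polarNondeg_of_nondeg Q hQ
    intro z
    have h1 := hw z
    rw [hpk] at h1
    exact (hzero h1).1
  have hlam : ∀ Y : ↥(Ss (⇑Q)), semiHom (⇑Q) Y ∈ L → ∃ t : Fˣ, ∀ v, sm Y.1 (M *ᵥ v) = (t : F) • (M *ᵥ sm Y.1 v) :=
    fun Y hY => exists_lambda hQ hn Y g (hLx _ hY)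
  have hτ : ∀ Y : ↥(Ss (⇑Q)), semiHom (⇑Q) Y ∈ L → ∃ τ : K → K, ∀ k v, sm Y.1 (k • v) = τ k • sm Y.1 v := by
    intro Y hY
    obtain ⟨t, ht⟩ := hlam Y hY
    refine ⟨fun k => algebraMap F K (Y.1.right (u k)) + algebraMap F K (Y.1.right (u' k) * t) * θ, fun k v => ?_⟩
    conv_lhs => rw [hdec k]
    rw [smul_coord hθ, sm_add, sm_smul, sm_smul, ht, smul_coord hθ, smul_smul]
  have himg : ∀ Y : ↥(Ss (⇑Q)), semiHom (⇑Q) Y ∈ L → ∀ a, sm Y.1 '' line K a = line K (sm Y.1 a) := by
    intro Y hY a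
    obtain ⟨τ, hτ1⟩ := hτ Y hY
    obtain ⟨τ', hτ'⟩ := hτ Y⁻¹ (by
      rw [map_inv]
      exact L.inv_mem hY)
    ext v
    constructor
    · rintro ⟨_, ⟨k, rfl⟩, rfl⟩
      exact ⟨τ k, (hτ1 k a).symm⟩
    · rintro ⟨k, rfl⟩
      refine ⟨τ' k • a, ⟨_, rfl⟩, ?_⟩
      have h1 := hτ' k (sm Y.1 a)
      have h4 : sm (Y⁻¹ : ↥(Ss (⇑Q))).1 (sm Y.1 a) = a := sm_inv_sm _ _
      rw [h4] at h1
      rw [← h1]
      exact sm_sm_inv _ _
  rw [eq_bot_iff]
  intro y hy
  obtain ⟨Y, rfl⟩ := htop y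
  rw [Subgroup.mem_bot]
  have hfix : ∀ a, a ≠ 0 → Qk a = 0 → ∃ k : K, sm Y.1 a = k • a := by
    intro a ha0 ha
    refine fix_lines (K := K) (Qk := Qk) (ℓ := u) hQ hn h2 h2K hℓ ⊤ ?_ ?_ C L hLn hLodd ?_ ?_ Y hy trivial ha0 ha
    · rintro ⟨w, hw⟩ hall
      apply Subtype.ext
      apply hnd
      intro z
      exact hall ⟨z, trivial⟩
    · rwa [finrank_top]
    · intro a' c' ha' hc' _ _
      apply simHom_mem_C hCinn _ (siegO_mem_omega hQ h2 h2K hℓ ha' hc')
      intro v
      change act (siegO (Q := Q) (ℓ := u) hℓ ha' hc') (M *ᵥ v) = M *ᵥ (act (siegO (Q := Q) (ℓ := u) hℓ ha' hc') v)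
      rw [act_siegO, act_siegO, ← hθ, ← hθ]
      exact (siegL Qk a' c').map_smul θ v
    · intro Y' hY' a' _ ha'0 ha'
      refine ⟨trivial, ?_, himg Y' hY' a'⟩
      obtain ⟨μ, hμ⟩ := (mem_Ss (⇑Q)).1 Y'.2
      obtain ⟨t, ht⟩ := hlam Y' hY'
      obtain ⟨h4, h5⟩ : Q a' = 0 ∧ polar (⇑Q) (M *ᵥ a') a' = 0 := by
        have h6 := hQk a'
        rw [ha'] at h6
        have h7 := hzero h6.symm
        refine ⟨h7.1, ?_⟩
        have h8 := h7.2
        exact (mul_eq_zero.1 h8).resolve_left (inv_ne_zero (mul_ne_zero h2 hc0))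
      apply hsing
      · rw [hμ, h4, map_zero, mul_zero]
      · have h6 := polar_sm hμ (M *ᵥ a') a'
        rw [h5, map_zero, mul_zero, ht, polar_smul_left'] at h6
        exact (mul_eq_zero.1 h6).resolve_left t.ne_zero
  obtain ⟨τ, hτ1⟩ := hτ Y hy
  let s : (ι → F) →+ (ι → F) :=
    { toFun := sm Y.1
      map_zero' := sm_zero _
      map_add' := sm_add _ }
  have hsinj : Function.Injective s := by
    intro a b hab
    have h6 : sm Y.1 a = sm Y.1 b := hab
    rw [← sm_inv_sm Y.1 a, h6, sm_inv_sm]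
  obtain ⟨hτid, α, hα0, hα⟩ := scalar_of_lines (Q := Qk) h2K hnd h3 s τ hτ1 hsinj (fun v hv => by
    by_cases hv0 : v = 0
    · refine ⟨0, ?_⟩
      subst hv0
      simp [s, sm_zero]
    · exact hfix v hv0 hv)
  have hι : Nonempty ι := Fintype.card_pos_iff.1 (by omega)
  obtain ⟨v₀, hv₀⟩ : ∃ v₀ : ι → F, v₀ ≠ 0 := by
    obtain ⟨i⟩ := hι
    exact ⟨Pi.single i 1, fun h0 => by
      have := congrFun h0 i
      simp at this⟩
  have hs₀ : sm Y.1 v₀ ≠ 0 := by
    intro h
    apply hv₀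
    rw [← sm_inv_sm Y.1 v₀, h, sm_zero]
  have hright : ∀ k : F, Y.1.right k = k := by
    intro k
    have h1 := hτ1 (algebraMap F K k) v₀
    rw [hτid] at h1
    change sm Y.1 (algebraMap F K k • v₀) = algebraMap F K k • sm Y.1 v₀ at h1
    rw [algebraMap_smul, algebraMap_smul, sm_smul] at h1
    have h4 : (Y.1.right k - k) • sm Y.1 v₀ = 0 := by rw [sub_smul, h1, sub_self]
    exact sub_eq_zero.1 ((smul_eq_zero.1 h4).resolve_right hs₀)
  have hr1 : Y.1.right = 1 := by
    ext k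
    exact hright k
  set A := u α with hA
  set A' := u' α with hA'
  have hsmv : ∀ v, sm Y.1 v = A • v + A' • (M *ᵥ v) := by
    intro v
    have h1 : sm Y.1 v = α • v := hα v
    rw [h1]
    conv_lhs => rw [hdec α]
    exact smul_coord hθ _ _ _
  obtain ⟨μ, hμ⟩ := (mem_Ss (⇑Q)).1 Y.2
  have hpol : ∀ v w, polar (⇑Q) (M *ᵥ v) (M *ᵥ w) = c * polar (⇑Q) v w := by
    intro x y
    simp only [polar]
    rw [← Matrix.mulVec_add, hmult, hmult, hmult]
    ring
  have hrel : ∀ v w, (A * A + c * (A' * A') - μ) * polar (⇑Q) v w + (2 * A * A') * polar (⇑Q) (M *ᵥ v) w = 0 := by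
    intro v w
    have h1 := polar_sm hμ v w
    rw [hright, hsmv, hsmv] at h1
    simp only [polar_add_left, polar_add_right, polar_smul_left', polar_smul_right', hpol] at h1
    rw [← self_adjoint hc0 hMM hmult v w] at h1
    linear_combination h1
  have hvec : ∀ v, (A * A + c * (A' * A') - μ) • v + (2 * A * A') • (M *ᵥ v) = 0 := by
    intro v
    apply polarNondeg_of_nondeg Q hQ
    intro w
    rw [polar_add_left, polar_smul_left', polar_smul_left']
    exact hrel v w
  have hR : 2 * A * A' = 0 := by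
    by_contra hR
    apply hc
    set P := A * A + c * (A' * A') - μ with hP
    set R := 2 * A * A' with hR'
    have h1 : ∀ v, M *ᵥ v = (-(P / R)) • v := by
      intro v
      have h4 := hvec v
      have h5 : R • (M *ᵥ v) = R • ((-(P / R)) • v) := by
        rw [smul_smul]
        have : R * -(P / R) = -P := by
          field_simp
        rw [this, neg_smul]
        exact eq_neg_of_add_eq_zero_right h4
      exact smul_right_injective _ hR h5
    refine ⟨-(P / R), ?_⟩
    have h4 := hMM v₀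
    rw [h1 (M *ᵥ v₀), h1 v₀, smul_smul] at h4
    have h5 : (c - (-(P / R)) * (-(P / R))) • v₀ = 0 := by
      rw [sub_smul, h4, sub_self]
    exact sub_eq_zero.1 ((smul_eq_zero.1 h5).resolve_right hv₀)
  have hAA : A = 0 ∨ A' = 0 := by
    have h1 : A * A' = 0 := by
      have h4 : 2 * (A * A') = 0 := by linear_combination hR
      exact (mul_eq_zero.1 h4).resolve_left h2
    exact mul_eq_zero.1 h1
  rcases hAA with h0 | h0
  · -- the similarity itself
    have hA'0 : A' ≠ 0 := by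
      intro h
      apply hα0
      rw [hdec α, ← hA, ← hA', h0, h]
      simp
    have h1 : semiHom (⇑Q) Y = simHom (⇑Q) g := by
      apply semiHom_eq_of_sm hQ hn hr1 hA'0
      intro v
      rw [hsmv, h0, zero_smul, zero_add]
    have h4 : simHom (⇑Q) g * simHom (⇑Q) g = 1 := by
      rw [← map_mul]
      have h5 : g * g ∈ (simHom (⇑Q)).ker := by
        rw [ker_simHom hQ (by omega), mem_ZG]
        refine ⟨Units.mk0 c hc0, ?_⟩
        apply Matrix.ext_of_mulVec_single
        intro j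
        show (M * M) *ᵥ _ = _
        rw [← Matrix.mulVec_mulVec, hMM, Matrix.smul_mulVec, Matrix.one_mulVec]
        rfl
      exact h5
    rw [← h1] at h4
    exact eq_one_of_sq hLodd hy h4
  · -- a scalar
    have hA0 : A ≠ 0 := by
      intro h
      apply hα0
      rw [hdec α, ← hA, ← hA', h0, h]
      simp
    apply semiHom_one_of_sm hQ hn hr1 hA0
    intro v
    rw [hsmv, h0, zero_smul, add_zero]

end Main

end Cfsg.Agent.Lib.Classical.OrthAut.BalE
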