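import Mathlib
import Cfsg.Agent.Lib.Classical.OrthAut.BalE

/-!
# Graph involutions: the balance theorem
-/

set_option autoImplicit false
set_option linter.unusedSectionVars false
set_option linter.unusedVariables false
set_option linter.unusedSimpArgs false
set_option linter.style.haveILetI false

namespace Cfsg.Agent.Lib.Classical.OrthAut.BalF

open Matrix QuadraticMap Module
open Cfsg.Agent.Lib.Classical.Orth.Basic
open Cfsg.Agent.Lib.Classical.Orth.SimAut
open Cfsg.Agent.Lib.Classical.Orth.SimAut2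
open Cfsg.Agent.Lib.Classical.Orth.Semi
open Cfsg.Agent.Lib.Classical.Orth.Spinor
open Cfsg.Agent.Lib.Classical.Witt.Hyp
open Cfsg.Agent.Lib.Classical.Witt.TS
open Cfsg.Agent.Lib.Classical.OrthAut.BalB
open Cfsg.Agent.Lib.Classical.OrthAut.BalC
open Cfsg.Agent.Lib.Classical.OrthAut.BalD
open Cfsg.Agent.Lib.Classical.OrthAut.BalE

universe u

variable {ι : Type} [Fintype ι] [DecidableEq ι] {F : Type u} [Field F]
variable {Q : QuadraticForm F (ι → F)}

open Polynomial in
/-- The quadratic extension generated by a square root of a non-square scalar matrix. -/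
theorem exists_K (M : Matrix ι ι F) {c : F} (hc : ¬ IsSquare c) (hMM : ∀ v, M *ᵥ (M *ᵥ v) = c • v) :
    ∃ (K : Type u) (_ : Field K) (_ : Algebra F K) (_ : Module K (ι → F)) (_ : IsScalarTower F K (ι → F)) (θ : K),
      (∀ v, θ • v = M *ᵥ v) ∧ θ * θ = algebraMap F K c ∧
      (∀ k : K, ∃ u u' : F, k = algebraMap F K u + algebraMap F K u' * θ) ∧ finrank F K = 2 ∧ Algebra.norm F θ = -c := by
  set f : F[X] := X ^ 2 - C c with hf
  have hdeg : f.natDegree = 2 := by
    rw [hf]
    compute_degree!
  have hm : f.Monic := by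
    rw [hf]
    monicity!
  have hirr : Irreducible f := by
    rw [hm.irreducible_iff_roots_eq_zero_of_degree_le_three (by omega) (by omega)]
    rw [Multiset.eq_zero_iff_forall_notMem]
    intro r hr
    have h1 := (Polynomial.mem_roots hm.ne_zero).1 hr
    apply hc
    refine ⟨r, ?_⟩
    simp [hf, Polynomial.IsRoot.def] at h1
    linear_combination -h1
  haveI : Fact (Irreducible f) := ⟨hirr⟩
  let L : Module.End F (ι → F) := Matrix.toLin' M
  have hL : aeval L f = 0 := by
    rw [hf]
    simp only [map_sub, map_pow, aeval_X, aeval_C]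
    apply LinearMap.ext
    intro v
    have h1 : (L ^ 2 - algebraMap F (Module.End F (ι → F)) c) v = M *ᵥ (M *ᵥ v) - c • v := rfl
    rw [h1, hMM, sub_self]
    rfl
  let ρ : AdjoinRoot f →ₐ[F] Module.End F (ι → F) := Ideal.Quotient.liftₐ (Ideal.span {f}) (aeval L) (by
    intro a ha
    obtain ⟨b, rfl⟩ := Ideal.mem_span_singleton'.1 ha
    rw [map_mul, hL, mul_zero])
  letI iM : Module (AdjoinRoot f) (ι → F) := Module.compHom (ι → F) (ρ : AdjoinRoot f →+* Module.End F (ι → F))
  have hsm : ∀ (k : AdjoinRoot f) (v : ι → F), k • v = ρ k v := fun _ _ => rfl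
  letI iT : IsScalarTower F (AdjoinRoot f) (ι → F) :=
    { smul_assoc := fun t k v => by
        rw [hsm, hsm, map_smul]
        rfl }
  have hρ : ρ (AdjoinRoot.root f) = L := by
    change Ideal.Quotient.liftₐ (Ideal.span {f}) (aeval L) _ (Ideal.Quotient.mk _ X) = L
    rw [Ideal.Quotient.liftₐ_apply]
    erw [Ideal.Quotient.lift_mk]
    exact aeval_X L
  have hθ2 : AdjoinRoot.root f * AdjoinRoot.root f = algebraMap F (AdjoinRoot f) c := by
    have h1 := AdjoinRoot.eval₂_root f
    rw [hf] at h1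
    simp only [eval₂_sub, eval₂_pow, eval₂_X, eval₂_C] at h1
    rw [AdjoinRoot.algebraMap_eq]
    linear_combination h1
  set pb := AdjoinRoot.powerBasis hm.ne_zero with hpb
  have hdim : pb.dim = 2 := by
    rw [hpb, AdjoinRoot.powerBasis_dim, hdeg]
  have hgen : pb.gen = AdjoinRoot.root f := by
    rw [hpb, AdjoinRoot.powerBasis_gen]
  refine ⟨AdjoinRoot f, inferInstance, inferInstance, iM, iT, AdjoinRoot.root f, ?_, hθ2, ?_, ?_, ?_⟩
  · intro v
    rw [hsm, hρ]
    rfl
  · intro k
    obtain ⟨p, hp, rfl⟩ := pb.exists_eq_aeval k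
    rw [hdim] at hp
    have h1 := Polynomial.eq_X_add_C_of_natDegree_le_one (p := p) (by omega)
    refine ⟨p.coeff 0, p.coeff 1, ?_⟩
    conv_lhs => rw [h1]
    rw [hgen]
    simp only [map_add, map_mul, aeval_C, aeval_X]
    ring
  · rw [pb.finrank, hdim]
  · rw [← hgen, Algebra.PowerBasis.norm_gen_eq_coeff_zero_minpoly, hdim, hgen]
    rw [show minpoly F (AdjoinRoot.root f) = f from ?_]
    · rw [hf]
      simp
    · rw [AdjoinRoot.minpoly_root hm.ne_zero, hm.leadingCoeff]
      simp

section Det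

variable {K : Type*} [Field K] [Algebra F K] [Module K (ι → F)] [IsScalarTower F K (ι → F)]

/-- The determinant of multiplication by a field element. -/
theorem det_of_K {M : Matrix ι ι F} {θ : K} (hθ : ∀ v, θ • v = M *ᵥ v) [Module.Free F K] :
    M.det = Algebra.norm F θ ^ finrank K (ι → F) := by
  set f : (ι → F) →ₗ[K] (ι → F) := θ • LinearMap.id with hf
  have h1 : f.restrictScalars F = Matrix.toLin' M := by
    apply LinearMap.ext
    intro v
    show θ • v = _
    rw [hθ]
    rfl
  have h3 := LinearMap.det_restrictScalars (R := F) (S := K) (A := ι → F) (f := f)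
  rw [h1, LinearMap.det_toLin', hf, LinearMap.det_smul, LinearMap.det_id, mul_one, map_pow] at h3
  exact h3

end Det

section Main

variable [Fintype F]

/-- **A normal subgroup of odd order of the centraliser of a graph involution is trivial.** -/
theorem main_graph (hQ : (polarBilin Q).Nondegenerate) (hn : 7 ≤ Fintype.card ι) (h2 : (2 : F) ≠ 0)
    (htop : ∀ β : MulAut (Cfsg.POmega F (⇑Q)), ∃ y, semiHom (⇑Q) y = β) {n : ℕ} (hcard : Fintype.card ι = 2 * n)
    (g : SimG Q) (hgg : simHom (⇑Q) g * simHom (⇑Q) g = 1) (hdet : (g.1 : Matrix ι ι F).det ≠ (mult g : F) ^ n)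
    (C L : Subgroup (MulAut (Cfsg.POmega F (⇑Q)))) (hLx : ∀ y ∈ L, y * simHom (⇑Q) g = simHom (⇑Q) g * y)
    (hCinn : ∀ α ∈ Cfsg.Inn (Cfsg.POmega F (⇑Q)), α * simHom (⇑Q) g = simHom (⇑Q) g * α → α ∈ C)
    (hLn : ∀ c ∈ C, ∀ y ∈ L, c * y * c⁻¹ ∈ L) (hLodd : Odd (Nat.card L)) : L = ⊥ := by
  classical
  set M := (g.1 : Matrix ι ι F) with hM
  have hι : Nonempty ι := Fintype.card_pos_iff.1 (by omega)
  have hker : g * g ∈ (simHom (⇑Q)).ker := by
    rw [MonoidHom.mem_ker, map_mul, hgg]
  rw [ker_simHom hQ (by omega), mem_ZG] at hker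
  obtain ⟨t, ht⟩ := hker
  have hMM : ∀ v, M *ᵥ (M *ᵥ v) = (t : F) • v := by
    intro v
    rw [Matrix.mulVec_mulVec]
    have h1 : M * M = (t : F) • 1 := ht
    rw [h1, Matrix.smul_mulVec, Matrix.one_mulVec]
  have hμ : ∀ v, Q (M *ᵥ v) = (mult g : F) * Q v := mult_spec g
  set μ := (mult g : F) with hμdef
  have hμ0 : μ ≠ 0 := Units.ne_zero _
  obtain ⟨v₀, hv₀⟩ := exists_ne_zero_value Q hQ hι
  have hμt : μ = t ∨ μ = -t := by
    have h1 := hμ (M *ᵥ v₀)
    rw [hMM, hμ, Q_smul] at h1
    have h3 : (μ * μ - t * t) * Q v₀ = 0 := by linear_combination -h1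
    have h4 := sub_eq_zero.1 ((mul_eq_zero.1 h3).resolve_right hv₀)
    exact mul_self_eq_mul_self_iff.1 h4
  have ht0 : (t : F) ≠ 0 := t.ne_zero
  by_cases hsq : IsSquare (t : F)
  · -- the square case: reduce to an involution
    obtain ⟨e, he⟩ := hsq
    have he0 : e ≠ 0 := by
      rintro rfl
      apply ht0
      rw [he, mul_zero]
    set u : Fˣ := Units.mk0 e⁻¹ (inv_ne_zero he0) with hu
    set g₁ : SimG Q := scalG u * g with hg₁
    set M₁ : Matrix ι ι F := (g₁.1 : Matrix ι ι F) with hM₁
    have hM₁e : M₁ = e⁻¹ • M := by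
      rw [Matrix.smul_eq_diagonal_mul]
      rfl
    have hM₁v : ∀ v, M₁ *ᵥ v = e⁻¹ • (M *ᵥ v) := fun v => by
      rw [hM₁e, Matrix.smul_mulVec]
    have hinv : ∀ v, M₁ *ᵥ (M₁ *ᵥ v) = v := by
      intro v
      rw [hM₁v, hM₁v, Matrix.mulVec_smul, hMM, smul_smul, smul_smul, he]
      have : e⁻¹ * e⁻¹ * (e * e) = 1 := by
        field_simp
      rw [this, one_smul]
    have hdetM₁ : M.det = (e * e) ^ n * M₁.det := by
      rw [hM₁e, Matrix.det_smul, hcard, ← mul_assoc, pow_mul]
      have h1 : (e * e) ^ n * (e⁻¹ ^ 2) ^ n = 1 := by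
        rw [← mul_pow]
        have : e * e * e⁻¹ ^ 2 = 1 := by
          field_simp
        rw [this, one_pow]
      rw [h1, one_mul]
    have hQM₁ : ∀ v, Q (M₁ *ᵥ v) = (e⁻¹ * e⁻¹ * μ) * Q v := by
      intro v
      rw [hM₁v, Q_smul, hμ]
      ring
    have hfr := finrank_eigM hinv h2
    have hdet1 := det_eigM hinv h2
    rcases hμt with hμt | hμt
    · -- an isometric involution
      have hiso : ∀ v, Q (M₁ *ᵥ v) = Q v := by
        intro v
        rw [hQM₁, hμt, he]
        have : e⁻¹ * e⁻¹ * (e * e) = 1 := by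
          field_simp
        rw [this, one_mul]
      let g₀ : ↥(Cfsg.isometryGroup F (⇑Q)) := ⟨g₁.1, (mem_isometryGroup_iff Q _).2 hiso⟩
      have hx : simHom (⇑Q) (ofO g₀) = simHom (⇑Q) g := by
        have h1 : ofO g₀ = g₁ := rfl
        rw [h1, hg₁, map_mul]
        have h3 : simHom (⇑Q) (scalG u) = 1 := by
          have h4 : scalG u ∈ (simHom (⇑Q)).ker := by
            rw [ker_simHom hQ (by omega), mem_ZG]
            refine ⟨u, ?_⟩
            show Matrix.scalar ι (u : F) = _
            ext i j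
            simp [Matrix.scalar_apply, Matrix.smul_apply, Matrix.one_apply, Matrix.diagonal_apply]
          exact h4
        rw [h3, one_mul]
      have hne1 : M₁.det ≠ 1 := by
        intro h
        apply hdet
        rw [hdetM₁, h, mul_one, hμt, he]
      have hm : Odd (finrank F ↥(eigM M₁ (-1))) := by
        by_contra hcon
        rw [Nat.not_odd_iff_even] at hcon
        apply hne1
        rw [hdet1, hcon.neg_one_pow]
      have hp : Odd (finrank F ↥(eigM M₁ 1)) := by
        by_contra hcon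
        rw [Nat.not_odd_iff_even] at hcon
        obtain ⟨a, ha⟩ := hcon
        obtain ⟨b, hb⟩ := hm
        omega
      refine main_invol (g₀ := g₀) hinv hQ hn h2 htop hp hm C L ?_ ?_ hLn hLodd
      · rw [hx]
        exact hLx
      · rw [hx]
        exact hCinn
    · -- an anti-isometric involution: impossible
      exfalso
      have hanti : ∀ v, Q (M₁ *ᵥ v) = - Q v := by
        intro v
        rw [hQM₁, hμt, he]
        have : e⁻¹ * e⁻¹ * -(e * e) = -1 := by
          field_simp
        rw [this]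
        ring
      have hnd := polarNondeg_of_nondeg Q hQ
      have hTS : ∀ ε : F, ε * ε = 1 → IsTS Q (eigM M₁ ε) := by
        intro ε hε w hw
        have h1 := hanti w
        rw [mem_eigM.1 hw, Q_smul, hε, one_mul] at h1
        have h3 : (2 : F) * Q w = 0 := by linear_combination h1
        exact (mul_eq_zero.1 h3).resolve_left h2
      have h3 := IsTS.two_mul_finrank_le hnd (hTS 1 (by ring))
      have h4 := IsTS.two_mul_finrank_le hnd (hTS (-1) (by ring))
      rw [Module.finrank_fintype_fun_eq_card, hcard] at h3 h4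
      have h5 : finrank F ↥(eigM M₁ (-1)) = n := by omega
      apply hdet
      rw [hdetM₁, hdet1, h5, hμt, he, ← mul_pow]
      congr 1
      ring
  · -- the non-square case
    obtain ⟨K, iK, iA, iM, iT, θ, hθ, hθ2, hdec, hfin, hnorm⟩ := exists_K M hsq hMM
    have hfin2 := Module.finrank_mul_finrank F K (ι → F)
    rw [hfin, Module.finrank_fintype_fun_eq_card, hcard] at hfin2
    have hn' : finrank K (ι → F) = n := by omega
    have hdetK := det_of_K hθ
    rw [hnorm, hn'] at hdetK
    rcases hμt with hμt | hμt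
    · have hodd : Odd n := by
        by_contra hcon
        rw [Nat.not_odd_iff_even] at hcon
        apply hdet
        rw [hdetK, hcon.neg_pow, hμt]
      refine main_sqrt hQ hn h2 htop g hsq hMM ?_ hθ hθ2 hdec (by rwa [hn']) (by rw [hn']; omega) C L hLx hCinn hLn hLodd
      intro v
      rw [← hμt]
      exact hμ v
    · exact absurd (by rw [hdetK, hμt]) hdet

end Main

end Cfsg.Agent.Lib.Classical.OrthAut.BalF
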