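import Mathlib
import Cfsg.Agent.Lib.Classical.OrthAut.BalF
import Cfsg.Agent.Lib.Classical.OrthAut.MinusG
import Cfsg.Agent.Lib.Classical.OrthAut.FldBal3

/-!
# Local balance for `PΩ⁻`: assembling the cases
-/

set_option autoImplicit false
set_option linter.unusedSectionVars false
set_option linter.unusedVariables false
set_option linter.unusedSimpArgs false
set_option linter.style.haveILetI false

namespace Cfsg.Agent.Lib.Classical.OrthAut.BalG

open Matrix QuadraticMap Module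
open Cfsg.Agent.Lib.Classical.Orth.Basic
open Cfsg.Agent.Lib.Classical.Orth.SimAut
open Cfsg.Agent.Lib.Classical.Orth.SimAut2
open Cfsg.Agent.Lib.Classical.Orth.Semi
open Cfsg.Agent.Lib.Classical.Orth.Spinor
open Cfsg.Agent.Lib.Classical.Orth.Models
open Cfsg.Agent.Lib.Classical.Orth.Dickson
open Cfsg.Agent.Lib.Classical.Herm.Descent
open Cfsg.Agent.Lib.Classical.Witt.Hyp
open Cfsg.Agent.Lib.Classical.Witt.Index
open Cfsg.Agent.Lib.Linalg.OrthModels
open Cfsg.Agent.Lib.Classical.OrthAut.Fld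
open Cfsg.Agent.Lib.Classical.OrthAut.FldConj
open Cfsg.Agent.Lib.Classical.OrthAut.FldBal
open Cfsg.Agent.Lib.Classical.OrthAut.MinusA
open Cfsg.Agent.Lib.Classical.OrthAut.MinusB
open Cfsg.Agent.Lib.Classical.OrthAut.MinusC
open Cfsg.Agent.Lib.Classical.OrthAut.MinusD
open Cfsg.Agent.Lib.Classical.OrthAut.MinusE
open Cfsg.Agent.Lib.Classical.OrthAut.MinusF
open Cfsg.Agent.Lib.Classical.OrthAut.MinusG

attribute [local instance] finite_ringAut

universe u v

section Abs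

variable {X Y : Type*} [Group X] [Group Y]

theorem core_bot_of_equiv (e : X ≃* Y) (p : ℕ) (h : Cfsg.pPrimeCore p X = ⊥) : Cfsg.pPrimeCore p Y = ⊥ := by
  unfold Cfsg.pPrimeCore at *
  rw [sSup_eq_bot] at h ⊢
  rintro N ⟨hN, hc⟩
  have hcard : Nat.card (N.comap e.toMonoidHom) = Nat.card N := by
    apply Nat.card_congr
    exact (e.toEquiv.subtypeEquiv (fun k => Iff.rfl))
  have h1 := h (N.comap e.toMonoidHom) ⟨hN.comap _, by rwa [hcard]⟩
  rw [eq_bot_iff]
  intro y hy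
  obtain ⟨k, rfl⟩ := e.surjective y
  have h2 : k ∈ N.comap e.toMonoidHom := hy
  rw [h1, Subgroup.mem_bot] at h2
  rw [h2, map_one]
  exact Subgroup.one_mem _

theorem core_ne_bot_congr (e : X ≃* Y) (p : ℕ) : Cfsg.pPrimeCore p X ≠ ⊥ ↔ Cfsg.pPrimeCore p Y ≠ ⊥ :=
  not_congr ⟨core_bot_of_equiv e p, core_bot_of_equiv e.symm p⟩

theorem core_transport (Φ : X ≃* Y) (A : Subgroup (MulAut X)) (x : MulAut X) (p : ℕ) :
    Cfsg.pPrimeCore p ↥(A ⊓ Subgroup.centralizer {x}) ≠ ⊥ ↔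
      Cfsg.pPrimeCore p ↥(A.map (autCongr Φ).toMonoidHom ⊓ Subgroup.centralizer {autCongr Φ x}) ≠ ⊥ := by
  have hP : ∀ α, autCongr Φ α ∈ A.map (autCongr Φ).toMonoidHom ↔ α ∈ A := by
    intro α
    constructor
    · rintro ⟨β, hβ, he⟩
      have : β = α := (autCongr Φ).injective he
      rwa [← this]
    · intro h
      exact ⟨α, h, rfl⟩
  obtain ⟨e⟩ := cent_transport (autCongr Φ) hP x
  exact core_ne_bot_congr e p

theorem card_fix_transport (Φ : X ≃* Y) (x : MulAut X) :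
    Nat.card ↥(MonoidHom.eqLocus (autCongr Φ x).toMonoidHom (MonoidHom.id Y)) =
      Nat.card ↥(MonoidHom.eqLocus x.toMonoidHom (MonoidHom.id X)) := by
  symm
  apply Nat.card_congr
  refine Φ.toEquiv.subtypeEquiv (fun k => ?_)
  change x k = k ↔ Φ.symm.trans (x.trans Φ) (Φ k) = Φ k
  constructor
  · intro h
    change Φ (x (Φ.symm (Φ k))) = Φ k
    rw [MulEquiv.symm_apply_apply, h]
  · intro h
    have h1 : Φ (x (Φ.symm (Φ k))) = Φ k := h
    rw [MulEquiv.symm_apply_apply] at h1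
    exact Φ.injective h1

theorem pow_transport (Φ : X ≃* Y) (x : MulAut X) (y : MulAut Y) (h : y = autCongr Φ x) {p : ℕ} (hp : x ^ p = 1) : y ^ p = 1 := by
  rw [h, ← map_pow, hp, map_one]

/-- To show that the core vanishes it suffices to treat the subgroups of the ambient group. -/
theorem core_bot_of_main {T : Type*} [Group T] (C : Subgroup T)
    (hmain : ∀ L : Subgroup T, L ≤ C → (∀ c ∈ C, ∀ y ∈ L, c * y * c⁻¹ ∈ L) → Odd (Nat.card L) → L = ⊥) :
    Cfsg.pPrimeCore 2 C = ⊥ := by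
  unfold Cfsg.pPrimeCore
  rw [sSup_eq_bot]
  rintro N ⟨hN, hc⟩
  have hinj : Function.Injective C.subtype := C.subtype_injective
  have hcard : Nat.card (N.map C.subtype) = Nat.card N :=
    Nat.card_congr (N.equivMapOfInjective _ hinj).toEquiv.symm
  have hL := hmain (N.map C.subtype) (by
      rintro _ ⟨n, _, rfl⟩
      exact n.2) (by
      rintro c hc' _ ⟨n, hn, rfl⟩
      exact ⟨⟨c, hc'⟩ * n * ⟨c, hc'⟩⁻¹, hN.conj_mem _ hn _, rfl⟩) (by
      rw [hcard]
      exact Nat.coprime_two_right.1 hc)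
  rw [eq_bot_iff]
  intro y hy
  have h1 : (y : T) ∈ N.map C.subtype := ⟨y, hy, rfl⟩
  rw [hL, Subgroup.mem_bot] at h1
  rw [Subgroup.mem_bot]
  exact Subtype.ext h1

end Abs

section Transport

variable {ι : Type} [Fintype ι] [DecidableEq ι] {F : Type*} [Field F]
variable {Q₁ Q₂ : (ι → F) → F}

/-- Transport of a semisimilarity along an isometry. -/
theorem transport_semi (g : GL ι F) (hg : ∀ v, Q₂ ((g : Matrix ι ι F) *ᵥ v) = Q₁ v) (X : ↥(Ss Q₁)) :
    ∃ X' : ↥(Ss Q₂), X'.1.right = X.1.right ∧ semiHom Q₂ X' = autCongr (pIso g hg) (semiHom Q₁ X) := by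
  set X₁ : GS ι F := SemidirectProduct.inl g * X.1 * SemidirectProduct.inl g⁻¹ with hX₁
  have hsm : ∀ v, sm X₁ v = (g : Matrix ι ι F) *ᵥ sm X.1 (((g⁻¹ : GL ι F) : Matrix ι ι F) *ᵥ v) := by
    intro v
    rw [hX₁, sm_mul, sm_mul]
    have h1 : ∀ (h : GL ι F) (w : ι → F), sm (SemidirectProduct.inl h) w = (h : Matrix ι ι F) *ᵥ w := by
      intro h w
      simp only [sm_def, SemidirectProduct.left_inl, SemidirectProduct.right_inl]
      rfl
    rw [h1, h1]
  have hmem : X₁ ∈ Ss Q₂ := by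
    obtain ⟨c, hc⟩ := (mem_Ss Q₁).1 X.2
    refine (mem_Ss Q₂).2 ⟨c, fun v => ?_⟩
    have hr : X₁.right = X.1.right := by
      simp [hX₁]
    rw [hsm, hg, hc, inv_hg hg, hr]
  refine ⟨⟨X₁, hmem⟩, by simp [hX₁], ?_⟩
  ext y
  obtain ⟨x, rfl⟩ := (pIso g hg).surjective y
  induction x using QuotientGroup.induction_on with
  | H t =>
    rw [autCongr_apply, MulEquiv.symm_apply_apply, semiHom_mk]
    change QuotientGroup.mk _ = QuotientGroup.mk _
    congr 1
    apply Subtype.ext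
    apply Subtype.ext
    show conjG X₁ (g * t.1.1 * g⁻¹) = g * (conjG X.1 t.1.1) * g⁻¹
    have h1 : ∀ (h s : GL ι F), conjG (SemidirectProduct.inl h) s = h * s * h⁻¹ := by
      intro h s
      simp only [conjG, SemidirectProduct.left_inl, SemidirectProduct.right_inl, mapG_one]
    rw [hX₁, conjG_mul, conjG_mul, h1, h1]
    simp only [inv_inv]
    have h2 : g⁻¹ * (g * t.1.1 * g⁻¹) * g = t.1.1 := by group
    rw [h2]

end Transport

section Field

variable {F : Type u} [Field F] [Fintype F]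

/-- A rational anisotropic binary form, staying anisotropic over an extension of odd degree. -/
theorem exists_aniso_fix (σ : F ≃+* F) (hodd : Odd (orderOf σ)) :
    ∃ ζ : fixF σ, (∀ t : fixF σ, t ^ 2 + t + ζ ≠ 0) ∧ ∀ t : F, t ^ 2 + t + (ζ : F) ≠ 0 := by
  classical
  have hns : ¬ Function.Surjective (fun t : fixF σ => t ^ 2 + t) := by
    intro hs
    have hi : Function.Injective (fun t : fixF σ => t ^ 2 + t) := Finite.injective_iff_surjective.2 hs
    have h0 : (0 : fixF σ) = -1 := hi (by ring)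
    have h1 : (1 : fixF σ) = 0 := by
      linear_combination h0
    exact one_ne_zero h1
  rw [Function.Surjective] at hns
  push Not at hns
  obtain ⟨c, hc⟩ := hns
  have hK : ∀ t : fixF σ, t ^ 2 + t + (-c) ≠ 0 := by
    intro t ht
    apply hc t
    linear_combination ht
  refine ⟨-c, hK, ?_⟩
  intro t ht
  have hζσ : σ (((-c : fixF σ)) : F) = ((-c : fixF σ) : F) := (-c : fixF σ).2
  have hσt : (σ t) ^ 2 + σ t + ((-c : fixF σ) : F) = 0 := by
    have := congrArg σ ht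
    rw [map_zero, map_add, map_add, map_pow, hζσ] at this
    exact this
  have hfac : (σ t - t) * (σ t + t + 1) = 0 := by
    linear_combination hσt - ht
  have hfixt : σ t = t := by
    rcases mul_eq_zero.1 hfac with h | h
    · exact sub_eq_zero.1 h
    · have h1 : σ t = -1 - t := by linear_combination h
      have h2 : (σ ^ 2) t = t := by
        rw [pow_two]
        change σ (σ t) = t
        rw [h1, map_sub, map_neg, map_one, h1]
        ring
      obtain ⟨k, hk⟩ := hodd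
      have h3 : ∀ n : ℕ, ((σ ^ 2) ^ n) t = t := by
        intro n
        induction n with
        | zero => rfl
        | succ n ih =>
          rw [pow_succ]
          change ((σ ^ 2) ^ n) ((σ ^ 2) t) = t
          rw [h2, ih]
      have h4 : σ = (σ ^ 2) ^ (k + 1) := by
        rw [← pow_mul]
        have : 2 * (k + 1) = orderOf σ + 1 := by omega
        rw [this, pow_succ, pow_orderOf_eq_one, one_mul]
      have h5 := h3 (k + 1)
      rw [← h4] at h5
      exact h5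
  apply hK ⟨t, hfixt⟩
  apply Subtype.ext
  exact ht

end Field

section Two

variable {F : Type u} [Field F] [Fintype F] {K : Type v} [Field K] [Fintype K] {j : K →+* F} {m : ℕ} {a b : F}

/-- A minus form does not descend along a quadratic extension. -/
theorem no_two (hc : Fintype.card F = Fintype.card K ^ 2)
    (hab : ∀ z₁ z₂ : F, z₁ ^ 2 + a * z₁ * z₂ + b * z₂ ^ 2 = 0 → z₁ = 0 ∧ z₂ = 0)
    {T : ((Fin m ⊕ Fin m) ⊕ Fin 2 → F) → ((Fin m ⊕ Fin m) ⊕ Fin 2 → F)}
    {β : Basis ((Fin m ⊕ Fin m) ⊕ Fin 2) F ((Fin m ⊕ Fin m) ⊕ Fin 2 → F)} {a₁ : F}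
    {Q₁ : QuadraticForm K ((Fin m ⊕ Fin m) ⊕ Fin 2 → K)} (hD : Desc (minusForm m F a b) j T β a₁ Q₁) : False := by
  classical
  have hV : finrank K ((Fin m ⊕ Fin m) ⊕ Fin 2 → K) = 2 * (m + 1) := by
    rw [Module.finrank_fintype_fun_eq_card]
    simp
    ring
  rcases exists_isometry_plus_or_minus (m := m + 1) (by omega) hV Q₁ hD.nd with ⟨g, hg⟩ | ⟨ζ, hζ, g, hg⟩
  · exact no_plus hab hD g hg
  · have hcompat := minus_compat j m 1 ζ
    obtain ⟨C₀, hC₀⟩ := exists_rect hcompat hD (ι' := (Fin m ⊕ Fin m) ⊕ Fin 2) g (d := 1) one_ne_zero (by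
      intro u
      rw [one_mul, ← hg u, minusQ_apply, coe_minusForm_apply]
      rfl)
    have hκ0 : a₁ * (j 1)⁻¹ ≠ 0 := by
      rw [map_one, inv_one, mul_one]
      exact hD.a0
    set κ := a₁ * (j 1)⁻¹ with hκ
    have hdisc : (j 1) ^ 2 - 4 * j ζ ≠ 0 := by
      intro h0
      have h1 := Cfsg.Agent.Lib.Classical.Orth.Semi.disc_ne_zero (anisotropic_of_no_root hζ)
      apply h1
      apply j.injective
      rw [map_zero, map_sub, map_mul, map_pow, map_ofNat]
      linear_combination -h0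
    have hQ' := Cfsg.Agent.Lib.Classical.Orth.SimAut4.minusForm_nondeg_of_disc hdisc m
    have hpol : ∀ x y, polar (minusForm m F a b) (C₀ *ᵥ x) (C₀ *ᵥ y) = κ * polar (minusForm m F (j 1) (j ζ)) x y := by
      intro x y
      simp only [polar]
      rw [← Matrix.mulVec_add, hC₀, hC₀, hC₀]
      ring
    have hinj : Function.Injective C₀.mulVecLin := by
      rw [injective_iff_map_eq_zero]
      intro x hx
      apply polarNondeg_of_nondeg (minusForm m F (j 1) (j ζ)) hQ'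
      intro y
      have h1 : C₀ *ᵥ x = 0 := hx
      have h2 := hpol x y
      rw [h1] at h2
      have h3 : polar (minusForm m F a b) (0 : (Fin m ⊕ Fin m) ⊕ Fin 2 → F) (C₀ *ᵥ y) = 0 := by
        simp only [polar, zero_add, QuadraticMap.map_zero]
        ring
      rw [h3] at h2
      exact (mul_eq_zero.1 h2.symm).resolve_left hκ0
    obtain ⟨z, hz⟩ := exists_root_quad j hc 1 ζ
    let ψ : (Option (Fin m) → F) →ₗ[F] ((Fin m ⊕ Fin m) ⊕ Fin 2 → F) :=
      { toFun := fun y => Sum.elim (Sum.elim (fun i => y (some i)) (fun _ => 0)) ![z * y none, y none]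
        map_add' := by
          intro y y'
          funext i
          rcases i with (i | i) | i
          · rfl
          · simp
          · fin_cases i
            · simp [mul_add]
            · simp
        map_smul' := by
          intro t y
          funext i
          rcases i with (i | i) | i
          · rfl
          · simp
          · fin_cases i
            · simp
              ring
            · simp }
    have hψinj : Function.Injective ψ := by
      rw [injective_iff_map_eq_zero]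
      intro y hy
      funext i
      rcases i with _ | i
      · exact congrFun hy (Sum.inr 1)
      · exact congrFun hy (Sum.inl (Sum.inl i))
    have hψQ : ∀ y, minusForm m F (j 1) (j ζ) (ψ y) = 0 := by
      intro y
      rw [coe_minusForm_apply]
      simp [Cfsg.quadFormMinus, ψ]
      have hz' : z ^ 2 + z + j ζ = 0 := by simpa using hz
      linear_combination (y none) ^ 2 * hz'
    set W := LinearMap.range (C₀.mulVecLin ∘ₗ ψ) with hW
    have hcomp : Function.Injective (C₀.mulVecLin ∘ₗ ψ) := by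
      rw [LinearMap.coe_comp]
      exact hinj.comp hψinj
    have hfin : finrank F W = m + 1 := by
      rw [hW, LinearMap.finrank_range_of_inj hcomp, Module.finrank_fintype_fun_eq_card]
      simp
    have hts : ∀ w ∈ W, minusQ m F a b w = 0 := by
      rintro _ ⟨y, rfl⟩
      rw [minusQ_apply, ← coe_minusForm]
      change minusForm m F a b (C₀ *ᵥ ψ y) = 0
      rw [hC₀, hψQ, mul_zero]
    have := finrank_le_of_ts_minus m hab W hts
    omega

end Two

section Gen

variable {ι : Type} [Fintype ι] [DecidableEq ι] {F : Type u} [Field F] [Fintype F]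
variable {K : Type v} [Field K] [Fintype K] {j : K →+* F}

/-- The balance for a field automorphism, in a form isometric to one with a rational structure. -/
theorem field_gen {r f p : ℕ} [Fact r.Prime] [CharP F r] (hF : Fintype.card F = r ^ f) (hf : 1 ≤ f)
    {Q Q' : QuadraticForm F (ι → F)} {Q₀ : QuadraticForm K (ι → K)}
    (hQ' : (polarBilin Q').Nondegenerate) (hn : 7 ≤ Fintype.card ι) (hQ₀ : (polarBilin Q₀).Nondegenerate)
    (hcompat : ∀ t : ι → K, j (Q₀ t) = Q' (fun i => j (t i))) (σ : F ≃+* F) (hσ : ∀ v, Q' (fun i => σ (v i)) = σ (Q' v))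
    (hσo : orderOf σ = p) (hp : p.Prime) (hfix : ∀ k, σ (j k) = j k) (hsurj : ∀ y, σ y = y → ∃ k, j k = y)
    (h2K : p = 2 → (2 : K) ≠ 0) (hsq : ∀ g : ↥(Cfsg.isometryGroup K (⇑Q₀)), g * g ∈ Cfsg.Omega K (⇑Q₀))
    (htop : ∀ β : MulAut (Cfsg.POmega F (⇑Q')), ∃ y, semiHom (⇑Q') y = β)
    (A : Subgroup (MulAut (Cfsg.POmega F (⇑Q)))) (hinn : ∀ k : Cfsg.POmega F (⇑Q), MulAut.conj k ∈ A)
    (x : MulAut (Cfsg.POmega F (⇑Q))) (Φ : Cfsg.POmega F (⇑Q) ≃* Cfsg.POmega F (⇑Q')) (D y : MulAut (Cfsg.POmega F (⇑Q')))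
    (hy : y = autCongr Φ x) (hDx : D * y * D⁻¹ = phi₀ σ hσ) :
    Cfsg.IsFieldAutPOmegaOf (⇑Q') σ (((Φ.trans D).symm.trans x).trans (Φ.trans D)) ∧
    (Cfsg.pPrimeCore p ↥(A ⊓ Subgroup.centralizer {x}) ≠ ⊥ ↔
      Nat.Coprime p (Nat.card ↥(MonoidHom.eqLocus x.toMonoidHom (MonoidHom.id (Cfsg.POmega F (⇑Q)))))) := by
  rw [hy] at hDx
  constructor
  · have h1 := conj_pull Φ (Φ.trans D) x
    have h2 : Φ.symm.trans (Φ.trans D) = D := by
      ext y
      simp
    rw [h2, hDx] at h1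
    rw [← h1]
    exact isField_phi₀ σ hσ
  · rw [core_transport Φ A x p, ← card_fix_transport Φ x]
    apply core_std hF hf hQ' hn hQ₀ hcompat σ hσ hσo hp hfix hsurj h2K hsq htop _ ?_ _ D ?_
    · intro k
      obtain ⟨k', rfl⟩ := Φ.surjective k
      rw [← autCongr_conj]
      exact ⟨_, hinn k', rfl⟩
    · rw [← hDx, inv_mul_cancel_right]

end Gen

section Main

variable {F : Type u} [Field F] [Fintype F] {m : ℕ}

theorem no_two_semi {r f : ℕ} [Fact r.Prime] (hF : Fintype.card F = r ^ f) (hf : 1 ≤ f) (hm : 3 ≤ m) {a b : F}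
    (hab : ∀ z₁ z₂ : F, z₁ ^ 2 + a * z₁ * z₂ + b * z₂ ^ 2 = 0 → z₁ = 0 ∧ z₂ = 0)
    (X : ↥(Ss (⇑(minusForm m F a b)))) (hσ : orderOf X.1.right = 2) (hX : semiHom _ X ^ 2 = 1) : False := by
  set σ := X.1.right with hσdef
  have hQ := minusForm_nondegenerate m a b hab
  letI : Fintype (fixF σ) := Fintype.ofFinite _
  obtain ⟨hrf, hN, hq⟩ := Cfsg.Agent.Lib.Classical.Herm.GLDescent.fix_card hF hf σ
  rw [hσ] at hrf hN hq
  have hc : Fintype.card F = Fintype.card (fixF σ) ^ 2 := by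
    rw [hF, ← Nat.card_eq_fintype_card, hN]
    exact hq
  obtain ⟨μ, β, a₁, Q₁, hμ, hD⟩ := exists_descent hQ (hn_minus hm) (j := (fixF σ).subtype) (σ := σ) (fun k => k.2)
    (fun y hy => ⟨⟨y, hy⟩, rfl⟩) rfl (by rw [hσ]; exact hX)
  exact no_two hc hab hD

theorem no_field_two {r f : ℕ} [Fact r.Prime] (hF : Fintype.card F = r ^ f) (hf : 1 ≤ f) (hm : 3 ≤ m) {a b a' b' : F}
    (hab : ∀ z₁ z₂ : F, z₁ ^ 2 + a * z₁ * z₂ + b * z₂ ^ 2 = 0 → z₁ = 0 ∧ z₂ = 0)
    (hab' : ∀ z₁ z₂ : F, z₁ ^ 2 + a' * z₁ * z₂ + b' * z₂ ^ 2 = 0 → z₁ = 0 ∧ z₂ = 0) {σ : F ≃+* F} (hσ1 : σ ≠ RingEquiv.refl F)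
    (hσa : σ a' = a') (hσb : σ b' = b') (x : MulAut (Cfsg.POmega F (⇑(minusForm m F a b))))
    (ψ : Cfsg.POmega F (⇑(minusForm m F a b)) ≃* Cfsg.POmega F (⇑(minusForm m F a' b')))
    (hφ : Cfsg.IsFieldAutPOmegaOf (⇑(minusForm m F a' b')) σ ((ψ.symm.trans x).trans ψ)) (hxr : orderOf x = 2) : False := by
  have hord := order_minus hm hab hab' hσ1 hσa hσb x ψ hφ Nat.prime_two hxr
  letI : Fintype (fixF σ) := Fintype.ofFinite _
  obtain ⟨hrf, hN, hq⟩ := Cfsg.Agent.Lib.Classical.Herm.GLDescent.fix_card hF hf σ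
  rw [hord] at hrf hN hq
  have hc : Fintype.card F = Fintype.card (fixF σ) ^ 2 := by
    rw [hF, ← Nat.card_eq_fintype_card, hN]
    exact hq
  obtain ⟨z, hz⟩ := exists_root_quad (fixF σ).subtype hc ⟨a', hσa⟩ ⟨b', hσb⟩
  have h1 := (hab' z 1 (by
    have : z ^ 2 + a' * z + b' = 0 := hz
    linear_combination this)).2
  exact one_ne_zero h1

variable {a b : F} (hm : 3 ≤ m)
    (hab : ∀ z₁ z₂ : F, z₁ ^ 2 + a * z₁ * z₂ + b * z₂ ^ 2 = 0 → z₁ = 0 ∧ z₂ = 0)

include hab in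
theorem mem_presS_of_pow (hm2 : 2 ≤ m) {g : SimG (minusForm m F a b)} {p : ℕ} (hodd : Odd p)
    (h : g ^ p ∈ presS hm2 a b hab) : g ∈ presS hm2 a b hab := by
  unfold presS at h ⊢
  rw [MonoidHom.mem_ker] at h ⊢
  rw [map_pow] at h
  rcases Int.units_eq_one_or ((Classical.choose (exists_classSign hm2 a b hab)) g) with h1 | h1
  · exact h1
  · rw [h1, hodd.neg_one_pow] at h
    exact absurd h (by decide)

include hm hab in
theorem two_of_graph {g : SimG (minusForm m F a b)} (hg : g ∉ presS (by omega : 2 ≤ m) a b hab) {p : ℕ} (hp : p.Prime)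
    (hord : orderOf (simHom _ g) = p) : p = 2 := by
  by_contra hne
  have hodd : Odd p := hp.odd_of_ne_two hne
  apply hg
  apply mem_presS_of_pow hab _ hodd
  have hQ := minusForm_nondegenerate m a b hab
  have h1 : g ^ p ∈ (simHom (⇑(minusForm m F a b))).ker := by
    rw [MonoidHom.mem_ker, map_pow, ← hord, pow_orderOf_eq_one]
  rw [ker_simHom hQ (by have := hn_minus hm; omega), mem_ZG] at h1
  obtain ⟨t, ht⟩ := h1
  have h2 : g ^ p = scalG t := by
    apply Subtype.ext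
    apply Units.ext
    rw [ht]
    ext i j
    simp [scalG, Matrix.one_apply, Matrix.scalar_apply, Matrix.diagonal_apply]
  rw [h2]
  exact scalG_mem_presS _ _ _ _ t

include hm hab in
/-- The balance for a graph involution. -/
theorem graph_case (h2 : (2 : F) ≠ 0) (A : Subgroup (MulAut (Cfsg.POmega F (⇑(minusForm m F a b)))))
    (hinn : ∀ k : Cfsg.POmega F (⇑(minusForm m F a b)), MulAut.conj k ∈ A) {g : SimG (minusForm m F a b)}
    (hg : g ∉ presS (by omega : 2 ≤ m) a b hab) (hord : orderOf (simHom _ g) = 2) :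
    Cfsg.pPrimeCore 2 ↥(A ⊓ Subgroup.centralizer {simHom _ g}) = ⊥ := by
  classical
  have hQ := minusForm_nondegenerate m a b hab
  have hgg : simHom (⇑(minusForm m F a b)) g * simHom (⇑(minusForm m F a b)) g = 1 := by
    have h1 := pow_orderOf_eq_one (simHom (⇑(minusForm m F a b)) g)
    rw [hord] at h1
    rwa [pow_two] at h1
  have hdet : (g.1 : Matrix ((Fin m ⊕ Fin m) ⊕ Fin 2) ((Fin m ⊕ Fin m) ⊕ Fin 2) F).det ≠ (mult g : F) ^ (m + 1) := by
    intro h
    apply hg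
    rw [mem_presS, Cfsg.Agent.Lib.Classical.Orth.SimAut4.minus_pres_iff h2 m a b hab]
    exact h
  apply core_bot_of_main
  intro L hLC hLn hLodd
  exact Cfsg.Agent.Lib.Classical.OrthAut.BalF.main_graph hQ (hn_minus hm) h2 (exists_Y hm hab) (n := m + 1)
    (card_minus m) g hgg hdet _ L
    (by
      intro y hy
      have h1 : y ∈ Subgroup.centralizer {simHom (⇑(minusForm m F a b)) g} := (hLC hy).2
      rw [Subgroup.mem_centralizer_iff] at h1
      exact (h1 _ rfl).symm)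
    (by
      rintro _ ⟨k, rfl⟩ hk
      refine ⟨hinn k, ?_⟩
      change MulAut.conj k ∈ Subgroup.centralizer {simHom (⇑(minusForm m F a b)) g}
      rw [Subgroup.mem_centralizer_iff]
      rintro y rfl
      exact hk.symm) hLn hLodd

include hm hab in
set_option maxHeartbeats 4000000 in
/-- The balance for a field automorphism of odd prime order. -/
theorem field_case_aux {r f p : ℕ} [Fact r.Prime] [CharP F r] (hF : Fintype.card F = r ^ f) (hf : 1 ≤ f)
    (A : Subgroup (MulAut (Cfsg.POmega F (⇑(minusForm m F a b)))))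
    (hinn : ∀ k : Cfsg.POmega F (⇑(minusForm m F a b)), MulAut.conj k ∈ A) (hp : p.Prime) (hodd : Odd p)
    (x : MulAut (Cfsg.POmega F (⇑(minusForm m F a b))))
    (X : ↥(Ss (⇑(minusForm m F a b)))) (hxX : semiHom _ X = x) (σ : F ≃+* F) (hXσ : X.1.right = σ) (hσ1 : σ ≠ 1) (hσo : orderOf σ = p)
    (hxp : x ^ p = 1) :
    (∃ (a' b' : F) (ψ : Cfsg.POmega F (⇑(minusForm m F a b)) ≃* Cfsg.POmega F (⇑(minusForm m F a' b'))) (σ : F ≃+* F),
      (∀ z₁ z₂ : F, z₁ ^ 2 + a' * z₁ * z₂ + b' * z₂ ^ 2 = 0 → z₁ = 0 ∧ z₂ = 0) ∧ σ ≠ RingEquiv.refl F ∧ σ a' = a' ∧ σ b' = b' ∧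
      Cfsg.IsFieldAutPOmegaOf (⇑(minusForm m F a' b')) σ ((ψ.symm.trans x).trans ψ)) ∧
    (Cfsg.pPrimeCore p ↥(A ⊓ Subgroup.centralizer {x}) ≠ ⊥ ↔
      Nat.Coprime p (Nat.card ↥(MonoidHom.eqLocus x.toMonoidHom (MonoidHom.id (Cfsg.POmega F (⇑(minusForm m F a b))))))) := by
  classical
  have hn := hn_minus (m := m) hm
  letI : Fintype (fixF σ) := Fintype.ofFinite _
  obtain ⟨ζ, hζK, hζF⟩ := exists_aniso_fix σ (by rw [hσo]; exact hodd)
  have hab₀ := anisotropic_of_no_root hζK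
  generalize hj : (fixF σ).subtype = j
  have hj1 : j 1 = 1 := map_one j
  have hjζ : j ζ = (ζ : F) := by rw [← hj]; rfl
  have hab' : ∀ z₁ z₂ : F, z₁ ^ 2 + j 1 * z₁ * z₂ + j ζ * z₂ ^ 2 = 0 → z₁ = 0 ∧ z₂ = 0 := by
    intro z₁ z₂ h
    apply anisotropic_of_no_root hζF
    rw [hj1, hjζ] at h
    exact h
  have hfix : ∀ k, σ (j k) = j k := by
    intro k
    rw [← hj]
    exact k.2
  have hsurj : ∀ y, σ y = y → ∃ k, j k = y := by
    intro y hy
    rw [← hj]
    exact ⟨⟨y, hy⟩, rfl⟩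
  have hσ := minus_inv (m := m) (hfix 1) (hfix ζ)
  have hQ' := minusForm_nondegenerate m _ _ hab'
  have hQ₀ := minusForm_nondegenerate m 1 ζ hab₀
  obtain ⟨g, hg⟩ := exists_gl_isometry (m := m) hab hab'
  obtain ⟨X', hX'r, hX'⟩ := transport_semi g hg X
  have hX'p : (semiHom (⇑(minusForm m F (j 1) (j ζ))) X') ^ orderOf σ = 1 := by
    rw [hσo]
    exact pow_transport _ x _ (hX'.trans (congrArg _ hxX)) hxp
  obtain ⟨c, hc, hc'⟩ := conj_std hm hab₀ hab' hfix hsurj hσ (hX'r.trans hXσ) hX'p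
  obtain ⟨h1, h2⟩ := field_gen hF hf hQ' hn hQ₀ (minus_compat _ m 1 ζ) σ hσ hσo hp hfix hsurj
    (by
      intro h
      rw [h] at hodd
      exact absurd hodd (by decide))
    (by
      intro w
      by_cases h2 : (2 : fixF σ) = 0
      · haveI : CharP (fixF σ) 2 := charP_two_of h2
        rw [mem_omega_iff_char_two hQ₀ (Or.inr (card_ne_four m (by omega))), map_mul, Int.units_mul_self]
      · exact sq_mem_omega_odd hQ₀ h2 w) (exists_Y hm hab') A hinn x (pIso g hg) _ _ (hX'.trans (congrArg _ hxX)) hc'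
  exact ⟨⟨_, _, _, σ, hab', hσ1, hfix 1, hfix ζ, h1⟩, h2⟩

set_option maxHeartbeats 4000000 in
/-- **Local balance for `PΩ⁻`.** -/
theorem main {r p : ℕ} [Fact r.Prime] [CharP F r] (hm : 3 ≤ m) (hab : ∀ z₁ z₂ : F, z₁ ^ 2 + a * z₁ * z₂ + b * z₂ ^ 2 = 0 → z₁ = 0 ∧ z₂ = 0)
    (A : Subgroup (MulAut (Cfsg.POmega F (⇑(minusForm m F a b)))))
    (hinn : ∀ k : Cfsg.POmega F (⇑(minusForm m F a b)), MulAut.conj k ∈ A) [Fact p.Prime] (hpr : p ≠ r)
    (x : MulAut (Cfsg.POmega F (⇑(minusForm m F a b)))) (hord : orderOf x = p)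
    (hnot : ¬ ∃ g : GL ((Fin m ⊕ Fin m) ⊕ Fin 2) F, g ∈ Cfsg.Geo.quadSimilarityGroup (F := F) (⇑(minusForm m F a b)) ∧
      Cfsg.PreservesSingularClassesMinus m a b (g : Matrix ((Fin m ⊕ Fin m) ⊕ Fin 2) ((Fin m ⊕ Fin m) ⊕ Fin 2) F) ∧
      Cfsg.IsInducedBySemilinearPOmega (⇑(minusForm m F a b)) g (RingEquiv.refl F) x)
    (Cl : Prop)
    (hCl1 : ∀ (a' b' : F) (ψ : Cfsg.POmega F (⇑(minusForm m F a b)) ≃* Cfsg.POmega F (⇑(minusForm m F a' b'))) (σ : F ≃+* F),
      (∀ z₁ z₂ : F, z₁ ^ 2 + a' * z₁ * z₂ + b' * z₂ ^ 2 = 0 → z₁ = 0 ∧ z₂ = 0) → σ ≠ RingEquiv.refl F → σ a' = a' → σ b' = b' →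
      Cfsg.IsFieldAutPOmegaOf (⇑(minusForm m F a' b')) σ ((ψ.symm.trans x).trans ψ) → Cl)
    (hCl2 : Cl → ∃ (a' b' : F) (ψ : Cfsg.POmega F (⇑(minusForm m F a b)) ≃* Cfsg.POmega F (⇑(minusForm m F a' b'))) (σ : F ≃+* F),
      (∀ z₁ z₂ : F, z₁ ^ 2 + a' * z₁ * z₂ + b' * z₂ ^ 2 = 0 → z₁ = 0 ∧ z₂ = 0) ∧ σ ≠ RingEquiv.refl F ∧ σ a' = a' ∧ σ b' = b' ∧
      Cfsg.IsFieldAutPOmegaOf (⇑(minusForm m F a' b')) σ ((ψ.symm.trans x).trans ψ)) :
    Cfsg.pPrimeCore p ↥(A ⊓ Subgroup.centralizer {x}) ≠ ⊥ ↔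
      (Cl ∧ Nat.Coprime p (Nat.card ↥(MonoidHom.eqLocus x.toMonoidHom (MonoidHom.id (Cfsg.POmega F (⇑(minusForm m F a b))))))) := by
  classical
  have hp : p.Prime := Fact.out
  obtain ⟨f', hr', hF⟩ := FiniteField.card F r
  have hf : 1 ≤ (f' : ℕ) := f'.pos
  have hQ := minusForm_nondegenerate m a b hab
  have hn := hn_minus (m := m) hm
  have hxp : x ^ p = 1 := by
    rw [← hord, pow_orderOf_eq_one]
  obtain ⟨X, hX⟩ := exists_Y hm hab x
  by_cases hσ1 : X.1.right = 1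
  · -- a linear map
    obtain ⟨g, hg⟩ := eq_ofSim_of_right _ (x := X) hσ1
    have hxg : simHom _ g = x := by
      rw [← semiHom_ofSim, hg, hX]
    have hgpres : g ∉ presS (by omega : 2 ≤ m) a b hab := by
      intro h
      rw [mem_presS] at h
      exact hnot ⟨g.1, g.2, h, hxg ▸ simHom_isInduced _ g⟩
    have hp2 : p = 2 := two_of_graph hm hab hgpres hp (by rw [hxg]; exact hord)
    subst hp2
    have h2 : (2 : F) ≠ 0 := by
      intro h0
      have h3 : r ∣ 2 := (CharP.cast_eq_zero_iff F r 2).1 (by exact_mod_cast h0)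
      exact hpr ((Nat.prime_dvd_prime_iff_eq hr' Nat.prime_two).1 h3).symm
    constructor
    · intro h
      apply absurd _ h
      subst hxg
      exact graph_case hm hab h2 A hinn hgpres hord
    · rintro ⟨hC, -⟩
      obtain ⟨a', b', ψ, σ, h1, h3, h4, h5, h6⟩ := hCl2 hC
      exact (no_field_two hF hf hm hab h1 h3 h4 h5 x ψ h6 hord).elim
  · have hXp : (semiHom (⇑(minusForm m F a b)) X) ^ p = 1 := by
      rw [hX]
      exact hxp
    have hσo : orderOf X.1.right = p := orderOf_right hQ hn hp hXp hσ1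
    have hodd : Odd p := by
      apply hp.odd_of_ne_two
      intro hp2
      subst hp2
      exact no_two_semi hF hf hm hab X hσo hXp
    obtain ⟨⟨a', b', ψ, σ, h1, h3, h4, h5, h6⟩, h2⟩ := field_case_aux hm hab hF hf A hinn hp hodd x X hX _ rfl hσ1 hσo hxp
    rw [h2]
    exact ⟨fun h => ⟨hCl1 a' b' ψ σ h1 h3 h4 h5 h6, h⟩, fun h => h.2⟩

end Main

end Cfsg.Agent.Lib.Classical.OrthAut.BalG
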